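import Mathlib
import Cfsg.Agent.Lib.Helper32.D8Stmt

/-!
helper95: S3716 piece ALG2 (pure algebra over the complex numbers, with a congruence modulo 9
for the two integers).
-/

set_option autoImplicit false

namespace Cfsg.Agent.Lib.Helper95.D8ALG2

open Cfsg.Agent.Lib.Helper32.D8Stmt

/-- three equations in `Y` that are inconsistent unless `Y = 0` -/
theorem sys (Y : ℂ) (mX mU : ℤ) (hX : (mX : ℂ) ≠ 0) (hU : (mU : ℂ) ≠ 0) (A C : ℂ)
    (E2 : (mX : ℂ) * A * Y = 1 + mX) (E5 : (mU : ℂ) * (-96/25) * Y = 2 * (1 - mU))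
    (E4 : (mX : ℂ) * mU * C * Y = mX + mU) (hK : A - 48/25 - C ≠ 0) : mU = 1 := by
  have hK0 : (A - 48/25 - C) * (mX * mU * Y) = 0 := by
    linear_combination (mU : ℂ) * E2 + ((mX : ℂ) / 2) * E5 - E4
  have hY : Y = 0 := by
    rcases mul_eq_zero.mp hK0 with h | h
    · exact absurd h hK
    · rcases mul_eq_zero.mp h with h | h
      · exact absurd h (mul_ne_zero hX hU)
      · exact h
  have h1 : (mU : ℂ) = 1 := by
    linear_combination (1/2 : ℂ) * E5 + (48/25 : ℂ) * mU * hY
  exact_mod_cast h1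

theorem modA (mX mU : ℤ) (h1 : mX % 9 = 2) (h2 : mU % 9 = 1)
    (h : 1600 * mU * (1 + mX) = 1617 * mX * (mU - 1)) : False := by
  obtain ⟨a, rfl⟩ : ∃ a, mX = 9 * a + 2 := ⟨mX / 9, by omega⟩
  obtain ⟨b, rfl⟩ : ∃ b, mU = 9 * b + 1 := ⟨mU / 9, by omega⟩
  have h3 : (4800 : ℤ) = 9 * (1617 * (9 * a + 2) * b - 4800 * (3 * a * b + b) - 1600 * a) := by
    linear_combination h
  omega

theorem modB (mX mU : ℤ) (h1 : mX % 9 = 2) (h2 : mU % 9 = 1)
    (h : 64 * mU * (1 + mX) = 81 * mX * (mU - 1)) : False := by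
  obtain ⟨a, rfl⟩ : ∃ a, mX = 9 * a + 2 := ⟨mX / 9, by omega⟩
  obtain ⟨b, rfl⟩ : ∃ b, mU = 9 * b + 1 := ⟨mU / 9, by omega⟩
  have h3 : (192 : ℤ) = 9 * (81 * (9 * a + 2) * b - 192 * (3 * a * b + b) - 64 * a) := by
    linear_combination h
  omega

theorem main : ALG2 := by
  intro px py ux uy n mX mU hn hmX hmU e1 e2 e3 e4 e5 e6
  have hX : (mX : ℂ) ≠ 0 := by
    intro h
    have h0 : mX = 0 := by exact_mod_cast h
    omega
  have hU : (mU : ℂ) ≠ 0 := by
    intro h
    have h0 : mU = 0 := by exact_mod_cast h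
    omega
  have hA : (mU : ℂ) * n * ((5 * ux - 13 * uy) * (ux - uy)) = 0 := by
    linear_combination 4 * e5 + e6
  have hA' : (5 * ux - 13 * uy) * (ux - uy) = 0 := by
    rcases mul_eq_zero.mp hA with h | h
    · exact absurd h (mul_ne_zero hU hn)
    · exact h
  rcases mul_eq_zero.mp hA' with hu | hu
  swap
  · have h1 : (mU : ℂ) = 1 := by
      linear_combination (1/2 : ℂ) * e5 - (1/2 : ℂ) * mU * n * (ux - 5 * uy) * hu
    exact_mod_cast h1
  obtain rfl : ux = 13/5 * uy := by linear_combination (1/5 : ℂ) * hu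
  have hB : (mX : ℂ) * n * ((7 * px - 20 * py) * (px - 4 * py)) = 0 := by
    linear_combination (-1 : ℂ) * e1 + 8 * e2
  have hB' : (7 * px - 20 * py) * (px - 4 * py) = 0 := by
    rcases mul_eq_zero.mp hB with h | h
    · exact absurd h (mul_ne_zero hX hn)
    · exact h
  have hC : (mX : ℂ) * mU * n * (((13/5 * uy - px) + 2 * (uy - py)) *
      ((13/5 * uy - px) + 10 * (uy - py))) = 0 := by
    linear_combination (-1 : ℂ) * e3 + 2 * e4
  have hC' : ((13/5 * uy - px) + 2 * (uy - py)) * ((13/5 * uy - px) + 10 * (uy - py)) = 0 := by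
    rcases mul_eq_zero.mp hC with h | h
    · exact absurd h (mul_ne_zero (mul_ne_zero hX hU) hn)
    · exact h
  rcases mul_eq_zero.mp hB' with hp | hp
  · obtain rfl : px = 20/7 * py := by linear_combination (1/7 : ℂ) * hp
    rcases mul_eq_zero.mp hC' with hd | hd
    · obtain rfl : py = 161/170 * uy := by linear_combination (-7/34 : ℂ) * hd
      exact sys (uy ^ 2 * n) mX mU hX hU (52371/28900) (243/28900)
        (by linear_combination e2) (by linear_combination e5) (by linear_combination e4)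
        (by norm_num)
    · obtain rfl : py = 49/50 * uy := by linear_combination (-7/90 : ℂ) * hd
      exfalso
      have hZ : (1600 : ℂ) * mU * (1 + mX) = 1617 * mX * (mU - 1) := by
        linear_combination (-1600 * (mU : ℂ)) * e2 + (-(1617/2) * (mX : ℂ)) * e5
      exact modA mX mU hmX hmU (by exact_mod_cast hZ)
  · obtain rfl : px = 4 * py := by linear_combination hp
    rcases mul_eq_zero.mp hC' with hd | hd
    · obtain rfl : py = 23/30 * uy := by linear_combination (-1/6 : ℂ) * hd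
      exact sys (uy ^ 2 * n) mX mU hX hU (529/300) (49/300)
        (by linear_combination e2) (by linear_combination e5) (by linear_combination e4)
        (by norm_num)
    · obtain rfl : py = 9/10 * uy := by linear_combination (-1/14 : ℂ) * hd
      exfalso
      have hZ : (64 : ℂ) * mU * (1 + mX) = 81 * mX * (mU - 1) := by
        linear_combination (-64 * (mU : ℂ)) * e2 + (-(81/2) * (mX : ℂ)) * e5
      exact modB mX mU hmX hmU (by exact_mod_cast hZ)

end Cfsg.Agent.Lib.Helper95.D8ALG2
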