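import Mathlib
import Cfsg.Agent.Lib.Helper32.D8Stmt

/-!
helper95: S3716 piece LOCza, from LOCaz: the local pair sum over two `N`-classes is symmetric
in the two classes (`u₁ u₂ = u₂ (u₂⁻¹ u₁ u₂)`, and conjugation by `u₂ ∈ N` permutes an
`N`-class).
-/

set_option autoImplicit false

namespace Cfsg.Agent.Lib.Helper95.D8LOCza

open Cfsg Cfsg.Agent.Lib.Helper32.D8Stmt

universe u

section

variable {G : Type u} [Group G] [Fintype G]

theorem mem_ncl (N : Subgroup G) (c v : G) : v ∈ ncl N c ↔ ∃ n ∈ N, v = n * c * n⁻¹ := by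
  simp only [ncl, Finset.mem_filter, Finset.mem_univ, true_and]

theorem ncl_conj_mem (N : Subgroup G) (c n v : G) (hn : n ∈ N) :
    v ∈ ncl N c ↔ n * v * n⁻¹ ∈ ncl N c := by
  rw [mem_ncl, mem_ncl]
  constructor
  · rintro ⟨m, hm, rfl⟩
    exact ⟨n * m, N.mul_mem hn hm, by group⟩
  · rintro ⟨m, hm, h⟩
    refine ⟨n⁻¹ * m, N.mul_mem (N.inv_mem hn) hm, ?_⟩
    have e : v = n⁻¹ * (n * v * n⁻¹) * n := by group
    rw [e, h]
    group

theorem mem_N_of_ncl (N : Subgroup G) (d v : G) (hd : d ∈ N) (hv : v ∈ ncl N d) : v ∈ N := by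
  rw [mem_ncl] at hv
  obtain ⟨m, hm, rfl⟩ := hv
  exact N.mul_mem (N.mul_mem hm hd) (N.inv_mem hm)

/-- the local pair sum is symmetric in the two classes -/
theorem lsum_comm (N H : Subgroup G) (φ : H → ℂ) (c d : G) (hd : d ∈ N) :
    lsum N H φ c d = lsum N H φ d c := by
  unfold lsum
  rw [Finset.sum_comm]
  apply Finset.sum_congr rfl
  intro u₂ hu₂
  have hu₂N := mem_N_of_ncl N d u₂ hd hu₂
  refine Finset.sum_equiv (MulAut.conj u₂⁻¹).toEquiv ?_ ?_
  · intro u₁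
    have h := ncl_conj_mem N c u₂⁻¹ u₁ (N.inv_mem hu₂N)
    simpa [MulAut.conj_apply] using h
  · intro u₁ _
    have e : u₁ * u₂ = u₂ * ((MulAut.conj u₂⁻¹).toEquiv u₁) := by
      simp only [MulEquiv.toEquiv_eq_coe, MulEquiv.coe_toEquiv, MulAut.conj_apply, inv_inv]
      group
    rw [e]

end

theorem main (hAZ : LOCaz.{u}) : LOCza.{u} := by
  intro G _ _ T N x y a b w hcfg f g hom
  obtain ⟨h1, h2⟩ := hAZ hcfg f g hom
  have haN : a ∈ N := hcfg.aN
  constructor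
  · rw [lsum_comm N _ _ (a * b) a haN]
    exact h1
  · rw [lsum_comm N _ _ (a * b) a haN]
    exact h2

end Cfsg.Agent.Lib.Helper95.D8LOCza
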