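import Mathlib

namespace Cfsg.Agent.Lib.Helper95.HupP1

open Module

theorem span_range_eq_top {L V M : Type*} [Field L] [AddCommGroup V] [Module L V]
    [FiniteDimensional L V] [Monoid M] (r : M →* Module.End L V)
    (hirr : ∀ W : Submodule L V, (∀ m : M, ∀ w ∈ W, r m w ∈ W) → W = ⊥ ∨ W = ⊤)
    (hcom : ∀ T : Module.End L V, (∀ m : M, T * r m = r m * T) →
      ∃ c : L, T = c • (1 : Module.End L V)) :
    Submodule.span L (Set.range r) = ⊤ := by
  rcases subsingleton_or_nontrivial V with hV | hV
  · rw [eq_top_iff]; intro T _
    have : T = 0 := by ext v; exact Subsingleton.elim _ _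
    rw [this]; exact Submodule.zero_mem _
  let A : Subalgebra L (Module.End L V) := Algebra.adjoin L (Set.range r)
  have hA : Submodule.span L (Set.range r) = Subalgebra.toSubmodule A := by
    rw [Algebra.adjoin_eq_span]
    congr 1
    have : (Submonoid.closure (Set.range r) : Submonoid (Module.End L V)) = MonoidHom.mrange r := by
      apply le_antisymm
      · rw [Submonoid.closure_le]; rintro _ ⟨m, rfl⟩; exact ⟨m, rfl⟩
      · rintro _ ⟨m, rfl⟩; exact Submonoid.subset_closure ⟨m, rfl⟩
    rw [this]; rfl
  have hrA : ∀ m : M, r m ∈ A := fun m => Algebra.subset_adjoin ⟨m, rfl⟩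
  have hsmul : ∀ (a : A) (v : V), a • v = (a : Module.End L V) v := fun a v => rfl
  -- simple module
  have : IsSimpleModule A V := by
    rw [isSimpleModule_iff]
    refine ⟨fun W => ?_⟩
    let W' : Submodule L V :=
      { carrier := W
        add_mem' := W.add_mem
        zero_mem' := W.zero_mem
        smul_mem' := by
          intro c v hv
          have h1 : (algebraMap L A c) • v ∈ W := W.smul_mem _ hv
          rw [hsmul] at h1
          simpa using h1 }
    have h2 : ∀ m : M, ∀ w ∈ W', r m w ∈ W' := by
      intro m w hw
      have h1 : (⟨r m, hrA m⟩ : A) • w ∈ W := W.smul_mem _ hw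
      exact h1
    rcases hirr W' h2 with h | h
    · left
      ext v
      have : v ∈ W' ↔ v ∈ (⊥ : Submodule L V) := by rw [h]
      have h3 : v ∈ W' ↔ v ∈ W := Iff.rfl
      rw [← h3, this]; simp
    · right
      ext v
      have : v ∈ W' ↔ v ∈ (⊤ : Submodule L V) := by rw [h]
      have h3 : v ∈ W' ↔ v ∈ W := Iff.rfl
      rw [← h3, this]; simp
  -- endomorphisms are scalars
  have hend : ∀ φ : Module.End A V, ∃ c : L, ∀ v, φ v = c • v := by
    intro φ
    let T : Module.End L V :=
      { toFun := φ
        map_add' := φ.map_add
        map_smul' := by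
          intro c v
          simp }
    have hT : ∀ m : M, T * r m = r m * T := by
      intro m
      ext v
      have h1 := φ.map_smul (⟨r m, hrA m⟩ : A) v
      exact h1
    obtain ⟨c, hc⟩ := hcom T hT
    refine ⟨c, fun v => ?_⟩
    have : T v = (c • (1 : Module.End L V)) v := by rw [hc]
    have h2 : T v = φ v := rfl
    rw [← h2, this]; simp
  have : Module.Finite (Module.End A V) V := by
    obtain ⟨s, hs⟩ := Module.Finite.fg_top (R := L) (M := V)
    refine ⟨⟨s, ?_⟩⟩
    rw [eq_top_iff]
    intro v hvt
    clear hvt
    have hv : v ∈ Submodule.span L (s : Set V) := by rw [hs]; trivial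
    induction hv using Submodule.span_induction with
    | mem x hx => exact Submodule.subset_span hx
    | zero => exact Submodule.zero_mem _
    | add x y _ _ hx hy => exact Submodule.add_mem _ hx hy
    | smul c x _ hx =>
      have h1 : (c • (1 : Module.End A V)) • x ∈ Submodule.span (Module.End A V) (s : Set V) :=
        Submodule.smul_mem _ _ hx
      simpa using h1
  rw [hA, eq_top_iff]
  intro T _
  have hsurj := Module.Finite.toModuleEnd_moduleEnd_surjective (R := A) (M := V)
  let f : Module.End (Module.End A V) V :=
    { toFun := T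
      map_add' := T.map_add
      map_smul' := by
        intro φ v
        obtain ⟨c, hc⟩ := hend φ
        simp only [Module.End.smul_def, RingHom.id_apply]
        rw [hc, hc, T.map_smul] }
  obtain ⟨a, ha⟩ := hsurj f
  have : (a : Module.End L V) = T := by
    ext v
    have h1 : (Module.toModuleEnd (Module.End A V) (S := A) V a) v = f v := by rw [ha]
    exact h1
  rw [← this]
  exact a.2

end Cfsg.Agent.Lib.Helper95.HupP1
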