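import Mathlib

set_option autoImplicit false

namespace Cfsg.Agent.Lib.Helper95.BabaiA

open Equiv Equiv.Perm

/-- If the supports of `σ` and `τ` meet exactly in the point `x`, the commutator is a 3-cycle. -/
theorem three_cycle {Ω : Type*} [Fintype Ω] [DecidableEq Ω] (σ τ : Perm Ω) (x : Ω)
    (h : ∀ z, σ z ≠ z → τ z ≠ z → z = x) (hσ : σ x ≠ x) (hτ : τ x ≠ x) :
    (σ⁻¹ * τ⁻¹ * σ * τ).IsThreeCycle := by
  set u := σ⁻¹ x with hu
  set v := τ⁻¹ x with hv
  have hσu : σ u = x := by simp [hu]
  have hτv : τ v = x := by simp [hv]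
  have hux : u ≠ x := by
    intro e; rw [e] at hσu; exact hσ hσu
  have hvx : v ≠ x := by
    intro e; rw [e] at hτv; exact hτ hτv
  -- u is in supp σ, v in supp τ
  have hσu' : σ u ≠ u := by rw [hσu]; exact fun e => hux e.symm
  have hτv' : τ v ≠ v := by rw [hτv]; exact fun e => hvx e.symm
  have hτu : τ u = u := by
    by_contra e; exact hux (h u hσu' e)
  have hσv : σ v = v := by
    by_contra e; exact hvx (h v e hτv')
  have huv : u ≠ v := by
    intro e; rw [e] at hσu'; exact hσu' hσv
  -- inverse facts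
  have inv_fix_σ : ∀ z, σ z = z → σ⁻¹ z = z := fun z hz => by
    rw [Perm.inv_eq_iff_eq]; exact hz.symm
  have inv_fix_τ : ∀ z, τ z = z → τ⁻¹ z = z := fun z hz => by
    rw [Perm.inv_eq_iff_eq]; exact hz.symm
  have ias : ∀ z, σ⁻¹ (σ z) = z := fun z => by simp
  have iat : ∀ z, τ⁻¹ (τ z) = z := fun z => by simp
  have key : σ⁻¹ * τ⁻¹ * σ * τ = swap u x * swap u v := by
    ext z
    simp only [Perm.mul_apply]
    by_cases hzx : z = x
    · subst hzx
      -- τ z is in supp τ, not z, so fixed by σ
      have h1 : τ (τ z) ≠ τ z := fun e => hτ (τ.injective e)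
      have h2 : σ (τ z) = τ z := by
        by_contra e; exact hτ (h (τ z) e h1)
      rw [h2, iat]
      rw [swap_apply_of_ne_of_ne (fun e => hux e.symm) (fun e => hvx e.symm), swap_apply_right]
    by_cases hzu : z = u
    · subst hzu
      rw [hτu, hσu, ← hv, inv_fix_σ v hσv, swap_apply_left,
        swap_apply_of_ne_of_ne (fun e => huv e.symm) hvx]
    by_cases hzv : z = v
    · subst hzv
      have h1 : σ (σ x) ≠ σ x := fun e => hσ (σ.injective e)
      have h2 : τ (σ x) = σ x := by
        by_contra e; exact hσ (h (σ x) h1 e)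
      rw [hτv, inv_fix_τ _ h2, ias, swap_apply_right, swap_apply_left]
    rw [swap_apply_of_ne_of_ne hzu hzv, swap_apply_of_ne_of_ne hzu hzx]
    by_cases hτz : τ z = z
    · rw [hτz]
      by_cases hσz : σ z = z
      · rw [hσz, inv_fix_τ z hτz, inv_fix_σ z hσz]
      · have h1 : σ (σ z) ≠ σ z := fun e => hσz (σ.injective e)
        have h2 : σ z ≠ x := by
          intro e; apply hzu; rw [hu, ← e, ias]
        have h3 : τ (σ z) = σ z := by
          by_contra e; exact h2 (h (σ z) h1 e)
        rw [inv_fix_τ _ h3, ias]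
    · have hσz : σ z = z := by
        by_contra e; exact hzx (h z e hτz)
      have h1 : τ (τ z) ≠ τ z := fun e => hτz (τ.injective e)
      have h2 : τ z ≠ x := by
        intro e; apply hzv; rw [hv, ← e, iat]
      have h3 : σ (τ z) = τ z := by
        by_contra e; exact h2 (h (τ z) e h1)
      rw [h3, iat, inv_fix_σ z hσz]
  rw [key]
  exact isThreeCycle_swap_mul_swap_same hux huv (fun e => hvx e.symm)

/-- Counting lemma: a group acting transitively on an invariant finite set `X` has an element
moving a small set `S ⊆ X` off a small set `T ⊆ X`. -/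
theorem sep {G Ω : Type*} [Group G] [Finite G] [MulAction G Ω] [DecidableEq Ω]
    (X : Finset Ω) (hinv : ∀ (h : G), ∀ a ∈ X, h • a ∈ X)
    (htr : ∀ a ∈ X, ∀ b ∈ X, ∃ h : G, h • a = b)
    (S T : Finset Ω) (hS : S ⊆ X) (hT : T ⊆ X) (hlt : S.card * T.card < X.card) :
    ∃ h : G, ∀ a ∈ S, h • a ∉ T := by
  classical
  have := Fintype.ofFinite G
  by_contra hcon
  push Not at hcon
  have hc : ∀ a ∈ X, ∀ b ∈ X,
      X.card * (Finset.univ.filter (fun h : G => h • a = b)).card = Fintype.card G := by
    intro a ha b hb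
    have h1 : Fintype.card G
        = ∑ b' ∈ X, (Finset.univ.filter (fun h : G => h • a = b')).card := by
      rw [← Finset.card_univ]
      exact Finset.card_eq_sum_card_fiberwise (fun h _ => hinv h a ha)
    rw [h1]
    symm
    apply Finset.sum_const_nat
    intro b' hb'
    obtain ⟨k, hk⟩ := htr b hb b' hb'
    symm
    apply Finset.card_bij (fun h _ => k * h)
    · intro h hh
      simp only [Finset.mem_filter, Finset.mem_univ, true_and] at hh ⊢
      rw [mul_smul, hh, hk]
    · intro h1 _ h2 _ e
      exact mul_left_cancel e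
    · intro h hh
      simp only [Finset.mem_filter, Finset.mem_univ, true_and] at hh
      refine ⟨k⁻¹ * h, ?_, by simp⟩
      simp only [Finset.mem_filter, Finset.mem_univ, true_and]
      rw [mul_smul, hh, ← hk, inv_smul_smul]
  have hcard : Fintype.card G
      ≤ ∑ a ∈ S, ∑ b ∈ T, (Finset.univ.filter (fun h : G => h • a = b)).card := by
    have hsub : (Finset.univ : Finset G) ⊆
        S.biUnion (fun a => T.biUnion (fun b => Finset.univ.filter (fun h : G => h • a = b))) := by
      intro h _
      obtain ⟨a, ha, hb⟩ := hcon h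
      simp only [Finset.mem_biUnion, Finset.mem_filter, Finset.mem_univ, true_and]
      exact ⟨a, ha, h • a, hb, rfl⟩
    calc Fintype.card G = (Finset.univ : Finset G).card := Finset.card_univ.symm
      _ ≤ _ := Finset.card_le_card hsub
      _ ≤ ∑ a ∈ S, (T.biUnion (fun b => Finset.univ.filter (fun h : G => h • a = b))).card :=
          Finset.card_biUnion_le
      _ ≤ _ := Finset.sum_le_sum (fun a _ => Finset.card_biUnion_le)
  have h2 : X.card * Fintype.card G ≤ S.card * T.card * Fintype.card G := by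
    calc X.card * Fintype.card G
        ≤ X.card * ∑ a ∈ S, ∑ b ∈ T, (Finset.univ.filter (fun h : G => h • a = b)).card :=
          Nat.mul_le_mul_left _ hcard
      _ = ∑ a ∈ S, ∑ b ∈ T, X.card * (Finset.univ.filter (fun h : G => h • a = b)).card := by
          simp only [Finset.mul_sum]
      _ = ∑ a ∈ S, ∑ b ∈ T, Fintype.card G := by
          apply Finset.sum_congr rfl; intro a ha
          apply Finset.sum_congr rfl; intro b hb
          exact hc a (hS ha) b (hT hb)
      _ = S.card * T.card * Fintype.card G := by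
          simp [mul_assoc]
  have hpos : 0 < Fintype.card G := Fintype.card_pos
  have := Nat.le_of_mul_le_mul_right h2 hpos
  omega

/-- The doubly transitive case: a primitive group not containing the alternating group, which is
doubly transitive, has no element with small support. -/
theorem two_trans_bound {G Ω : Type*} [Group G] [Finite G] [MulAction G Ω] [Fintype Ω]
    [DecidableEq Ω] (hprim : MulAction.IsPreprimitive G Ω)
    (hA : ¬ alternatingGroup Ω ≤ (MulAction.toPermHom G Ω).range)
    (h2 : ∀ p q p' q' : Ω, p ≠ q → p' ≠ q' → ∃ h : G, h • p = p' ∧ h • q = q')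
    (g : G) (S : Finset Ω) (hS : ∀ z, z ∈ S ↔ g • z ≠ z) (s₀ : Ω) (hs₀ : s₀ ∈ S) :
    Fintype.card Ω - 1 ≤ (S.card - 1) * (S.card - 1) := by
  by_contra hlt
  push Not at hlt
  have hX : (Finset.univ.erase s₀ : Finset Ω).card = Fintype.card Ω - 1 := by
    rw [Finset.card_erase_of_mem (Finset.mem_univ _), Finset.card_univ]
  have hS' : (S.erase s₀).card = S.card - 1 := Finset.card_erase_of_mem hs₀
  obtain ⟨h, hh⟩ := sep (G := MulAction.stabilizer G s₀) (Finset.univ.erase s₀)
    (by
      intro h a ha
      rw [Finset.mem_erase] at ha ⊢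
      refine ⟨?_, Finset.mem_univ _⟩
      intro e
      apply ha.1
      have h1 : (h : G) • a = (h : G) • s₀ := by
        rw [MulAction.mem_stabilizer_iff.mp h.2]; exact e
      exact smul_left_cancel _ h1)
    (by
      intro a ha b hb
      rw [Finset.mem_erase] at ha hb
      obtain ⟨k, hk1, hk2⟩ := h2 s₀ a s₀ b (fun e => ha.1 e.symm) (fun e => hb.1 e.symm)
      exact ⟨⟨k, MulAction.mem_stabilizer_iff.mpr hk1⟩, hk2⟩)
    (S.erase s₀) (S.erase s₀)
    (Finset.erase_subset_erase _ (Finset.subset_univ _))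
    (Finset.erase_subset_erase _ (Finset.subset_univ _))
    (by rw [hS', hX]; exact hlt)
  have hfix : (h : G) • s₀ = s₀ := MulAction.mem_stabilizer_iff.mp h.2
  have hfix' : (h : G)⁻¹ • s₀ = s₀ := by
    rw [inv_smul_eq_iff, hfix]
  set σ : Equiv.Perm Ω := MulAction.toPermHom G Ω g with hσ
  set τ : Equiv.Perm Ω := MulAction.toPermHom G Ω ((h : G) * g * (h : G)⁻¹) with hτ
  have hσa : ∀ z, σ z = g • z := fun z => rfl
  have hτa : ∀ z, τ z = ((h : G) * g * (h : G)⁻¹) • z := fun z => rfl
  have hτS : ∀ z, τ z ≠ z → (h : G)⁻¹ • z ∈ S := by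
    intro z hz
    rw [hS]
    intro e
    apply hz
    rw [hτa, mul_smul, mul_smul, e, smul_inv_smul]
  have h3 : (σ⁻¹ * τ⁻¹ * σ * τ).IsThreeCycle := by
    apply three_cycle σ τ s₀
    · intro z hz1 hz2
      by_contra hne
      have hzS : z ∈ S := (hS z).mpr hz1
      have haS := hτS z hz2
      have hane : (h : G)⁻¹ • z ≠ s₀ := by
        intro e
        apply hne
        rw [inv_smul_eq_iff, hfix] at e
        exact e
      have := hh ((h : G)⁻¹ • z) (Finset.mem_erase.mpr ⟨hane, haS⟩)
      apply this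
      rw [Finset.mem_erase]
      refine ⟨?_, ?_⟩
      · show (h : G) • (h : G)⁻¹ • z ≠ s₀
        rw [smul_inv_smul]; exact hne
      · show (h : G) • (h : G)⁻¹ • z ∈ S
        rw [smul_inv_smul]; exact hzS
    · exact (hS s₀).mp hs₀
    · rw [hτa, mul_smul, mul_smul, hfix']
      intro e
      have e2 : g • s₀ = s₀ := by
        have := congrArg (fun w => (h : G)⁻¹ • w) e
        simpa [hfix'] using this
      exact (hS s₀).mp hs₀ e2
  have hmem : σ⁻¹ * τ⁻¹ * σ * τ ∈ (MulAction.toPermHom G Ω).range := by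
    refine ⟨g⁻¹ * ((h : G) * g * (h : G)⁻¹)⁻¹ * g * ((h : G) * g * (h : G)⁻¹), ?_⟩
    simp only [map_mul, map_inv, hσ, hτ]
  have hprim' : MulAction.IsPreprimitive (MulAction.toPermHom G Ω).range Ω := by
    let φ : G → (MulAction.toPermHom G Ω).range := (MulAction.toPermHom G Ω).rangeRestrict
    let f : Ω →ₑ[φ] Ω := ⟨id, fun k x => rfl⟩
    exact MulAction.IsPreprimitive.of_surjective (f := f) Function.surjective_id
  exact hA (Equiv.Perm.alternatingGroup_le_of_isPreprimitive_of_isThreeCycle_mem hprim' h3 hmem)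

end Cfsg.Agent.Lib.Helper95.BabaiA
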