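import Mathlib

set_option autoImplicit false

namespace Cfsg.Agent.Lib.Helper95.BabaiB

open scoped Classical

variable {Ω : Type*} [Fintype Ω]

/-- The set of points distinguishing `x` from `y`: those `z` such that no group element maps
`x` to `y` while fixing `z`. -/
noncomputable def Dset (G : Type*) [Group G] [MulAction G Ω] (x y : Ω) : Finset Ω :=
  Finset.univ.filter (fun z => ¬ ∃ h : G, h • x = y ∧ h • z = z)

/-- Out-neighbours of `u` in the orbital digraph of the pair `(a, b)`. -/
noncomputable def Np (G : Type*) [Group G] [MulAction G Ω] (a b u : Ω) : Finset Ω :=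
  Finset.univ.filter (fun w => ∃ h : G, h • a = u ∧ h • b = w)

/-- Neighbours of `u` in the symmetrized orbital graph of the pair `(a, b)`. -/
noncomputable def Ng (G : Type*) [Group G] [MulAction G Ω] (a b u : Ω) : Finset Ω :=
  Finset.univ.filter (fun w => (∃ h : G, h • a = u ∧ h • b = w) ∨ (∃ h : G, h • a = w ∧ h • b = u))

variable {G : Type*} [Group G] [MulAction G Ω]

theorem mem_Dset {x y z : Ω} : z ∈ Dset G x y ↔ ¬ ∃ h : G, h • x = y ∧ h • z = z := by
  simp [Dset]

theorem mem_Np {a b u w : Ω} : w ∈ Np G a b u ↔ ∃ h : G, h • a = u ∧ h • b = w := by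
  simp [Np]

theorem mem_Ng {a b u w : Ω} :
    w ∈ Ng G a b u ↔ (∃ h : G, h • a = u ∧ h • b = w) ∨ (∃ h : G, h • a = w ∧ h • b = u) := by
  simp [Ng]

theorem card_eq_of_smul {F F' : Finset Ω} (k : G) (h1 : ∀ z ∈ F, k • z ∈ F')
    (h2 : ∀ z ∈ F', k⁻¹ • z ∈ F) : F.card = F'.card := by
  apply le_antisymm
  · exact Finset.card_le_card_of_injOn (fun z => k • z) h1
      (fun a _ b _ e => smul_left_cancel k e)
  · exact Finset.card_le_card_of_injOn (fun z => k⁻¹ • z) h2
      (fun a _ b _ e => smul_left_cancel k⁻¹ e)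

theorem Dset_smul {x y z : Ω} (k : G) (hz : z ∈ Dset G x y) : k • z ∈ Dset G (k • x) (k • y) := by
  rw [mem_Dset] at hz ⊢
  rintro ⟨h, h1, h2⟩
  apply hz
  refine ⟨k⁻¹ * h * k, ?_, ?_⟩
  · rw [mul_smul, mul_smul, h1, inv_smul_smul]
  · rw [mul_smul, mul_smul, h2, inv_smul_smul]

theorem Dset_card_smul (x y : Ω) (k : G) :
    (Dset G (k • x) (k • y)).card = (Dset G x y).card := by
  symm
  apply card_eq_of_smul k
  · intro z hz; exact Dset_smul k hz
  · intro z hz
    have := Dset_smul k⁻¹ hz
    rwa [inv_smul_smul, inv_smul_smul] at this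

theorem Dset_symm (x y : Ω) : Dset G x y = Dset G y x := by
  ext z
  rw [mem_Dset, mem_Dset]
  constructor
  · rintro h ⟨k, h1, h2⟩
    exact h ⟨k⁻¹, by rw [inv_smul_eq_iff, h1], by rw [inv_smul_eq_iff, h2]⟩
  · rintro h ⟨k, h1, h2⟩
    exact h ⟨k⁻¹, by rw [inv_smul_eq_iff, h1], by rw [inv_smul_eq_iff, h2]⟩

theorem Dset_triangle {x y z w : Ω} (hw : w ∈ Dset G x z) :
    w ∈ Dset G x y ∨ w ∈ Dset G y z := by
  by_contra hcon
  push Not at hcon
  obtain ⟨h1, h2⟩ := hcon
  rw [mem_Dset, not_not] at h1 h2
  obtain ⟨k1, e1, f1⟩ := h1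
  obtain ⟨k2, e2, f2⟩ := h2
  rw [mem_Dset] at hw
  exact hw ⟨k2 * k1, by rw [mul_smul, e1, e2], by rw [mul_smul, f1, f2]⟩

theorem Dset_card_triangle (x y z : Ω) :
    (Dset G x z).card ≤ (Dset G x y).card + (Dset G y z).card := by
  calc (Dset G x z).card ≤ (Dset G x y ∪ Dset G y z).card := by
        apply Finset.card_le_card
        intro w hw
        rw [Finset.mem_union]
        exact Dset_triangle hw
    _ ≤ _ := Finset.card_union_le _ _

theorem Dset_moved {x y z : Ω} (h : G) (hxy : h • x = y) (hz : z ∈ Dset G x y) : h • z ≠ z := by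
  rw [mem_Dset] at hz
  intro e
  exact hz ⟨h, hxy, e⟩

theorem left_mem_Dset {x y : Ω} (hxy : x ≠ y) : x ∈ Dset G x y := by
  rw [mem_Dset]
  rintro ⟨h, h1, h2⟩
  exact hxy (h2.symm.trans h1)

theorem Dset_pos {x y : Ω} (hxy : x ≠ y) : 0 < (Dset G x y).card :=
  Finset.card_pos.mpr ⟨x, left_mem_Dset hxy⟩

/-! ### The orbital digraph -/

theorem Np_smul {a b u w : Ω} (k : G) (hw : w ∈ Np G a b u) : k • w ∈ Np G a b (k • u) := by
  rw [mem_Np] at hw ⊢
  obtain ⟨h, h1, h2⟩ := hw
  exact ⟨k * h, by rw [mul_smul, h1], by rw [mul_smul, h2]⟩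

theorem Np_card_smul (a b u : Ω) (k : G) : (Np G a b (k • u)).card = (Np G a b u).card := by
  symm
  apply card_eq_of_smul k
  · intro z hz; exact Np_smul k hz
  · intro z hz
    have := Np_smul k⁻¹ hz
    rwa [inv_smul_smul] at this

theorem Np_card [MulAction.IsPretransitive G Ω] (a b u u' : Ω) :
    (Np G a b u).card = (Np G a b u').card := by
  obtain ⟨k, rfl⟩ := MulAction.exists_smul_eq G u' u
  exact Np_card_smul a b u' k

theorem Np_swap {a b u w : Ω} : w ∈ Np G a b u ↔ u ∈ Np G b a w := by
  rw [mem_Np, mem_Np]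
  constructor
  · rintro ⟨h, h1, h2⟩; exact ⟨h, h2, h1⟩
  · rintro ⟨h, h1, h2⟩; exact ⟨h, h2, h1⟩

theorem Np_irrefl {a b u : Ω} (hab : a ≠ b) : u ∉ Np G a b u := by
  rw [mem_Np]
  rintro ⟨h, h1, h2⟩
  exact hab (smul_left_cancel h (h1.trans h2.symm))

theorem Np_D {a b u w : Ω} (hw : w ∈ Np G a b u) : (Dset G u w).card = (Dset G a b).card := by
  rw [mem_Np] at hw
  obtain ⟨h, rfl, rfl⟩ := hw
  exact Dset_card_smul a b h

theorem Np_diff {a b u w z : Ω} (hz : z ∈ Np G a b u) (hz' : z ∉ Np G a b w) :
    z ∈ Dset G u w := by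
  rw [mem_Dset]
  rintro ⟨h, h1, h2⟩
  apply hz'
  have := Np_smul h hz
  rwa [h1, h2] at this

/-! ### The symmetrized orbital graph -/

theorem mem_Ng' {a b u w : Ω} : w ∈ Ng G a b u ↔ w ∈ Np G a b u ∨ u ∈ Np G a b w := by
  rw [mem_Ng, mem_Np, mem_Np]

theorem Ng_symm {a b u w : Ω} : w ∈ Ng G a b u ↔ u ∈ Ng G a b w := by
  rw [mem_Ng', mem_Ng', or_comm]

theorem Ng_smul {a b u w : Ω} (k : G) (hw : w ∈ Ng G a b u) : k • w ∈ Ng G a b (k • u) := by
  rw [mem_Ng'] at hw ⊢
  rcases hw with h | h
  · exact Or.inl (Np_smul k h)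
  · exact Or.inr (Np_smul k h)

theorem Ng_card_smul (a b u : Ω) (k : G) : (Ng G a b (k • u)).card = (Ng G a b u).card := by
  symm
  apply card_eq_of_smul k
  · intro z hz; exact Ng_smul k hz
  · intro z hz
    have := Ng_smul k⁻¹ hz
    rwa [inv_smul_smul] at this

theorem Ng_card [MulAction.IsPretransitive G Ω] (a b u u' : Ω) :
    (Ng G a b u).card = (Ng G a b u').card := by
  obtain ⟨k, rfl⟩ := MulAction.exists_smul_eq G u' u
  exact Ng_card_smul a b u' k

theorem Ng_irrefl {a b u : Ω} (hab : a ≠ b) : u ∉ Ng G a b u := by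
  rw [mem_Ng']
  rintro (h | h) <;> exact Np_irrefl hab h

theorem Ng_base (a b : Ω) : b ∈ Ng G a b a := by
  rw [mem_Ng]
  exact Or.inl ⟨1, one_smul _ _, one_smul _ _⟩

theorem Ng_D {a b u w : Ω} (hw : w ∈ Ng G a b u) : (Dset G u w).card = (Dset G a b).card := by
  rw [mem_Ng'] at hw
  rcases hw with h | h
  · exact Np_D h
  · rw [Dset_symm]; exact Np_D h

theorem Ng_diff {a b u w z : Ω} (hz : z ∈ Ng G a b u) (hz' : z ∉ Ng G a b w) :
    z ∈ Dset G u w := by
  rw [mem_Dset]
  rintro ⟨h, h1, h2⟩
  apply hz'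
  have := Ng_smul h hz
  rwa [h1, h2] at this

/-- If two finsets of the same size differ only inside `D`, each difference has at most half
the size of `D`. -/
theorem two_mul_sdiff_le {A B D : Finset Ω} (hc : A.card = B.card)
    (h1 : ∀ z ∈ A, z ∉ B → z ∈ D) (h2 : ∀ z ∈ B, z ∉ A → z ∈ D) :
    2 * (A \ B).card ≤ D.card := by
  have e1 : (A \ B).card + (A ∩ B).card = A.card := Finset.card_sdiff_add_card_inter A B
  have e2 : (B \ A).card + (B ∩ A).card = B.card := Finset.card_sdiff_add_card_inter B A
  rw [Finset.inter_comm] at e2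
  have e3 : (A \ B).card = (B \ A).card := by omega
  have hd : Disjoint (A \ B) (B \ A) := by
    rw [Finset.disjoint_left]
    intro z hz hz'
    rw [Finset.mem_sdiff] at hz hz'
    exact hz.2 hz'.1
  have hsub : (A \ B) ∪ (B \ A) ⊆ D := by
    intro z hz
    rw [Finset.mem_union, Finset.mem_sdiff, Finset.mem_sdiff] at hz
    rcases hz with ⟨ha, hb⟩ | ⟨hb, ha⟩
    · exact h1 z ha hb
    · exact h2 z hb ha
  have := Finset.card_le_card hsub
  rw [Finset.card_union_of_disjoint hd] at this
  omega

theorem Ng_sdiff_le [MulAction.IsPretransitive G Ω] (a b u w : Ω) :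
    2 * (Ng G a b u \ Ng G a b w).card ≤ (Dset G u w).card := by
  apply two_mul_sdiff_le (Ng_card a b u w)
  · intro z hz hz'; exact Ng_diff hz hz'
  · intro z hz hz'; rw [Dset_symm]; exact Ng_diff hz hz'

theorem Np_sdiff_le [MulAction.IsPretransitive G Ω] (a b u w : Ω) :
    2 * (Np G a b u \ Np G a b w).card ≤ (Dset G u w).card := by
  apply two_mul_sdiff_le (Np_card a b u w)
  · intro z hz hz'; exact Np_diff hz hz'
  · intro z hz hz'; rw [Dset_symm]; exact Np_diff hz hz'

/-- Double counting for a relation between two finsets. -/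
theorem dc {α β : Type*} (s : Finset α) (t : Finset β) (r : α → β → Prop)
    [∀ a b, Decidable (r a b)] :
    ∑ a ∈ s, (t.filter (fun b => r a b)).card = ∑ b ∈ t, (s.filter (fun a => r a b)).card :=
  Finset.sum_card_bipartiteAbove_eq_sum_card_bipartiteBelow r

/-- A function compatible with a primitive action that takes the same value at two points
is constant. -/
theorem const_of_compat [MulAction.IsPreprimitive G Ω] {T : Type*} (f : Ω → T)
    (hf : ∀ (g : G) (x y : Ω), f x = f y → f (g • x) = f (g • y))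
    {a b : Ω} (hab : a ≠ b) (h : f a = f b) : ∀ x, f x = f a := by
  have hB : MulAction.IsBlock G {x | f x = f a} := by
    rw [MulAction.isBlock_iff_smul_eq_of_mem]
    intro g x hx hgx
    ext z
    simp only [Set.mem_smul_set_iff_inv_smul_mem, Set.mem_ofPred_eq] at hx hgx ⊢
    constructor
    · intro hz
      have := hf g _ _ (hz.trans hx.symm)
      rw [smul_inv_smul] at this
      exact this.trans hgx
    · intro hz
      have := hf g⁻¹ _ _ (hz.trans hgx.symm)
      rw [inv_smul_smul] at this
      exact this.trans hx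
  rcases hB.subsingleton_or_eq_univ with hs | hu
  · exact absurd (hs (show a ∈ {x | f x = f a} from rfl) (show b ∈ {x | f x = f a} from h.symm)) hab
  · intro x
    have : x ∈ {x | f x = f a} := by rw [hu]; trivial
    exact this

/-- Primitivity: a nonempty set of points closed under adjacency in the symmetrized orbital
graph is everything. -/
theorem closed_univ [MulAction.IsPreprimitive G Ω] {a b : Ω} (hab : a ≠ b) (A : Set Ω)
    (hne : A.Nonempty) (hcl : ∀ u ∈ A, ∀ w ∈ Ng G a b u, w ∈ A) (z : Ω) : z ∈ A := by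
  let r : Ω → Ω → Prop := fun u w => w ∈ Ng G a b u
  have hr_smul : ∀ (k : G) (u w : Ω), Relation.EqvGen r u w →
      Relation.EqvGen r (k • u) (k • w) := by
    intro k u w h
    induction h with
    | rel u w h => exact Relation.EqvGen.rel _ _ (Ng_smul k h)
    | refl u => exact Relation.EqvGen.refl _
    | symm u w _ ih => exact Relation.EqvGen.symm _ _ ih
    | trans u v w _ _ ih1 ih2 => exact Relation.EqvGen.trans _ _ _ ih1 ih2
  have hconst := const_of_compat (G := G) (f := fun u => Quot.mk r u)
    (by intro k u w e; exact Quot.eq.mpr (hr_smul k u w (Quot.eq.mp e))) hab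
    (Quot.sound (Ng_base a b))
  have hA : ∀ u w, Relation.EqvGen r u w → (u ∈ A ↔ w ∈ A) := by
    intro u w h
    induction h with
    | rel u w h => exact ⟨fun hu => hcl u hu w h, fun hw => hcl w hw u (Ng_symm.mp h)⟩
    | refl u => exact Iff.rfl
    | symm u w _ ih => exact ih.symm
    | trans u v w _ _ ih1 ih2 => exact ih1.trans ih2
  obtain ⟨u₀, hu₀⟩ := hne
  have h1 : Relation.EqvGen r u₀ a := Quot.eq.mp (hconst u₀)
  have h2 : Relation.EqvGen r z a := Quot.eq.mp (hconst z)
  exact (hA z u₀ (h2.trans _ _ _ (h1.symm _ _))).mpr hu₀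

/-- Fact A: `n - 1 + K ≤ K δ`. -/
theorem factA [MulAction.IsPreprimitive G Ω] {a b : Ω} (hab : a ≠ b) (u : Ω) :
    Fintype.card Ω + (Ng G a b u).card ≤ (Ng G a b u).card * (Dset G a b).card + 1 := by
  have key := dc (Ng G a b u) (Finset.univ : Finset Ω) (fun w z => z ∈ Dset G u w)
  have hL : ∑ w ∈ Ng G a b u, ((Finset.univ : Finset Ω).filter (fun z => z ∈ Dset G u w)).card
      = (Ng G a b u).card * (Dset G a b).card := by
    apply Finset.sum_const_nat
    intro w hw
    rw [← Ng_D hw]
    congr 1
    ext z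
    simp
  have h1 : ((Ng G a b u).filter (fun w => u ∈ Dset G u w)).card = (Ng G a b u).card := by
    congr 1
    ext w
    simp only [Finset.mem_filter]
    constructor
    · exact fun h => h.1
    · intro hw
      exact ⟨hw, left_mem_Dset (fun e => Ng_irrefl hab (e ▸ hw))⟩
  have h2 : (Finset.univ.erase u).card
      ≤ ∑ z ∈ Finset.univ.erase u, ((Ng G a b u).filter (fun w => z ∈ Dset G u w)).card := by
    rw [Finset.card_eq_sum_ones]
    apply Finset.sum_le_sum
    intro z hz
    rw [Finset.mem_erase] at hz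
    apply Finset.card_pos.mpr
    by_contra hempty
    rw [Finset.not_nonempty_iff_eq_empty] at hempty
    have hall : ∀ w ∈ Ng G a b u, ∃ h : G, h • u = w ∧ h • z = z := by
      intro w hw
      by_contra hc
      have : w ∈ (Ng G a b u).filter (fun w => z ∈ Dset G u w) := by
        rw [Finset.mem_filter]; exact ⟨hw, mem_Dset.mpr hc⟩
      rw [hempty] at this
      exact absurd this (Finset.notMem_empty _)
    have hz_in := closed_univ hab {v | ∃ k : G, k • z = z ∧ k • u = v}
      ⟨u, 1, one_smul _ _, one_smul _ _⟩ (by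
        rintro v ⟨k, hk1, hk2⟩ w' hw'
        have h3 : k⁻¹ • w' ∈ Ng G a b u := by
          have := Ng_smul k⁻¹ hw'
          rwa [← hk2, inv_smul_smul] at this
        obtain ⟨h, h4, h5⟩ := hall _ h3
        exact ⟨k * h, by rw [mul_smul, h5, hk1], by rw [mul_smul, h4, smul_inv_smul]⟩) z
    obtain ⟨k, hk1, hk2⟩ := hz_in
    exact hz.1 (smul_left_cancel k (hk1.trans hk2.symm))
  rw [← Finset.add_sum_erase _ _ (Finset.mem_univ u), h1] at key
  rw [Finset.card_erase_of_mem (Finset.mem_univ u), Finset.card_univ] at h2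
  have hpos : 0 < Fintype.card Ω := Fintype.card_pos_iff.mpr ⟨u⟩
  rw [hL] at key
  omega

/-- Counting common out-neighbours in an orbital digraph, when all pairs of distinct points
have the same distinguishing number `δ`. -/
theorem tourn [MulAction.IsPretransitive G Ω] (a b : Ω) (δ : ℕ)
    (hd : ∀ u w : Ω, u ≠ w → (Dset G u w).card = δ) (u : Ω) :
    2 * (Finset.univ.erase u).card * (Np G a b u).card + 2 * (Np G a b u).card
      ≤ 2 * (Np G a b u).card * (Np G b a u).card + (Finset.univ.erase u).card * δ := by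
  have key := dc (Finset.univ.erase u) (Np G a b u) (fun w z => z ∈ Np G a b w)
  -- right-hand side
  have hR : ∑ z ∈ Np G a b u, ((Finset.univ.erase u).filter (fun w => z ∈ Np G a b w)).card
      + (Np G a b u).card = (Np G a b u).card * (Np G b a u).card := by
    have h1 : ∀ z ∈ Np G a b u,
        ((Finset.univ.erase u).filter (fun w => z ∈ Np G a b w)).card + 1
          = (Np G b a u).card := by
      intro z hz
      have e1 : (Finset.univ.erase u).filter (fun w => z ∈ Np G a b w) = (Np G b a z).erase u := by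
        ext w
        simp only [Finset.mem_filter, Finset.mem_erase, Finset.mem_univ, and_true]
        rw [Np_swap (a := a) (b := b) (u := w) (w := z)]
      have e2 : u ∈ Np G b a z := Np_swap.mp hz
      rw [e1, Finset.card_erase_of_mem e2, Np_card b a u z]
      have : 0 < (Np G b a z).card := Finset.card_pos.mpr ⟨u, e2⟩
      omega
    have h2 : ∑ z ∈ Np G a b u,
        (((Finset.univ.erase u).filter (fun w => z ∈ Np G a b w)).card + 1)
        = (Np G a b u).card * (Np G b a u).card := Finset.sum_const_nat h1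
    rw [Finset.sum_add_distrib, Finset.sum_const, smul_eq_mul, mul_one] at h2
    exact h2
  -- left-hand side
  have hL : 2 * (Finset.univ.erase u).card * (Np G a b u).card
      ≤ 2 * ∑ w ∈ Finset.univ.erase u, ((Np G a b u).filter (fun z => z ∈ Np G a b w)).card
        + (Finset.univ.erase u).card * δ := by
    have h1 : ∀ w ∈ Finset.univ.erase u,
        2 * (Np G a b u).card
          ≤ 2 * ((Np G a b u).filter (fun z => z ∈ Np G a b w)).card + δ := by
      intro w hw
      rw [Finset.mem_erase] at hw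
      have s1 := Np_sdiff_le (G := G) a b u w
      rw [hd u w (fun e => hw.1 e.symm)] at s1
      have e1 : (Np G a b u).filter (fun z => z ∈ Np G a b w) = Np G a b u ∩ Np G a b w := by
        ext z
        simp only [Finset.mem_filter, Finset.mem_inter]
      have e2 := Finset.card_sdiff_add_card_inter (Np G a b u) (Np G a b w)
      rw [e1]
      omega
    have h2 := Finset.sum_le_sum h1
    rw [Finset.sum_const, smul_eq_mul, Finset.sum_add_distrib, Finset.sum_const, smul_eq_mul,
      ← Finset.mul_sum] at h2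
    calc 2 * (Finset.univ.erase u).card * (Np G a b u).card
        = (Finset.univ.erase u).card * (2 * (Np G a b u).card) := by ring
      _ ≤ _ := h2
  rw [key] at hL
  nlinarith [hL, hR]

/-- The uniprimitive case of Babai's bound: if `G` is primitive but not doubly transitive, then
`n ≤ (2 δ + 1)^2` for the distinguishing number `δ` of any pair of distinct points. -/
theorem uniprim [MulAction.IsPreprimitive G Ω]
    (hn2 : ¬ ∀ p q p' q' : Ω, p ≠ q → p' ≠ q' → ∃ h : G, h • p = p' ∧ h • q = q')
    {x y : Ω} (hxy : x ≠ y) :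
    Fintype.card Ω ≤ (2 * (Dset G x y).card + 1) ^ 2 := by
  set δ := (Dset G x y).card with hδ
  set n := Fintype.card Ω with hn
  have hδpos : 0 < δ := Dset_pos hxy
  set K := (Ng G x y x).card with hK
  have hKu : ∀ u, (Ng G x y u).card = K := fun u => Ng_card x y u x
  have hA := factA (G := G) hxy x
  rw [← hK, ← hδ, ← hn] at hA
  by_cases hcase : K ≤ 2 * δ
  · have := Nat.mul_le_mul_right δ hcase
    nlinarith
  push Not at hcase
  -- (C1) all distinguishing numbers are at most `2 δ`
  have hC1 : ∀ u z : Ω, z ≠ u → (Dset G u z).card ≤ 2 * δ := by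
    intro u z hzu
    have hB := closed_univ (G := G) hxy
      {z | z = u ∨ z ∈ Ng G x y u ∨ ∃ c, c ∈ Ng G x y u ∧ c ∈ Ng G x y z} ⟨u, Or.inl rfl⟩ (by
      rintro b hb z' hz'
      rcases hb with rfl | hb | ⟨c, hc1, hc2⟩
      · exact Or.inr (Or.inl hz')
      · exact Or.inr (Or.inr ⟨b, hb, Ng_symm.mp hz'⟩)
      · have hd1 : (Dset G u b).card ≤ 2 * δ := by
          have := Dset_card_triangle (G := G) u c b
          have e1 : (Dset G u c).card = δ := Ng_D hc1
          have e2 : (Dset G c b).card = δ := Ng_D (Ng_symm.mp hc2)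
          omega
        have hd2 : (Dset G b z').card = δ := Ng_D hz'
        have s1 := Ng_sdiff_le (G := G) x y b u
        have s2 := Ng_sdiff_le (G := G) x y b z'
        rw [Dset_symm] at s1
        by_contra hcon
        have hcon' : ∀ c', c' ∈ Ng G x y u → c' ∉ Ng G x y z' := by
          intro c' h1 h2
          exact hcon (Or.inr (Or.inr ⟨c', h1, h2⟩))
        have hsub : Ng G x y b ⊆ (Ng G x y b \ Ng G x y u) ∪ (Ng G x y b \ Ng G x y z') := by
          intro c' hc'
          rw [Finset.mem_union, Finset.mem_sdiff, Finset.mem_sdiff]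
          by_cases h1 : c' ∈ Ng G x y u
          · right; exact ⟨hc', hcon' c' h1⟩
          · left; exact ⟨hc', h1⟩
        have := (Finset.card_le_card hsub).trans (Finset.card_union_le _ _)
        rw [hKu] at this
        omega)
    rcases hB z with h | h | ⟨c, hc1, hc2⟩
    · exact absurd h hzu
    · rw [Ng_D h]; omega
    · have := Dset_card_triangle (G := G) u c z
      have e1 : (Dset G u c).card = δ := Ng_D hc1
      have e2 : (Dset G c z).card = δ := Ng_D (Ng_symm.mp hc2)
      omega
  -- (C2) few non-neighbours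
  set W := Finset.univ.erase x \ Ng G x y x with hW
  have hnW : K + W.card + 1 = n := by
    have h1 : W.card + (Finset.univ.erase x ∩ Ng G x y x).card = (Finset.univ.erase x).card :=
      Finset.card_sdiff_add_card_inter (Finset.univ.erase x) (Ng G x y x)
    have h2 : Finset.univ.erase x ∩ Ng G x y x = Ng G x y x := by
      rw [Finset.inter_eq_right]
      intro z h
      rw [Finset.mem_erase]
      exact ⟨fun e => Ng_irrefl hxy (e ▸ h), Finset.mem_univ _⟩
    rw [h2, Finset.card_erase_of_mem (Finset.mem_univ x), Finset.card_univ] at h1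
    have hpos : 0 < Fintype.card Ω := Fintype.card_pos_iff.mpr ⟨x⟩
    omega
  have hWlt : W.card < δ := by
    by_contra hge
    push Not at hge
    have key := dc (Ng G x y x) W (fun w z => z ∈ Ng G x y w)
    have hU : 2 * ∑ w ∈ Ng G x y x, (W.filter (fun z => z ∈ Ng G x y w)).card ≤ K * δ := by
      have h1 : ∀ w ∈ Ng G x y x, 2 * (W.filter (fun z => z ∈ Ng G x y w)).card ≤ δ := by
        intro w hw
        have s1 := Ng_sdiff_le (G := G) x y w x
        rw [Dset_symm, Ng_D hw] at s1
        have hsub : W.filter (fun z => z ∈ Ng G x y w) ⊆ Ng G x y w \ Ng G x y x := by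
          intro z hz
          rw [Finset.mem_filter, hW, Finset.mem_sdiff] at hz
          rw [Finset.mem_sdiff]
          exact ⟨hz.2, hz.1.2⟩
        have := Finset.card_le_card hsub
        omega
      have h2 := Finset.sum_le_sum h1
      rw [Finset.sum_const, smul_eq_mul, ← Finset.mul_sum] at h2
      exact h2
    have hLo : W.card * K
        ≤ ∑ z ∈ W, ((Ng G x y x).filter (fun w => z ∈ Ng G x y w)).card + W.card * δ := by
      have h1 : ∀ z ∈ W, K ≤ ((Ng G x y x).filter (fun w => z ∈ Ng G x y w)).card + δ := by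
        intro z hz
        rw [hW, Finset.mem_sdiff, Finset.mem_erase] at hz
        have hd := hC1 x z hz.1.1
        have s1 := Ng_sdiff_le (G := G) x y z x
        rw [Dset_symm] at s1
        have e2 := Finset.card_sdiff_add_card_inter (Ng G x y z) (Ng G x y x)
        rw [hKu] at e2
        have hsub : Ng G x y z ∩ Ng G x y x ⊆ (Ng G x y x).filter (fun w => z ∈ Ng G x y w) := by
          intro w hw
          rw [Finset.mem_inter] at hw
          rw [Finset.mem_filter]
          exact ⟨hw.2, Ng_symm.mp hw.1⟩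
        have := Finset.card_le_card hsub
        omega
      have h2 := Finset.sum_le_sum h1
      rw [Finset.sum_const, smul_eq_mul, Finset.sum_add_distrib, Finset.sum_const,
        smul_eq_mul] at h2
      exact h2
    rw [key] at hU
    have p1 : δ * K ≤ W.card * K := Nat.mul_le_mul_right K hge
    have p2 : W.card * (2 * δ + 1) ≤ W.card * K := Nat.mul_le_mul_left _ hcase
    nlinarith
  -- (C3)
  by_cases hWne : W.Nonempty
  · obtain ⟨w₀, hw₀⟩ := hWne
    have hw₀' := hw₀
    rw [hW, Finset.mem_sdiff, Finset.mem_erase] at hw₀'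
    have hxw : x ≠ w₀ := fun e => hw₀'.1.1 e.symm
    have hA2 := factA (G := G) hxw x
    have hd' := hC1 x w₀ hw₀'.1.1
    have hsub : Ng G x w₀ x ⊆ W := by
      intro z hz
      rw [hW, Finset.mem_sdiff, Finset.mem_erase]
      refine ⟨⟨fun e => Ng_irrefl hxw (e ▸ hz), Finset.mem_univ _⟩, ?_⟩
      intro hzN
      rw [mem_Ng] at hz
      rcases hz with ⟨h, h1, h2⟩ | ⟨h, h1, h2⟩
      · have := Ng_smul h⁻¹ hzN
        rw [← h2, inv_smul_smul] at this
        rw [inv_smul_eq_iff.mpr h1.symm] at this
        exact hw₀'.2 this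
      · have := Ng_smul h⁻¹ hzN
        rw [← h1, inv_smul_smul, inv_smul_eq_iff.mpr h2.symm] at this
        exact hw₀'.2 (Ng_symm.mp this)
    have hK2 := Finset.card_le_card hsub
    have p1 : (Ng G x w₀ x).card * (Dset G x w₀).card ≤ δ * (2 * δ) :=
      Nat.mul_le_mul (by omega) hd'
    nlinarith
  · exfalso
    rw [Finset.not_nonempty_iff_eq_empty] at hWne
    rw [hWne, Finset.card_empty] at hnW
    -- the graph is complete
    have hcomplete : ∀ u z : Ω, z ≠ u → z ∈ Ng G x y u := by
      intro u z hzu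
      have hsub : Ng G x y u ⊆ Finset.univ.erase u := by
        intro w hw
        rw [Finset.mem_erase]
        exact ⟨fun e => Ng_irrefl hxy (e ▸ hw), Finset.mem_univ _⟩
      have hcard : (Finset.univ.erase u).card ≤ (Ng G x y u).card := by
        rw [Finset.card_erase_of_mem (Finset.mem_univ u), Finset.card_univ, hKu]
        omega
      rw [Finset.eq_of_subset_of_card_le hsub hcard, Finset.mem_erase]
      exact ⟨hzu, Finset.mem_univ _⟩
    have hdall : ∀ u w : Ω, u ≠ w → (Dset G u w).card = δ := by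
      intro u w huw
      exact Ng_D (hcomplete u w (fun e => huw e.symm))
    -- no element swaps x and y
    have hasym : ¬ ∃ h : G, h • x = y ∧ h • y = x := by
      rintro ⟨h₀, e1, e2⟩
      apply hn2
      have hall : ∀ p q : Ω, p ≠ q → ∃ h : G, h • x = p ∧ h • y = q := by
        intro p q hpq
        have := hcomplete p q (fun e => hpq e.symm)
        rw [mem_Ng] at this
        rcases this with ⟨h, h1, h2⟩ | ⟨h, h1, h2⟩
        · exact ⟨h, h1, h2⟩
        · exact ⟨h * h₀, by rw [mul_smul, e1, h2], by rw [mul_smul, e2, h1]⟩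
      intro p q p' q' hpq hpq'
      obtain ⟨h1, a1, a2⟩ := hall p q hpq
      obtain ⟨h2, b1, b2⟩ := hall p' q' hpq'
      refine ⟨h2 * h1⁻¹, ?_, ?_⟩
      · rw [mul_smul, inv_smul_eq_iff.mpr a1.symm, b1]
      · rw [mul_smul, inv_smul_eq_iff.mpr a2.symm, b2]
    have hnot_both : ∀ u w : Ω, w ∈ Np G x y u → u ∈ Np G x y w → False := by
      intro u w h1 h2
      rw [mem_Np] at h1 h2
      obtain ⟨k1, a1, a2⟩ := h1
      obtain ⟨k2, b1, b2⟩ := h2
      apply hasym
      refine ⟨k1⁻¹ * k2, ?_, ?_⟩
      · rw [mul_smul, b1, inv_smul_eq_iff, a2]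
      · rw [mul_smul, b2, inv_smul_eq_iff, a1]
    have hsum : (Np G x y x).card + (Np G y x x).card = (Finset.univ.erase x).card := by
      rw [← Finset.card_union_of_disjoint]
      · congr 1
        ext w
        rw [Finset.mem_union, Finset.mem_erase]
        constructor
        · rintro (h | h)
          · exact ⟨fun e => Np_irrefl hxy (e ▸ h), Finset.mem_univ _⟩
          · exact ⟨fun e => Np_irrefl (Ne.symm hxy) (e ▸ h), Finset.mem_univ _⟩
        · rintro ⟨hne, -⟩
          have := hcomplete x w hne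
          rw [mem_Ng'] at this
          rcases this with h | h
          · exact Or.inl h
          · exact Or.inr (Np_swap.mp h)
      · rw [Finset.disjoint_left]
        intro w h1 h2
        exact hnot_both x w h1 (Np_swap.mpr h2)
    have t1 := tourn (G := G) x y δ hdall x
    have t2 := tourn (G := G) y x δ hdall x
    have hN : (Finset.univ.erase x).card = K := by
      rw [Finset.card_erase_of_mem (Finset.mem_univ x), Finset.card_univ]
      omega
    rw [hN] at t1 t2 hsum
    set kp := (Np G x y x).card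
    set km := (Np G y x x).card
    have hKpos : 0 < K := by omega
    -- 2K(kp+km) + 2(kp+km) ≤ 4 kp km + 2 K δ, with kp + km = K
    have h4 : 4 * (kp * km) ≤ K * K := by
      rw [← hsum]
      nlinarith [sq_nonneg ((kp : ℤ) - km), mul_self_nonneg ((kp : ℤ) - km)]
    have h5 : 2 * K * K + 2 * K ≤ K * K + 2 * (K * δ) := by
      have e : 2 * K * kp + 2 * kp + (2 * K * km + 2 * km) = 2 * K * K + 2 * K := by
        rw [← hsum]; ring
      nlinarith
    have h6 : K * (K + 2) ≤ K * (2 * δ) := by nlinarith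
    have h7 := Nat.le_of_mul_le_mul_left h6 hKpos
    omega

end Cfsg.Agent.Lib.Helper95.BabaiB
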