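import Mathlib

set_option autoImplicit false

namespace Cfsg.Agent.Lib.Helper95.EqPSemi

universe u

/-- a finite field with `p ^ n` elements has characteristic `p` -/
theorem charP_of_card {F : Type*} [Field F] [Finite F] {p n : ℕ} [Fact p.Prime]
    (hF : Nat.card F = p ^ n) : CharP F p := by
  have hp : p.Prime := Fact.out
  obtain ⟨q, hq⟩ := CharP.exists F
  have hqp : q.Prime := CharP.char_is_prime F q
  letI := Fintype.ofFinite F
  obtain ⟨k, -, hk⟩ := FiniteField.card F q
  rw [← Nat.card_eq_fintype_card, hF] at hk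
  have hn : n ≠ 0 := by
    intro h0
    rw [h0, pow_zero] at hF
    have := Finite.one_lt_card (α := F)
    omega
  have h1 : p ∣ q ^ (k : ℕ) := by rw [← hk]; exact dvd_pow_self p hn
  have h2 : p = q := (Nat.prime_dvd_prime_iff_eq hp hqp).mp (hp.dvd_of_dvd_pow h1)
  rw [h2]; exact hq

/-- the number of ring automorphisms of a field with `p ^ n` elements is `n` -/
theorem card_ringAut_of_card {F : Type*} [Field F] [Finite F] {p n : ℕ} [Fact p.Prime]
    (hF : Nat.card F = p ^ n) : Nat.card (F ≃+* F) = n := by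
  have hp : p.Prime := Fact.out
  haveI : CharP F p := charP_of_card hF
  letI : Algebra (ZMod p) F := ZMod.algebra F p
  have hfr : Module.finrank (ZMod p) F = n := by
    have h1 : Nat.card F = Nat.card (ZMod p) ^ Module.finrank (ZMod p) F :=
      Module.natCard_eq_pow_finrank
    rw [hF, Nat.card_zmod] at h1
    exact (Nat.pow_right_injective hp.two_le h1).symm
  have h2 : Nat.card (F ≃ₐ[ZMod p] F) = Module.finrank (ZMod p) F :=
    IsGalois.card_aut_eq_finrank (ZMod p) F
  rw [← hfr, ← h2]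
  refine Nat.card_congr
    { toFun := fun f => AlgEquiv.ofRingEquiv (f := f) (fun x =>
        RingHom.congr_fun (Subsingleton.elim ((f : F →+* F).comp (algebraMap (ZMod p) F))
          (algebraMap (ZMod p) F)) x)
      invFun := fun g => g.toRingEquiv
      left_inv := fun f => by ext x; rfl
      right_inv := fun g => by ext x; rfl }

section gam

variable {F : Type*} [Field F]

/-- the permutation `y ↦ a * σ y` -/
def gam (a : Fˣ) (σ : F ≃+* F) : Equiv.Perm F where
  toFun y := a * σ y
  invFun y := σ.symm (((a⁻¹ : Fˣ) : F) * y)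
  left_inv y := by simp
  right_inv y := by simp

theorem gam_apply (a : Fˣ) (σ : F ≃+* F) (y : F) : gam a σ y = a * σ y := rfl

theorem gam_inj {a b : Fˣ} {σ τ : F ≃+* F} (h : gam a σ = gam b τ) : a = b ∧ σ = τ := by
  have h1 : gam a σ 1 = gam b τ 1 := by rw [h]
  rw [gam_apply, gam_apply, map_one, map_one, mul_one, mul_one] at h1
  have hab : a = b := Units.ext h1
  refine ⟨hab, RingEquiv.ext fun y => ?_⟩
  have h2 : gam a σ y = gam b τ y := by rw [h]
  rw [gam_apply, gam_apply, hab] at h2
  exact mul_left_cancel₀ b.ne_zero h2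

/-- the group of semilinear permutations `y ↦ a * σ y` of a field -/
def Gam (F : Type*) [Field F] : Subgroup (Equiv.Perm F) where
  carrier := {f | ∃ (a : Fˣ) (σ : F ≃+* F), f = gam a σ}
  one_mem' := ⟨1, RingEquiv.refl F, by ext y; simp [gam_apply]⟩
  mul_mem' := by
    rintro _ _ ⟨a, σ, rfl⟩ ⟨b, τ, rfl⟩
    refine ⟨a * Units.map (σ : F →* F) b, τ.trans σ, ?_⟩
    ext y
    simp [gam_apply, mul_assoc]
  inv_mem' := by
    rintro _ ⟨a, σ, rfl⟩
    refine ⟨Units.map (σ.symm : F →* F) a⁻¹, σ.symm, ?_⟩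
    ext y
    apply (gam a σ).injective
    rw [Equiv.Perm.inv_def, Equiv.apply_symm_apply, gam_apply, gam_apply]
    simp

theorem mem_Gam {f : Equiv.Perm F} : f ∈ Gam F ↔ ∃ (a : Fˣ) (σ : F ≃+* F), f = gam a σ := Iff.rfl

theorem card_Gam [Finite F] : Nat.card (Gam F) = Nat.card Fˣ * Nat.card (F ≃+* F) := by
  rw [← Nat.card_prod]
  refine (Nat.card_congr (Equiv.ofBijective
    (fun x : Fˣ × (F ≃+* F) => (⟨gam x.1 x.2, x.1, x.2, rfl⟩ : Gam F)) ⟨?_, ?_⟩)).symm
  · rintro ⟨a, σ⟩ ⟨b, τ⟩ h
    have h1 := gam_inj (congrArg Subtype.val h)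
    exact Prod.ext h1.1 h1.2
  · rintro ⟨f, a, σ, rfl⟩
    exact ⟨(a, σ), rfl⟩

variable {Q : Type u} [Group Q]

/-- transport of an automorphism of `Q` to a permutation of `F` -/
def cj (e : Additive Q ≃+ F) : MulAut Q →* Equiv.Perm F where
  toFun s :=
    { toFun := fun y => e (Additive.ofMul (s (Additive.toMul (e.symm y))))
      invFun := fun y => e (Additive.ofMul (s.symm (Additive.toMul (e.symm y))))
      left_inv := by intro y; simp
      right_inv := by intro y; simp }
  map_one' := by ext y; simp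
  map_mul' := by intro s t; ext y; simp

theorem cj_apply (e : Additive Q ≃+ F) (s : MulAut Q) (y : F) :
    cj e s y = e (Additive.ofMul (s (Additive.toMul (e.symm y)))) := rfl

theorem cj_apply' (e : Additive Q ≃+ F) (s : MulAut Q) (x : Q) :
    cj e s (e (Additive.ofMul x)) = e (Additive.ofMul (s x)) := by
  rw [cj_apply]; simp

theorem cj_injective (e : Additive Q ≃+ F) : Function.Injective (cj e) := by
  intro s t h
  ext x
  have h1 : cj e s (e (Additive.ofMul x)) = cj e t (e (Additive.ofMul x)) := by rw [h]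
  rw [cj_apply', cj_apply'] at h1
  exact Additive.ofMul.injective (e.injective h1)

/-- a map `x ↦ a * σ x` (transported) with `s` an automorphism lies in `Gam` -/
theorem cj_mem_Gam (e : Additive Q ≃+ F) (s : MulAut Q) (a : F) (σ : F ≃+* F)
    (hs : ∀ x : Q, e (Additive.ofMul (s x)) = a * σ (e (Additive.ofMul x))) :
    cj e s ∈ Gam F := by
  have hy : ∀ y : F, cj e s y = a * σ y := by
    intro y
    rw [cj_apply, hs]; simp
  have ha : a ≠ 0 := by
    intro h0
    have h1 := hy 1
    have h2 := hy 0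
    rw [h0, zero_mul] at h1 h2
    exact one_ne_zero ((cj e s).injective (h1.trans h2.symm))
  exact ⟨Units.mk0 a ha, σ, Equiv.ext fun y => by rw [hy, gam_apply]; rfl⟩

theorem exists_of_cj_mem_Gam (e : Additive Q ≃+ F) (s : MulAut Q) (h : cj e s ∈ Gam F) :
    ∃ (a : F) (σ : F ≃+* F), ∀ x : Q, e (Additive.ofMul (s x)) = a * σ (e (Additive.ofMul x)) := by
  obtain ⟨a, σ, h⟩ := h
  refine ⟨a, σ, fun x => ?_⟩
  rw [← cj_apply', h, gam_apply]

end gam

/-- [SEMI] order of a group of semilinear maps of a finite field -/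
theorem semi_card {Q : Type u} [Group Q] [Finite Q] {F : Type*} [Field F] [Finite F]
    {p n : ℕ} [Fact p.Prime] (hF : Nat.card F = p ^ n) (e : Additive Q ≃+ F)
    (S : Subgroup (MulAut Q))
    (hS : ∀ s ∈ S, ∃ (a : F) (σ : F ≃+* F),
      ∀ x : Q, e (Additive.ofMul (s x)) = a * σ (e (Additive.ofMul x))) :
    Nat.card S ∣ n * (p ^ n - 1) := by
  have h1 : S.map (cj e) ≤ Gam F := by
    rintro _ ⟨s, hs, rfl⟩
    obtain ⟨a, σ, h⟩ := hS s hs
    exact cj_mem_Gam e s a σ h
  have h2 : Nat.card (S.map (cj e)) = Nat.card S :=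
    Subgroup.card_map_of_injective (cj_injective e)
  have h3 := Subgroup.card_dvd_of_le h1
  rw [h2, card_Gam, Nat.card_units, hF, card_ringAut_of_card hF, mul_comm] at h3
  exact h3

end Cfsg.Agent.Lib.Helper95.EqPSemi
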