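import Mathlib
import Cfsg.Agent.Lib.Helper45.GMStmt

/-! Piece L3 of S2719: a similarity commuting with an isometric involution of determinant `-1`
has square multiplier (finite field of odd characteristic). -/

set_option autoImplicit false

namespace Cfsg.Agent.Lib.Helper95.GML3

open Matrix Module QuadraticMap
open Cfsg.Agent.Lib.Helper44.QSpace
open Cfsg.Agent.Lib.Helper45.OmegaAutKer
open Cfsg.Agent.Lib.Helper45.GMStmt

universe u

section alg

variable {F : Type u} [Field F] {ι : Type} [Fintype ι] [DecidableEq ι]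

theorem L_mul (M : Matrix ι ι F) (hMM : M * M = 1) (α β α' β' : F) :
    (α • (1 : Matrix ι ι F) + β • M) * (α' • (1 : Matrix ι ι F) + β' • M) =
      (α * α' + β * β') • (1 : Matrix ι ι F) + (α * β' + β * α') • M := by
  simp only [add_mul, mul_add, Matrix.smul_mul, Matrix.mul_smul, one_mul, mul_one, hMM, smul_smul,
    add_smul]
  module

end alg

theorem main : CommSq.{u} := by
  intro F _ _ ι _ _ Q h2 hS M N μ hμ hMM hMQ hdetM hNQ hNM
  obtain ⟨h, hh⟩ : ∃ h : F, h + h = 1 := ⟨2⁻¹, by field_simp; norm_num⟩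
  obtain ⟨Γ, hΓ⟩ : ∃ Γ : Matrix ι ι F, Γ = LinearMap.BilinForm.toMatrix' (polarBilin Q) := ⟨_, rfl⟩
  have hΓdet : Γ.det ≠ 0 := by
    rw [hΓ, ← Matrix.nondegenerate_iff_det_ne_zero]
    exact LinearMap.BilinForm.nondegenerate_toMatrix'_iff.mpr (nondegenerate_of_sep hS)
  have hΓs : Γᵀ = Γ := by
    ext i j
    rw [Matrix.transpose_apply, hΓ, LinearMap.BilinForm.toMatrix'_apply,
      LinearMap.BilinForm.toMatrix'_apply]
    exact polar_comm Q _ _
  have hΓM : Mᵀ * Γ * M = Γ := by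
    have hB : LinearMap.BilinForm.comp (polarBilin Q) (Matrix.toLin' M) (Matrix.toLin' M)
        = polarBilin Q := by
      apply LinearMap.ext
      intro x
      apply LinearMap.ext
      intro y
      show polar Q (Matrix.toLin' M x) (Matrix.toLin' M y) = polar Q x y
      rw [Matrix.toLin'_apply, Matrix.toLin'_apply]
      have := polar_sim Q (M := M) (c := 1) (fun v => by rw [one_mul]; exact hMQ v) x y
      rw [one_mul] at this
      exact this
    have h1 := congrArg LinearMap.BilinForm.toMatrix' hB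
    rw [LinearMap.BilinForm.toMatrix'_comp, LinearMap.toMatrix'_toLin', ← hΓ] at h1
    exact h1
  have hΓN : Nᵀ * Γ * N = μ • Γ := by
    have hB : LinearMap.BilinForm.comp (polarBilin Q) (Matrix.toLin' N) (Matrix.toLin' N)
        = μ • polarBilin Q := by
      apply LinearMap.ext
      intro x
      apply LinearMap.ext
      intro y
      show polar Q (Matrix.toLin' N x) (Matrix.toLin' N y) = μ * polar Q x y
      rw [Matrix.toLin'_apply, Matrix.toLin'_apply]
      exact polar_sim Q hNQ x y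
    have h1 := congrArg LinearMap.BilinForm.toMatrix' hB
    rw [LinearMap.BilinForm.toMatrix'_comp, LinearMap.toMatrix'_toLin', map_smul, ← hΓ] at h1
    exact h1
  have hΓM' : Mᵀ * Γ = Γ * M := by
    calc Mᵀ * Γ = Mᵀ * Γ * (M * M) := by rw [hMM, mul_one]
      _ = Mᵀ * Γ * M * M := by rw [Matrix.mul_assoc (Mᵀ * Γ) M M]
      _ = Γ * M := by rw [hΓM]
  have hLΓ : ∀ α β : F, (α • (1 : Matrix ι ι F) + β • M)ᵀ * Γ = Γ * (α • (1 : Matrix ι ι F) + β • M) := by
    intro α β
    rw [Matrix.transpose_add, Matrix.transpose_smul, Matrix.transpose_smul, Matrix.transpose_one,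
      add_mul, mul_add, Matrix.smul_mul, Matrix.smul_mul, Matrix.mul_smul, Matrix.mul_smul,
      one_mul, mul_one, hΓM']
  have hNL : ∀ α β : F, (α • (1 : Matrix ι ι F) + β • M) * N = N * (α • (1 : Matrix ι ι F) + β • M) := by
    intro α β
    rw [add_mul, mul_add, Matrix.smul_mul, Matrix.smul_mul, Matrix.mul_smul, Matrix.mul_smul,
      one_mul, mul_one, hNM]
  obtain ⟨Pp, hPp⟩ : ∃ Pp : Matrix ι ι F, Pp = h • (1 : Matrix ι ι F) + h • M := ⟨_, rfl⟩
  obtain ⟨Pm, hPm⟩ : ∃ Pm : Matrix ι ι F, Pm = h • (1 : Matrix ι ι F) + (-h) • M := ⟨_, rfl⟩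
  have e1 : h * h + h * h = h := by linear_combination h * hh
  have hpp : Pp * Pp = Pp := by
    rw [hPp, L_mul M hMM, e1]
  have hmm : Pm * Pm = Pm := by
    rw [hPm, L_mul M hMM]
    have e2 : h * h + -h * -h = h := by linear_combination h * hh
    have e3 : h * -h + -h * h = -h := by linear_combination (-h) * hh
    rw [e2, e3]
  have hpm : Pp * Pm = 0 := by
    rw [hPp, hPm, L_mul M hMM]
    have e2 : h * h + h * -h = 0 := by ring
    have e3 : h * -h + h * h = 0 := by ring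
    rw [e2, e3, zero_smul, zero_smul, add_zero]
  have hmp : Pm * Pp = 0 := by
    rw [hPp, hPm, L_mul M hMM]
    have e2 : h * h + -h * h = 0 := by ring
    rw [e2, zero_smul, zero_smul, add_zero]
  have hsum : Pp + Pm = 1 := by
    rw [hPp, hPm, add_add_add_comm, ← add_smul, ← add_smul, hh, add_neg_cancel, one_smul,
      zero_smul, add_zero]
  have hdiff : Pp - Pm = M := by
    rw [hPp, hPm, add_sub_add_comm, sub_self, zero_add, ← sub_smul, sub_neg_eq_add, hh, one_smul]
  have hPpΓ : Ppᵀ * Γ = Γ * Pp := by rw [hPp]; exact hLΓ h h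
  have hPmΓ : Pmᵀ * Γ = Γ * Pm := by rw [hPm]; exact hLΓ h (-h)
  have hPpN : Pp * N = N * Pp := by rw [hPp]; exact hNL h h
  -- the multiplicative function
  obtain ⟨f, hf⟩ : ∃ f : F → F, ∀ t, f t = (Pp + t • Pm).det := ⟨_, fun t => rfl⟩
  have hf_mul : ∀ s t : F, f (s * t) = f s * f t := by
    intro s t
    rw [hf, hf, hf, ← Matrix.det_mul]
    congr 1
    rw [add_mul, mul_add, mul_add, Matrix.smul_mul, Matrix.smul_mul, Matrix.mul_smul,
      Matrix.mul_smul, hpp, hpm, hmp, hmm, smul_zero, smul_zero, add_zero, zero_add, smul_smul]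
  have hf1 : f 1 = 1 := by rw [hf, one_smul, hsum, Matrix.det_one]
  have hfneg : f (-1) = -1 := by
    rw [hf, neg_smul, one_smul, ← sub_eq_add_neg, hdiff, hdetM]
  have hf_pow : ∀ (t : F) (k : ℕ), f (t ^ k) = f t ^ k := by
    intro t k
    induction k with
    | zero => rw [pow_zero, pow_zero, hf1]
    | succ k ih => rw [pow_succ, pow_succ, hf_mul, ih]
  -- the key identity
  obtain ⟨C, hC⟩ : ∃ C : Matrix ι ι F, C = Pp + N * Pm := ⟨_, rfl⟩
  have hT2 : Ppᵀ * Γ * (N * Pm) = 0 := by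
    rw [hPpΓ, Matrix.mul_assoc, ← Matrix.mul_assoc Pp N Pm, hPpN, Matrix.mul_assoc N Pp Pm, hpm,
      mul_zero, mul_zero]
  have hT3 : Pmᵀ * Nᵀ * Γ * Pp = 0 := by
    have e : Pmᵀ * Nᵀ * Γ * Pp = (Ppᵀ * Γ * (N * Pm))ᵀ := by
      rw [Matrix.transpose_mul, Matrix.transpose_mul, Matrix.transpose_mul,
        Matrix.transpose_transpose, hΓs]
      simp only [Matrix.mul_assoc]
    rw [e, hT2, Matrix.transpose_zero]
  have hT1 : Ppᵀ * Γ * Pp = Γ * Pp := by
    rw [hPpΓ, Matrix.mul_assoc, hpp]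
  have hT4 : Pmᵀ * Nᵀ * Γ * (N * Pm) = μ • (Γ * Pm) := by
    calc Pmᵀ * Nᵀ * Γ * (N * Pm) = Pmᵀ * (Nᵀ * Γ * N) * Pm := by simp only [Matrix.mul_assoc]
      _ = μ • (Pmᵀ * Γ * Pm) := by rw [hΓN, Matrix.mul_smul, Matrix.smul_mul]
      _ = μ • (Γ * Pm) := by rw [hPmΓ, Matrix.mul_assoc, hmm]
  have hkey : Cᵀ * Γ * C = Γ * (Pp + μ • Pm) := by
    rw [hC, Matrix.transpose_add, Matrix.transpose_mul]
    calc (Ppᵀ + Pmᵀ * Nᵀ) * Γ * (Pp + N * Pm)
        = Ppᵀ * Γ * Pp + Ppᵀ * Γ * (N * Pm) + (Pmᵀ * Nᵀ * Γ * Pp + Pmᵀ * Nᵀ * Γ * (N * Pm)) := by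
          simp only [add_mul, mul_add]
          abel
      _ = Γ * (Pp + μ • Pm) := by
          rw [hT1, hT2, hT3, hT4, add_zero, zero_add, mul_add, Matrix.mul_smul]
  have hfμ : f μ = C.det ^ 2 := by
    have h1 := congrArg Matrix.det hkey
    simp only [Matrix.det_mul, Matrix.det_transpose] at h1
    rw [← hf] at h1
    have h3 : (f μ - C.det ^ 2) * Γ.det = 0 := by linear_combination -h1
    rcases mul_eq_zero.mp h3 with h' | h'
    · exact sub_eq_zero.mp h'
    · exact absurd h' hΓdet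
  -- conclusion
  have hchar : ringChar F ≠ 2 := by
    intro hc
    apply h2
    have := ringChar.Nat.cast_ringChar (R := F)
    rw [hc] at this
    exact_mod_cast this
  by_contra hns
  have hμq : μ ^ (Fintype.card F / 2) = -1 := by
    rcases FiniteField.pow_dichotomy hchar hμ with h' | h'
    · exact absurd ((FiniteField.isSquare_iff hchar hμ).mpr h') hns
    · exact h'
  have hfμ0 : f μ ≠ 0 := by
    intro h0
    have : f (μ * μ⁻¹) = 0 := by rw [hf_mul, h0, zero_mul]
    rw [mul_inv_cancel₀ hμ, hf1] at this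
    exact one_ne_zero this
  have hsq : IsSquare (f μ) := ⟨C.det, by rw [hfμ, pow_two]⟩
  have h1 := (FiniteField.isSquare_iff hchar hfμ0).mp hsq
  rw [← hf_pow, hμq, hfneg] at h1
  apply h2
  linear_combination -h1

end Cfsg.Agent.Lib.Helper95.GML3
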