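import Mathlib
import Cfsg.Agent.Lib.Helper45.GMStmt

/-! Piece ROT of S2719: a similarity `G` of the minus form with `G²` scalar and
`det G ≠ μ^(m+1)` commutes with a product of two reflections whose values have non-square
product (assembly from L1, L2, CA, CB). -/

set_option autoImplicit false

namespace Cfsg.Agent.Lib.Helper95.GMROT

open Matrix Module QuadraticMap
open Cfsg.Agent.Lib.Helper44.QSpace Cfsg.Agent.Lib.Helper44.NegPairs
open Cfsg.Agent.Lib.Helper44.MFldStmt
open Cfsg.Agent.Lib.Helper45.GMStmt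

universe u

/-- a vector on which the minus form takes the value `1` -/
theorem exists_one {F : Type u} [Field F] (m : ℕ) (a b : F) :
    ∃ x : MI m → F, Cfsg.quadFormMinus m F a b x = 1 := by
  refine ⟨Pi.single (Sum.inr 0) 1, ?_⟩
  unfold Cfsg.quadFormMinus
  simp

theorem card_MI (m : ℕ) : Fintype.card (MI m) = 2 * (m + 1) := by
  simp only [MI, Fintype.card_sum, Fintype.card_fin]
  ring

/-- `G² = lam` and multiplier `μ` force `lam = μ` or `lam = -μ` -/
theorem lam_eq {F : Type u} [Field F] (m : ℕ) (a b : F) (G : Matrix (MI m) (MI m) F) (μ lam : F)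
    (hG : ∀ x, Cfsg.quadFormMinus m F a b (G *ᵥ x) = μ * Cfsg.quadFormMinus m F a b x)
    (hGG : G * G = lam • (1 : Matrix (MI m) (MI m) F)) : lam = μ ∨ lam = -μ := by
  obtain ⟨x, hx⟩ := exists_one m a b
  have h1 : Cfsg.quadFormMinus m F a b (G *ᵥ (G *ᵥ x)) = μ * μ := by rw [hG, hG, hx, mul_one]
  have h2 : G *ᵥ (G *ᵥ x) = lam • x := by
    rw [Matrix.mulVec_mulVec, hGG, Matrix.smul_mulVec, Matrix.one_mulVec]
  have h3 : Cfsg.quadFormMinus m F a b (lam • x) = lam * lam := by
    have h := QuadraticMap.map_smul (minusQ m F a b) lam x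
    have hx' : (minusQ m F a b) x = 1 := hx
    rw [hx', smul_eq_mul, mul_one] at h
    exact h
  rw [h2, h3] at h1
  have h4 : (lam - μ) * (lam + μ) = 0 := by linear_combination h1
  rcases mul_eq_zero.mp h4 with h | h
  · left; exact sub_eq_zero.mp h
  · right; exact eq_neg_of_add_eq_zero_left h

/-- the case `lam = -μ` is impossible when `det G ≠ μ^(m+1)` -/
theorem neg_case (hL1 : DetNonsq.{u}) (hL2 : EigTS.{u}) {F : Type u} [Field F] [Fintype F]
    (m : ℕ) (h2 : (2 : F) ≠ 0) (a b : F) (hab : Aniso a b) (G : Matrix (MI m) (MI m) F) (μ : F)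
    (hμ : μ ≠ 0)
    (hG : ∀ x, Cfsg.quadFormMinus m F a b (G *ᵥ x) = μ * Cfsg.quadFormMinus m F a b x)
    (hGG : G * G = (-μ) • (1 : Matrix (MI m) (MI m) F)) (hdet : G.det ≠ μ ^ (m + 1)) : False := by
  by_cases hsq : IsSquare (-μ)
  · obtain ⟨t, ht⟩ := hsq
    have ht0 : t ≠ 0 := by
      rintro rfl
      rw [mul_zero, neg_eq_zero] at ht
      exact hμ ht
    have hne : μ ≠ t ^ 2 := by
      rw [pow_two, ← ht]
      intro h
      have : (2 : F) * μ = 0 := by linear_combination h
      rcases mul_eq_zero.mp this with h' | h'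
      · exact h2 h'
      · exact hμ h'
    exact hL2 F m a b hab h2 G t μ ht0 hne (by rw [pow_two, ← ht]; exact hGG) hG
  · have h := hL1 F (MI m) G (-μ) (m + 1) (card_MI m) hsq hGG
    rw [neg_neg] at h
    exact hdet h

theorem main (hL1 : DetNonsq.{u}) (hL2 : EigTS.{u}) (hCA : CaseSqG.{u}) (hCB : CaseNonsqG.{u}) :
    RotExists.{u} := by
  intro F _ _ m hm h2 a b hab G μ lam hμ hG hGG hdet
  have hcard := card_MI m
  have hS : Sep (minusQ m F a b) := sep_minusQ h2 m a b hab
  rcases lam_eq m a b G μ lam hG hGG with rfl | rfl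
  · by_cases hsq : IsSquare lam
    · obtain ⟨c, rfl⟩ := hsq
      have hc : c ≠ 0 := by
        rintro rfl
        exact hμ (mul_zero 0)
      exact hCA F (MI m) (minusQ m F a b) h2 hS (by rw [hcard]; omega) G c hc
        (by rw [pow_two]; exact hGG) (fun x => by rw [pow_two]; exact hG x)
    · exact hCB F (MI m) (minusQ m F a b) h2 hS (by rw [hcard]; omega) G lam hsq hGG hG
  · exact (neg_case hL1 hL2 m h2 a b hab G μ hμ hG hGG hdet).elim

end Cfsg.Agent.Lib.Helper95.GMROT
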