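import Mathlib
import Cfsg.Agent.Lib.Helper45.GMStmt
import Cfsg.Agent.Lib.Helper95.GMROT

/-! Piece TYPE of S2719: for `m` odd, a similarity `H` of the minus form with `det H = ν^(m+1)`
commuting or anticommuting with a similarity `G` with `G²` scalar and `det G ≠ μ^(m+1)` has
square multiplier (assembly from L1, L2, L3, L4). -/

set_option autoImplicit false

namespace Cfsg.Agent.Lib.Helper95.GMTYPE

open Matrix Module QuadraticMap
open Cfsg.Agent.Lib.Helper44.QSpace Cfsg.Agent.Lib.Helper44.NegPairs
open Cfsg.Agent.Lib.Helper44.MFldStmt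
open Cfsg.Agent.Lib.Helper45.GMStmt
open Cfsg.Agent.Lib.Helper95.GMROT

universe u

theorem main (hL1 : DetNonsq.{u}) (hL2 : EigTS.{u}) (hL3 : CommSq.{u}) (hL4 : DetAnti.{u}) :
    TypeOdd.{u} := by
  intro F _ _ m hm h2 a b hab G H μ ν lam hμ hν hG hH hGG hdet hdetH hcomm
  have hcard := card_MI m
  have hS : Sep (minusQ m F a b) := sep_minusQ h2 m a b hab
  have hlam := lam_eq m a b G μ lam hG hGG
  have hev : Even (m + 1) := by
    obtain ⟨k, hk⟩ := hm
    exact ⟨k + 1, by omega⟩
  have heven : ∀ z : F, (-z) ^ (m + 1) = z ^ (m + 1) := fun z => hev.neg_pow z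
  by_cases hsq : IsSquare μ
  · obtain ⟨c, rfl⟩ := hsq
    have hc : c ≠ 0 := by
      rintro rfl
      exact hμ (mul_zero 0)
    obtain ⟨M, hM⟩ : ∃ M : Matrix (MI m) (MI m) F, M = c⁻¹ • G := ⟨_, rfl⟩
    have hMQ : ∀ x, Cfsg.quadFormMinus m F a b (M *ᵥ x) = Cfsg.quadFormMinus m F a b x := by
      intro x
      rw [hM, Matrix.smul_mulVec]
      have h := QuadraticMap.map_smul (minusQ m F a b) c⁻¹ (G *ᵥ x)
      have h' : Cfsg.quadFormMinus m F a b (c⁻¹ • G *ᵥ x) =
          (c⁻¹ * c⁻¹) • Cfsg.quadFormMinus m F a b (G *ᵥ x) := h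
      rw [h', hG, smul_eq_mul]
      field_simp
    have hMM : M * M = (c⁻¹ * c⁻¹ * lam) • (1 : Matrix (MI m) (MI m) F) := by
      rw [hM, Matrix.smul_mul, Matrix.mul_smul, hGG, smul_smul, smul_smul]
    have hdetM : M.det ≠ 1 := by
      rw [hM, Matrix.det_smul, hcard]
      intro h
      apply hdet
      have h3 : G.det = c ^ (2 * (m + 1)) := by
        have hcp : c ^ (2 * (m + 1)) ≠ 0 := pow_ne_zero _ hc
        rw [inv_pow] at h
        field_simp at h
        exact h
      rw [h3, pow_mul, pow_two]
    have hNM : H * M = M * H ∨ H * M = -(M * H) := by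
      rcases hcomm with h | h
      · left; rw [hM, Matrix.mul_smul, Matrix.smul_mul, h]
      · right; rw [hM, Matrix.mul_smul, Matrix.smul_mul, h, smul_neg]
    rcases hlam with rfl | rfl
    · have hMM1 : M * M = 1 := by
        rw [hMM]
        have e : c⁻¹ * c⁻¹ * (c * c) = 1 := by field_simp
        rw [e, one_smul]
      have hd2 : M.det * M.det = 1 := by rw [← Matrix.det_mul, hMM1, Matrix.det_one]
      have hdm : M.det = -1 := by
        have h3 : (M.det - 1) * (M.det + 1) = 0 := by linear_combination hd2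
        rcases mul_eq_zero.mp h3 with h | h
        · exact absurd (sub_eq_zero.mp h) hdetM
        · exact eq_neg_of_add_eq_zero_left h
      rcases hNM with h | h
      · exact hL3 F (MI m) (minusQ m F a b) h2 hS M H ν hν hMM1 hMQ hdm hH h
      · exfalso
        have hHdet : H.det ≠ 0 := by rw [hdetH]; exact pow_ne_zero _ hν
        have h3 := hL4 F (MI m) M H (m + 1) h2 hcard hMM1 hHdet h
        rw [heven, one_pow] at h3
        exact hdetM h3
    · have hMM1 : M * M = (-1 : F) • (1 : Matrix (MI m) (MI m) F) := by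
        rw [hMM]
        have e : c⁻¹ * c⁻¹ * (-(c * c)) = -1 := by field_simp
        rw [e]
      exfalso
      by_cases hm1 : IsSquare (-1 : F)
      · obtain ⟨i, hi⟩ := hm1
        have hi0 : i ≠ 0 := by
          rintro rfl
          simp at hi
        have hne : (1 : F) ≠ i ^ 2 := by
          rw [pow_two, ← hi]
          intro h
          apply h2
          linear_combination h
        exact hL2 F m a b hab h2 M i 1 hi0 hne (by rw [pow_two, ← hi]; exact hMM1)
          (fun x => by rw [one_mul]; exact hMQ x)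
      · have h3 := hL1 F (MI m) M (-1) (m + 1) hcard hm1 hMM1
        rw [neg_neg, one_pow] at h3
        exact hdetM h3
  · exfalso
    rcases hlam with rfl | rfl
    · have h3 := hL1 F (MI m) G lam (m + 1) hcard hsq hGG
      rw [heven] at h3
      exact hdet h3
    · exact neg_case hL1 hL2 m h2 a b hab G μ hμ hG hGG hdet

end Cfsg.Agent.Lib.Helper95.GMTYPE
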