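import Mathlib
import Cfsg.Agent.Lib.Helper60.HJStmt

/-! Piece A5CNT of S3313: `A5` has 195 ordered pairs of involutions with product of odd order. -/

set_option autoImplicit false

namespace Cfsg.Agent.Lib.Helper95.HJA5CNT

/-- elements of `A5` have order 1, 2, 3 or 5 -/
theorem a5_orders : ∀ x : alternatingGroup (Fin 5),
    x * x = 1 ∨ x * x * x = 1 ∨ x * x * x * x * x = 1 := by
  decide +kernel

theorem orderOf_two_iff {G : Type*} [Group G] (x : G) : orderOf x = 2 ↔ (x ≠ 1 ∧ x * x = 1) := by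
  have : Fact (Nat.Prime 2) := ⟨Nat.prime_two⟩
  rw [orderOf_eq_prime_iff, pow_two]
  exact and_comm

theorem two_dvd_iff (g : alternatingGroup (Fin 5)) : 2 ∣ orderOf g ↔ (g ≠ 1 ∧ g * g = 1) := by
  constructor
  · intro h
    rcases a5_orders g with h2 | h3 | h5
    · refine ⟨?_, h2⟩
      rintro rfl
      rw [orderOf_one] at h
      omega
    · exfalso
      have : orderOf g ∣ 3 := orderOf_dvd_of_pow_eq_one (by rw [pow_succ, pow_two]; exact h3)
      have := Nat.dvd_trans h this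
      omega
    · exfalso
      have : orderOf g ∣ 5 := orderOf_dvd_of_pow_eq_one (by
        rw [pow_succ, pow_succ, pow_succ, pow_two]; exact h5)
      have := Nat.dvd_trans h this
      omega
  · intro h
    rw [(orderOf_two_iff g).mpr h]

set_option maxRecDepth 1000000 in
theorem count : (Finset.univ.filter (fun p : alternatingGroup (Fin 5) × alternatingGroup (Fin 5) =>
    (p.1 ≠ 1 ∧ p.1 * p.1 = 1) ∧ (p.2 ≠ 1 ∧ p.2 * p.2 = 1) ∧
      ¬ (p.1 * p.2 ≠ 1 ∧ (p.1 * p.2) * (p.1 * p.2) = 1))).card = 195 := by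
  decide +kernel

theorem main : Cfsg.Agent.Lib.Helper60.HJStmt.A5Cnt := by
  unfold Cfsg.Agent.Lib.Helper60.HJStmt.A5Cnt
  have e : {p : alternatingGroup (Fin 5) × alternatingGroup (Fin 5) //
      orderOf p.1 = 2 ∧ orderOf p.2 = 2 ∧ ¬ 2 ∣ orderOf (p.1 * p.2)} ≃
      {p : alternatingGroup (Fin 5) × alternatingGroup (Fin 5) //
        (p.1 ≠ 1 ∧ p.1 * p.1 = 1) ∧ (p.2 ≠ 1 ∧ p.2 * p.2 = 1) ∧
          ¬ (p.1 * p.2 ≠ 1 ∧ (p.1 * p.2) * (p.1 * p.2) = 1)} :=
    Equiv.subtypeEquivRight (fun p => by rw [orderOf_two_iff, orderOf_two_iff, two_dvd_iff])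
  rw [Nat.card_congr e, Nat.card_eq_fintype_card, Fintype.card_subtype]
  exact count

end Cfsg.Agent.Lib.Helper95.HJA5CNT
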