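import Mathlib
import Cfsg.Agent.Lib.Helper60.HJStmt

/-! Piece A5INV of S3313: `A5` has 15 involutions, each commuting with exactly two others, and an
element of order 5. -/

set_option autoImplicit false

namespace Cfsg.Agent.Lib.Helper95.HJA5INV

theorem orderOf_two_iff {G : Type*} [Group G] (x : G) : orderOf x = 2 ↔ (x ≠ 1 ∧ x * x = 1) := by
  have : Fact (Nat.Prime 2) := ⟨Nat.prime_two⟩
  rw [orderOf_eq_prime_iff, pow_two]
  exact and_comm

set_option maxRecDepth 1000000 in
theorem count15 : (Finset.univ.filter (fun x : alternatingGroup (Fin 5) =>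
    x ≠ 1 ∧ x * x = 1)).card = 15 := by
  decide +kernel

set_option maxRecDepth 1000000 in
theorem count2 : ∀ a : alternatingGroup (Fin 5), (a ≠ 1 ∧ a * a = 1) →
    (Finset.univ.filter (fun x : alternatingGroup (Fin 5) =>
      (x ≠ 1 ∧ x * x = 1) ∧ x * a = a * x ∧ x ≠ a)).card = 2 := by
  decide +kernel

set_option maxRecDepth 1000000 in
theorem exists5 : ∃ k : alternatingGroup (Fin 5), k * k * k * k * k = 1 ∧ k ≠ 1 := by
  decide +kernel

theorem main : Cfsg.Agent.Lib.Helper60.HJStmt.A5Inv := by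
  refine ⟨?_, ?_, ?_⟩
  · have e : {x : alternatingGroup (Fin 5) // orderOf x = 2} ≃
        {x : alternatingGroup (Fin 5) // x ≠ 1 ∧ x * x = 1} :=
      Equiv.subtypeEquivRight (fun x => orderOf_two_iff x)
    rw [Nat.card_congr e, Nat.card_eq_fintype_card, Fintype.card_subtype]
    exact count15
  · intro a ha
    have e : {x : alternatingGroup (Fin 5) // orderOf x = 2 ∧ x * a = a * x ∧ x ≠ a} ≃
        {x : alternatingGroup (Fin 5) // (x ≠ 1 ∧ x * x = 1) ∧ x * a = a * x ∧ x ≠ a} :=
      Equiv.subtypeEquivRight (fun x => by rw [orderOf_two_iff])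
    rw [Nat.card_congr e, Nat.card_eq_fintype_card, Fintype.card_subtype]
    exact count2 a ((orderOf_two_iff a).mp ha)
  · obtain ⟨k, hk, hk1⟩ := exists5
    refine ⟨k, ?_⟩
    have : Fact (Nat.Prime 5) := ⟨by norm_num⟩
    rw [orderOf_eq_prime_iff]
    refine ⟨?_, hk1⟩
    rw [pow_succ, pow_succ, pow_succ, pow_two]
    exact hk

end Cfsg.Agent.Lib.Helper95.HJA5INV
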