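import Mathlib

set_option autoImplicit false

namespace Cfsg.Agent.Lib.Helper95.HallA

open Classical

noncomputable section

/-- The finset of elements of a finite type satisfying a predicate. -/
def fs {α : Type*} [Finite α] (P : α → Prop) : Finset α := (Set.toFinite {a | P a}).toFinset

theorem mem_fs {α : Type*} [Finite α] (P : α → Prop) (a : α) : a ∈ fs P ↔ P a := by
  unfold fs
  rw [Set.Finite.mem_toFinset]
  rfl

variable {F V : Type*} [Field F] [AddCommGroup V] [Module F V]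

/-- Invariant subspaces. -/
def Inv (φ : V →ₗ[F] V) (X : Submodule F V) : Prop := ∀ v ∈ X, φ v ∈ X

theorem inv_bot (φ : V →ₗ[F] V) : Inv φ (⊥ : Submodule F V) := by
  intro v hv
  rw [Submodule.mem_bot] at hv
  rw [hv, map_zero]
  exact Submodule.zero_mem _

theorem inv_sup (φ : V →ₗ[F] V) {X Y : Submodule F V} (hX : Inv φ X) (hY : Inv φ Y) :
    Inv φ (X ⊔ Y) := by
  intro v hv
  obtain ⟨a, ha, b, hb, rfl⟩ := Submodule.mem_sup.mp hv
  rw [map_add]
  exact Submodule.add_mem _ (Submodule.mem_sup_left (hX a ha)) (Submodule.mem_sup_right (hY b hb))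

theorem inv_inf (φ : V →ₗ[F] V) {X Y : Submodule F V} (hX : Inv φ X) (hY : Inv φ Y) :
    Inv φ (X ⊓ Y) := by
  intro v hv
  exact ⟨hX v hv.1, hY v hv.2⟩

/-- Chains of nonzero invariant subspaces. -/
def IsCh (φ : V →ₗ[F] V) (C : Finset (Submodule F V)) : Prop :=
  (∀ X ∈ C, Inv φ X ∧ X ≠ ⊥) ∧ ∀ X ∈ C, ∀ Y ∈ C, X ≤ Y ∨ Y ≤ X

theorem sup_mem_of_total (C : Finset (Submodule F V)) (hne : C.Nonempty)
    (htot : ∀ X ∈ C, ∀ Y ∈ C, X ≤ Y ∨ Y ≤ X) : C.sup id ∈ C := by
  rw [← Finset.sup'_eq_sup hne]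
  apply Finset.sup'_mem (C : Set (Submodule F V)) _ C hne id (fun i hi => hi)
  intro x hx y hy
  rcases htot x hx y hy with h | h
  · rw [sup_eq_right.mpr h]; exact hy
  · rw [sup_eq_left.mpr h]; exact hx

theorem inv_top_of_isCh (φ : V →ₗ[F] V) (C : Finset (Submodule F V)) (hC : IsCh φ C) :
    Inv φ (C.sup id) := by
  rcases C.eq_empty_or_nonempty with h | h
  · rw [h, Finset.sup_empty]; exact inv_bot φ
  · exact (hC.1 _ (sup_mem_of_total C h hC.2)).1

variable [Finite V]

/-- The alternating chain count (the Möbius function `μ(0, Y)` of the lattice of invariant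
subspaces, by P. Hall's theorem). -/
def A (φ : V →ₗ[F] V) (Y : Submodule F V) : ℤ :=
  ∑ C ∈ fs (fun C : Finset (Submodule F V) => IsCh φ C ∧ C.sup id = Y), (-1) ^ C.card

theorem A_bot (φ : V →ₗ[F] V) : A φ (⊥ : Submodule F V) = 1 := by
  unfold A
  have : fs (fun C : Finset (Submodule F V) => IsCh φ C ∧ C.sup id = ⊥) = {∅} := by
    ext C
    rw [mem_fs, Finset.mem_singleton]
    constructor
    · rintro ⟨hC, hs⟩
      by_contra hne
      obtain ⟨X, hX⟩ := Finset.nonempty_iff_ne_empty.mpr hne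
      have h1 : X ≤ C.sup id := Finset.le_sup (f := id) hX
      rw [hs, le_bot_iff] at h1
      exact (hC.1 X hX).2 h1
    · rintro rfl
      refine ⟨⟨fun X hX => absurd hX (Finset.notMem_empty X),
        fun X hX => absurd hX (Finset.notMem_empty X)⟩, Finset.sup_empty⟩
  rw [this, Finset.sum_singleton, Finset.card_empty, pow_zero]

/-- P. Hall's recursion. -/
theorem A_rec (φ : V →ₗ[F] V) (Y : Submodule F V) (hY : Inv φ Y) (hne : Y ≠ ⊥) :
    A φ Y = - ∑ Y' ∈ fs (fun Y' : Submodule F V => Inv φ Y' ∧ Y' < Y), A φ Y' := by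
  have h1 : ∑ Y' ∈ fs (fun Y' : Submodule F V => Inv φ Y' ∧ Y' < Y), A φ Y' =
      ∑ C ∈ fs (fun C : Finset (Submodule F V) => IsCh φ C ∧ C.sup id < Y), (-1 : ℤ) ^ C.card := by
    rw [← Finset.sum_fiberwise_of_maps_to (g := fun C : Finset (Submodule F V) => C.sup id)
      (t := fs (fun Y' : Submodule F V => Inv φ Y' ∧ Y' < Y))]
    · refine Finset.sum_congr rfl fun Y' hY' => ?_
      rw [mem_fs] at hY'
      unfold A
      refine Finset.sum_congr ?_ fun _ _ => rfl
      ext C
      rw [Finset.mem_filter, mem_fs, mem_fs]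
      constructor
      · rintro ⟨h1, h2⟩
        exact ⟨⟨h1, by rw [h2]; exact hY'.2⟩, h2⟩
      · rintro ⟨⟨h1, -⟩, h2⟩
        exact ⟨h1, h2⟩
    · intro C hC
      rw [mem_fs] at hC ⊢
      exact ⟨inv_top_of_isCh φ C hC.1, hC.2⟩
  rw [h1]
  unfold A
  rw [← Finset.sum_neg_distrib]
  refine Finset.sum_bij' (fun C _ => C.erase Y) (fun C _ => insert Y C) ?_ ?_ ?_ ?_ ?_
  · intro C hC
    rw [mem_fs] at hC ⊢
    obtain ⟨hCh, hs⟩ := hC
    refine ⟨⟨fun X hX => hCh.1 X (Finset.mem_of_mem_erase hX),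
      fun X hX Z hZ => hCh.2 X (Finset.mem_of_mem_erase hX) Z (Finset.mem_of_mem_erase hZ)⟩, ?_⟩
    have hle : (C.erase Y).sup id ≤ Y := by
      have := Finset.sup_mono (f := id) (Finset.erase_subset Y C)
      rwa [hs] at this
    refine lt_of_le_of_ne hle ?_
    intro heq
    rcases (C.erase Y).eq_empty_or_nonempty with h | h
    · rw [h, Finset.sup_empty] at heq
      exact hne heq.symm
    · have := sup_mem_of_total (C.erase Y) h
        (fun X hX Z hZ => hCh.2 X (Finset.mem_of_mem_erase hX) Z (Finset.mem_of_mem_erase hZ))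
      rw [heq] at this
      exact (Finset.notMem_erase Y C) this
  · intro C hC
    rw [mem_fs] at hC ⊢
    obtain ⟨hCh, hs⟩ := hC
    have hle : ∀ X ∈ C, X ≤ Y := fun X hX => (Finset.le_sup (f := id) hX).trans hs.le
    refine ⟨⟨?_, ?_⟩, ?_⟩
    · intro X hX
      rcases Finset.mem_insert.mp hX with hXY | hX
      · rw [hXY]; exact ⟨hY, hne⟩
      · exact hCh.1 X hX
    · intro X hX Z hZ
      rcases Finset.mem_insert.mp hX with hXY | hX
      · rcases Finset.mem_insert.mp hZ with hZY | hZ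
        · rw [hXY, hZY]; exact Or.inl le_rfl
        · rw [hXY]; exact Or.inr (hle Z hZ)
      · rcases Finset.mem_insert.mp hZ with hZY | hZ
        · rw [hZY]; exact Or.inl (hle X hX)
        · exact hCh.2 X hX Z hZ
    · rw [Finset.sup_insert, id]
      exact sup_eq_left.mpr hs.le
  · intro C hC
    rw [mem_fs] at hC
    obtain ⟨hCh, hs⟩ := hC
    have hmem : Y ∈ C := by
      have hCne : C.Nonempty := by
        rw [Finset.nonempty_iff_ne_empty]
        rintro rfl
        rw [Finset.sup_empty] at hs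
        exact hne hs.symm
      have := sup_mem_of_total C hCne hCh.2
      rwa [hs] at this
    exact Finset.insert_erase hmem
  · intro C hC
    rw [mem_fs] at hC
    obtain ⟨hCh, hs⟩ := hC
    have hnm : Y ∉ C := by
      intro hmem
      have := Finset.le_sup (f := id) hmem
      exact absurd (lt_of_le_of_lt this hs) (lt_irrefl _)
    exact Finset.erase_insert hnm
  · intro C hC
    rw [mem_fs] at hC
    obtain ⟨hCh, hs⟩ := hC
    have hmem : Y ∈ C := by
      have hCne : C.Nonempty := by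
        rw [Finset.nonempty_iff_ne_empty]
        rintro rfl
        rw [Finset.sup_empty] at hs
        exact hne hs.symm
      have := sup_mem_of_total C hCne hCh.2
      rwa [hs] at this
    have hc : C.card = (C.erase Y).card + 1 := (Finset.card_erase_add_one hmem).symm
    rw [hc, pow_succ]
    ring

/-- Summation form of the recursion. -/
theorem A_sum (φ : V →ₗ[F] V) (Y : Submodule F V) (hY : Inv φ Y) :
    ∑ Y' ∈ fs (fun Y' : Submodule F V => Inv φ Y' ∧ Y' ≤ Y), A φ Y' = if Y = ⊥ then 1 else 0 := by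
  have hsplit : fs (fun Y' : Submodule F V => Inv φ Y' ∧ Y' ≤ Y) =
      insert Y (fs (fun Y' : Submodule F V => Inv φ Y' ∧ Y' < Y)) := by
    ext Z
    rw [Finset.mem_insert, mem_fs, mem_fs]
    constructor
    · rintro ⟨h1, h2⟩
      rcases eq_or_lt_of_le h2 with h | h
      · exact Or.inl h
      · exact Or.inr ⟨h1, h⟩
    · rintro (rfl | ⟨h1, h2⟩)
      · exact ⟨hY, le_rfl⟩
      · exact ⟨h1, h2.le⟩
  have hnm : Y ∉ fs (fun Y' : Submodule F V => Inv φ Y' ∧ Y' < Y) := by
    rw [mem_fs]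
    exact fun h => lt_irrefl _ h.2
  rw [hsplit, Finset.sum_insert hnm]
  by_cases hne : Y = ⊥
  · rw [if_pos hne]
    subst hne
    rw [A_bot]
    have : fs (fun Y' : Submodule F V => Inv φ Y' ∧ Y' < ⊥) = ∅ := by
      ext Z
      rw [mem_fs]
      simp
    rw [this, Finset.sum_empty, add_zero]
  · rw [if_neg hne, A_rec φ Y hY hne]
    ring

/-- Uniqueness of solutions of the recursion. -/
theorem unique_of_sum (φ : V →ₗ[F] V) (f g : Submodule F V → ℤ) (Y : Submodule F V)
    (hf : ∀ Y' : Submodule F V, Inv φ Y' → Y' ≤ Y →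
      ∑ Z ∈ fs (fun Z : Submodule F V => Inv φ Z ∧ Z ≤ Y'), f Z = if Y' = ⊥ then 1 else 0)
    (hg : ∀ Y' : Submodule F V, Inv φ Y' → Y' ≤ Y →
      ∑ Z ∈ fs (fun Z : Submodule F V => Inv φ Z ∧ Z ≤ Y'), g Z = if Y' = ⊥ then 1 else 0) :
    ∀ Y' : Submodule F V, Inv φ Y' → Y' ≤ Y → f Y' = g Y' := by
  intro Y'
  induction Y' using (Finite.to_wellFoundedLT (α := Submodule F V)).induction with
  | _ Y' ih =>
    intro hY' hle
    have hsplit : fs (fun Z : Submodule F V => Inv φ Z ∧ Z ≤ Y') =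
        insert Y' (fs (fun Z : Submodule F V => Inv φ Z ∧ Z < Y')) := by
      ext Z
      rw [Finset.mem_insert, mem_fs, mem_fs]
      constructor
      · rintro ⟨h1, h2⟩
        rcases eq_or_lt_of_le h2 with h | h
        · exact Or.inl h
        · exact Or.inr ⟨h1, h⟩
      · rintro (rfl | ⟨h1, h2⟩)
        · exact ⟨hY', le_rfl⟩
        · exact ⟨h1, h2.le⟩
    have hnm : Y' ∉ fs (fun Z : Submodule F V => Inv φ Z ∧ Z < Y') := by
      rw [mem_fs]
      exact fun h => lt_irrefl _ h.2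
    have h1 := hf Y' hY' hle
    have h2 := hg Y' hY' hle
    rw [hsplit, Finset.sum_insert hnm] at h1 h2
    have h3 : ∑ Z ∈ fs (fun Z : Submodule F V => Inv φ Z ∧ Z < Y'), f Z =
        ∑ Z ∈ fs (fun Z : Submodule F V => Inv φ Z ∧ Z < Y'), g Z := by
      refine Finset.sum_congr rfl fun Z hZ => ?_
      rw [mem_fs] at hZ
      exact ih Z hZ.2 hZ.1 (hZ.2.le.trans hle)
    linarith

end

end Cfsg.Agent.Lib.Helper95.HallA
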