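import Mathlib

namespace Cfsg.Agent.Lib.Helper95.HupP5

theorem card_modEq_card_centralizer {G : Type*} [Group G] (N : Subgroup G) [Finite N] [N.Normal]
    (y : G) (s : ℕ) (hs : s.Prime) (hy : y ^ s = 1) :
    Nat.card N ≡ Nat.card (N ⊓ Subgroup.centralizer {y} : Subgroup G) [MOD s] := by
  have : Fact s.Prime := ⟨hs⟩
  have hQ : IsPGroup s (Subgroup.zpowers y) := by
    rintro ⟨g, hg⟩
    obtain ⟨k, rfl⟩ := Subgroup.mem_zpowers_iff.mp hg
    refine ⟨1, Subtype.ext ?_⟩
    change (y ^ k) ^ (s ^ 1) = 1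
    rw [pow_one, ← zpow_natCast, ← zpow_mul, mul_comm, zpow_mul, zpow_natCast, hy, one_zpow]
  letI : MulAction (Subgroup.zpowers y) N :=
    { smul := fun g t => ⟨g * t * (g : G)⁻¹, ‹N.Normal›.conj_mem _ t.2 _⟩
      one_smul := fun t => Subtype.ext (by
        change ((1 : Subgroup.zpowers y) : G) * t * ((1 : Subgroup.zpowers y) : G)⁻¹ = t
        simp)
      mul_smul := fun g h t => Subtype.ext (by
        change ((g * h : Subgroup.zpowers y) : G) * t * ((g * h : Subgroup.zpowers y) : G)⁻¹
          = (g : G) * ((h : G) * t * (h : G)⁻¹) * (g : G)⁻¹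
        simp [mul_assoc]) }
  have hsm : ∀ (g : Subgroup.zpowers y) (t : N), ((g • t : N) : G) = g * t * (g : G)⁻¹ :=
    fun g t => rfl
  have h := hQ.card_modEq_card_fixedPoints N
  have e : MulAction.fixedPoints (Subgroup.zpowers y) N ≃
      (N ⊓ Subgroup.centralizer {y} : Subgroup G) :=
    { toFun := fun n => ⟨n.1.1, n.1.2, by
        change (n.1.1 : G) ∈ Subgroup.centralizer {y}
        rw [Subgroup.mem_centralizer_iff]
        intro z hz
        rw [Set.mem_singleton_iff] at hz
        subst hz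
        have h1 := n.2 ⟨z, Subgroup.mem_zpowers z⟩
        have h2 := congrArg Subtype.val h1
        rw [hsm] at h2
        simp only at h2
        calc z * (n.1.1 : G) = (z * (n.1.1 : G) * z⁻¹) * z := by group
          _ = (n.1.1 : G) * z := by rw [h2]⟩
      invFun := fun n => ⟨⟨n.1, n.2.1⟩, by
        rintro ⟨g, hg⟩
        obtain ⟨k, rfl⟩ := Subgroup.mem_zpowers_iff.mp hg
        apply Subtype.ext
        rw [hsm]
        simp only
        have h1 : (n : G) ∈ Subgroup.centralizer {y} := n.2.2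
        rw [Subgroup.mem_centralizer_iff] at h1
        have h2 : y * (n : G) = n * y := h1 y rfl
        have h3 : Commute y (n : G) := h2
        have h4 : Commute (y ^ k) (n : G) := h3.zpow_left k
        rw [h4.eq]; simp⟩
      left_inv := fun n => rfl
      right_inv := fun n => rfl }
  rw [Nat.card_congr e] at h
  exact h

theorem card_dvd_sub_of_free {G : Type*} [Group G] (N Z P : Subgroup G) [Finite N] [Finite P]
    [N.Normal] [Z.Normal] (hZN : Z ≤ N)
    (hfree : ∀ y ∈ P, y ≠ 1 → ∀ t ∈ N, y * t = t * y → t ∈ Z) :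
    Nat.card P ∣ Nat.card N - Nat.card Z := by
  classical
  letI : MulAction P ↥((N : Set G) \ (Z : Set G)) :=
    { smul := fun g t => ⟨g * t * (g : G)⁻¹, ‹N.Normal›.conj_mem _ t.2.1 _, fun h => t.2.2 (by
          have := ‹Z.Normal›.conj_mem _ h (g : G)⁻¹
          simpa [mul_assoc] using this)⟩
      one_smul := fun t => Subtype.ext (by
        change ((1 : P) : G) * t * ((1 : P) : G)⁻¹ = t
        simp)
      mul_smul := fun g h t => Subtype.ext (by
        change ((g * h : P) : G) * t * ((g * h : P) : G)⁻¹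
          = (g : G) * ((h : G) * t * (h : G)⁻¹) * (g : G)⁻¹
        simp [mul_assoc]) }
  have hsm : ∀ (g : P) (t : ↥((N : Set G) \ (Z : Set G))),
      ((g • t : ↥((N : Set G) \ (Z : Set G))) : G) = g * t * (g : G)⁻¹ :=
    fun g t => rfl
  have hstab : ∀ b : ↥((N : Set G) \ (Z : Set G)), MulAction.stabilizer P b = ⊥ := by
    intro b
    rw [eq_bot_iff]
    intro g hg
    rw [MulAction.mem_stabilizer_iff] at hg
    have h1 : (g : G) * b * (g : G)⁻¹ = b := by rw [← hsm, hg]
    rw [Subgroup.mem_bot]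
    by_contra hne
    have hne' : (g : G) ≠ 1 := fun h => hne (Subtype.ext h)
    refine b.2.2 (hfree g g.2 hne' b b.2.1 ?_)
    nth_rewrite 2 [← h1]
    simp
  have e := MulAction.selfEquivOrbitsQuotientProd hstab
  have hX : Nat.card ↥((N : Set G) \ (Z : Set G)) = Nat.card N - Nat.card Z := by
    have hfin : (N : Set G).Finite := Set.toFinite _
    rw [Nat.card_coe_set_eq, Set.ncard_sdiff (show (Z : Set G) ⊆ N from hZN) (hfin.subset hZN)]
    rfl
  rw [← hX, Nat.card_congr e, Nat.card_prod]
  exact dvd_mul_left _ _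

end Cfsg.Agent.Lib.Helper95.HupP5
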