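import Mathlib

namespace Cfsg.Agent.Lib.Helper95.HupP6

theorem exists_prime_pow_card {G : Type*} [Group G] [Finite G] (N : Subgroup G) [N.Normal]
    (hna : ¬ ∀ a ∈ N, ∀ b ∈ N, a * b = b * a)
    (hcen : ∀ M : Subgroup G, M.Normal → M ≤ N → M ≠ N → ∀ m ∈ M, ∀ n ∈ N, m * n = n * m)
    (hder : ⁅N, N⁆ ≠ N) :
    ∃ r k : ℕ, r.Prime ∧ Nat.card N = r ^ k := by
  by_contra hcon
  push Not at hcon
  apply hna
  -- the derived subgroup is central in N
  have hD : ∀ m ∈ ⁅N, N⁆, ∀ n ∈ N, m * n = n * m :=
    hcen ⁅N, N⁆ inferInstance (Subgroup.commutator_le_left N N) hder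
  -- N is nilpotent
  have hnil : Group.IsNilpotent N := by
    refine ⟨⟨2, ?_⟩⟩
    rw [eq_top_iff]
    intro x _
    rw [show (2 : ℕ) = 1 + 1 from rfl, Subgroup.mem_upperCentralSeries_succ_iff]
    intro y
    rw [Subgroup.upperCentralSeries_one, Subgroup.mem_center_iff, commutatorElement_def]
    intro z
    apply Subtype.ext
    have h1 : (x : G) * y * (x : G)⁻¹ * (y : G)⁻¹ ∈ ⁅N, N⁆ := by
      rw [← commutatorElement_def]
      exact Subgroup.commutator_mem_commutator x.2 y.2
    have h2 := hD _ h1 z z.2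
    simpa using h2.symm
  -- the centre of N is everything
  have hZ : Subgroup.center N = ⊤ := by
    rw [← Subgroup.index_eq_one, Nat.eq_one_iff_not_exists_prime_dvd]
    intro p hp hdvd
    haveI : Fact p.Prime := ⟨hp⟩
    have P : Sylow p N := default
    have h03 := (Group.isNilpotent_of_finite_tfae (G := N)).out 0 3
    have hPn : (P : Subgroup N).Normal := h03.mp hnil p ⟨hp⟩ P
    haveI hPc : (P : Subgroup N).Characteristic := P.characteristic_of_normal hPn
    have hMn : (Subgroup.map N.subtype (P : Subgroup N)).Normal :=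
      ConjAct.normal_of_characteristic_of_normal
    have hMle : Subgroup.map N.subtype (P : Subgroup N) ≤ N := by
      rintro _ ⟨x, _, rfl⟩
      exact x.2
    have hMne : Subgroup.map N.subtype (P : Subgroup N) ≠ N := by
      intro h
      obtain ⟨k, hk⟩ := (IsPGroup.iff_card (p := p) (G := (P : Subgroup N))).mp P.2
      apply hcon p k hp
      rw [← hk]
      have h3 : Nat.card (Subgroup.map N.subtype (P : Subgroup N)) = Nat.card (P : Subgroup N) :=
        Subgroup.card_map_of_injective N.subtype_injective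
      rw [← h3, h]
    have hPle : (P : Subgroup N) ≤ Subgroup.center N := by
      intro x hx
      rw [Subgroup.mem_center_iff]
      intro z
      apply Subtype.ext
      have := hcen _ hMn hMle hMne (x : G) ⟨x, hx, rfl⟩ z z.2
      simpa using this.symm
    exact P.not_dvd_index (hdvd.trans (Subgroup.index_dvd_of_le hPle))
  intro a ha b hb
  have h1 : (⟨a, ha⟩ : N) ∈ Subgroup.center N := by rw [hZ]; trivial
  rw [Subgroup.mem_center_iff] at h1
  have h2 := h1 ⟨b, hb⟩
  have h3 := congrArg Subtype.val h2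
  simpa using h3.symm

end Cfsg.Agent.Lib.Helper95.HupP6
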