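import Mathlib
import Cfsg.Agent.Lib.Helper26.J3Stmt

/-!
helper95: S3366 piece CON1: the three families of matrices are symplectic, and `kapM` is
multiplicative.
-/

set_option autoImplicit false

namespace Cfsg.Agent.Lib.Helper95.J3CON1

open Cfsg Cfsg.Agent.Lib.Helper26.J3Stmt Matrix

theorem iotaM_mem (u : V) : iotaM u ∈ Matrix.symplecticGroup (Fin 2) (ZMod 3) := by
  unfold iotaM
  rw [SymplecticGroup.fromBlocks_mem_iff]
  refine ⟨?_, ?_, ?_⟩
  · ext i j; fin_cases i <;> fin_cases j <;> simp [Matrix.mul_apply, Fin.sum_univ_two]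
  · ext i j; fin_cases i <;> fin_cases j <;> simp [Matrix.mul_apply, Fin.sum_univ_two] <;> ring
  · ext i j; fin_cases i <;> fin_cases j <;>
      simp [Matrix.mul_apply, Fin.sum_univ_two, Matrix.one_apply]

theorem zM_mem : zM ∈ Matrix.symplecticGroup (Fin 2) (ZMod 3) := by
  unfold zM
  rw [SymplecticGroup.fromBlocks_mem_iff]
  refine ⟨?_, ?_, ?_⟩
  · simp
  · ext i j; fin_cases i <;> fin_cases j <;> simp [Matrix.mul_apply, Fin.sum_univ_two]
  · simp

theorem det_eq (A : SL) : A.1 0 0 * A.1 1 1 - A.1 0 1 * A.1 1 0 = 1 := by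
  have h := A.2
  rw [Matrix.det_fin_two] at h
  exact h

theorem kapM_mem (A : SL) : kapM A ∈ Matrix.symplecticGroup (Fin 2) (ZMod 3) := by
  have hd := det_eq A
  unfold kapM
  rw [SymplecticGroup.fromBlocks_mem_iff]
  refine ⟨?_, ?_, ?_⟩
  · ext i j; fin_cases i <;> fin_cases j <;> simp [Matrix.mul_apply, Fin.sum_univ_two] <;> ring
  · ext i j; fin_cases i <;> fin_cases j <;> simp [Matrix.mul_apply, Fin.sum_univ_two] <;> ring
  · ext i j; fin_cases i <;> fin_cases j <;>
      simp [Matrix.mul_apply, Fin.sum_univ_two, Matrix.one_apply] <;> linear_combination hd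

theorem kapM_mul (A B : SL) : kapM (A * B) = kapM A * kapM B := by
  unfold kapM
  rw [Matrix.fromBlocks_multiply]
  have e : ∀ i j : Fin 2, (A * B).1 i j = A.1 i 0 * B.1 0 j + A.1 i 1 * B.1 1 j := by
    intro i j
    rw [Matrix.SpecialLinearGroup.coe_mul, Matrix.mul_apply, Fin.sum_univ_two]
  congr 1
  · ext i j; fin_cases i <;> fin_cases j <;> simp [Matrix.mul_apply, Fin.sum_univ_two, e]
  · ext i j; fin_cases i <;> fin_cases j <;> simp [Matrix.mul_apply, Fin.sum_univ_two, e]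
  · ext i j; fin_cases i <;> fin_cases j <;> simp [Matrix.mul_apply, Fin.sum_univ_two, e]
  · ext i j; fin_cases i <;> fin_cases j <;> simp [Matrix.mul_apply, Fin.sum_univ_two, e]

theorem main : CON1 := by
  refine ⟨fun u => ⟨iotaM u, iotaM_mem u⟩, ⟨zM, zM_mem⟩,
    MonoidHom.mk' (fun A => ⟨kapM A, kapM_mem A⟩) ?_, ?_, ?_, ?_⟩
  · intro A B
    apply Subtype.ext
    exact kapM_mul A B
  · intro u; rfl
  · rfl
  · intro A; rfl

end Cfsg.Agent.Lib.Helper95.J3CON1
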