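import Mathlib
import Cfsg.Agent.Lib.Helper26.J3Stmt

/-!
helper95: S3366 piece CON2: the relations between the three families of symplectic matrices.
-/

set_option autoImplicit false

namespace Cfsg.Agent.Lib.Helper95.J3CON2

open Cfsg Cfsg.Agent.Lib.Helper26.J3Stmt Matrix

theorem zM_pow (k : ℕ) : zM ^ k = Matrix.fromBlocks 1 !![(k : ZMod 3), 0; 0, 0] 0 1 := by
  induction k with
  | zero =>
    rw [pow_zero, ← Matrix.fromBlocks_one]
    congr 1
    ext i j; fin_cases i <;> fin_cases j <;> simp
  | succ k ih =>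
    rw [pow_succ, ih]
    unfold zM
    rw [Matrix.fromBlocks_multiply]
    congr 1
    · simp
    · ext i j; fin_cases i <;> fin_cases j <;> simp <;> ring
    · simp
    · simp

theorem coe_mul' (a b : Sp) : ((a * b : Sp) : Mat) = (a : Mat) * (b : Mat) := rfl

theorem coe_pow' (z : Sp) (k : ℕ) : ((z ^ k : Sp) : Mat) = (z : Mat) ^ k := by
  induction k with
  | zero => rfl
  | succ k ih => rw [pow_succ, pow_succ, coe_mul', ih]

theorem coe_zpow (z : Sp) (hz : (z : Mat) = zM) (k : ℕ) :
    ((z ^ k : Sp) : Mat) = Matrix.fromBlocks 1 !![(k : ZMod 3), 0; 0, 0] 0 1 := by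
  rw [coe_pow', hz, zM_pow]

theorem coe_zpow_val (z : Sp) (hz : (z : Mat) = zM) (c : ZMod 3) :
    ((z ^ c.val : Sp) : Mat) = Matrix.fromBlocks 1 !![c, 0; 0, 0] 0 1 := by
  rw [coe_zpow z hz, ZMod.natCast_zmod_val]

theorem z_pow_three (z : Sp) (hz : (z : Mat) = zM) : z ^ 3 = 1 := by
  apply Subtype.ext
  rw [coe_zpow z hz 3]
  show _ = (1 : Mat)
  rw [← Matrix.fromBlocks_one]
  congr 1
  ext i j; fin_cases i <;> fin_cases j <;> simp <;> rfl

theorem det_eq (A : SL) : A.1 0 0 * A.1 1 1 - A.1 0 1 * A.1 1 0 = 1 := by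
  have h := A.2
  rw [Matrix.det_fin_two] at h
  exact h

theorem main : CON2 := by
  intro ι z κ ⟨hι, hz, hκ⟩
  refine ⟨z_pow_three z hz, ?_, ?_, ?_, ?_⟩
  · intro u
    apply Subtype.ext
    rw [coe_mul', coe_mul', hι, hz]
    unfold zM iotaM
    rw [Matrix.fromBlocks_multiply, Matrix.fromBlocks_multiply]
    congr 1 <;>
      (ext i j; fin_cases i <;> fin_cases j <;> simp [Matrix.mul_apply, Fin.sum_univ_two])
  · intro A
    apply Subtype.ext
    rw [coe_mul', coe_mul', hκ, hz]
    unfold zM kapM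
    rw [Matrix.fromBlocks_multiply, Matrix.fromBlocks_multiply]
    congr 1 <;>
      (ext i j; fin_cases i <;> fin_cases j <;> simp [Matrix.mul_apply, Fin.sum_univ_two])
  · intro u v
    apply Subtype.ext
    rw [coe_mul', coe_mul', hι, hι, hι, coe_zpow_val z hz]
    unfold iotaM
    rw [Matrix.fromBlocks_multiply, Matrix.fromBlocks_multiply]
    congr 1 <;>
      (ext i j; fin_cases i <;> fin_cases j <;>
        simp [Matrix.mul_apply, Fin.sum_univ_two] <;> ring)
  · intro A u
    have hd := det_eq A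
    apply Subtype.ext
    rw [coe_mul', coe_mul', hι u, hι (A.1.mulVec u), hκ]
    unfold iotaM kapM
    rw [Matrix.fromBlocks_multiply, Matrix.fromBlocks_multiply]
    congr 1 <;>
      (ext i j; fin_cases i <;> fin_cases j <;>
        simp [Matrix.mul_apply, Fin.sum_univ_two, Matrix.mulVec, dotProduct] <;>
        first
          | ring1
          | linear_combination (u 1) * hd
          | linear_combination (-(u 1)) * hd
          | linear_combination (u 0) * hd
          | linear_combination (-(u 0)) * hd)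

end Cfsg.Agent.Lib.Helper95.J3CON2
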