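import Mathlib

set_option autoImplicit false

namespace Cfsg.Agent.Lib.Helper95.KGLA

open Polynomial Module

universe u

variable {F : Type u} [Field F]

theorem count_map_univ' {κ γ : Type*} [Fintype κ] [DecidableEq γ] (f : κ → γ) (c : γ) :
    Multiset.count c (Multiset.map f Finset.univ.val) = Fintype.card {a // f a = c} := by
  classical
  rw [Multiset.count_map, Fintype.card_subtype, Finset.card_def, Finset.filter_val]
  congr 1
  apply Multiset.filter_congr
  intro x _
  exact eq_comm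

theorem exists_equiv_of_map_eq' {α β γ : Type*} [Fintype α] [Fintype β] (f : α → γ) (g : β → γ)
    (h : Multiset.map f Finset.univ.val = Multiset.map g Finset.univ.val) :
    ∃ e : α ≃ β, ∀ a, g (e a) = f a := by
  classical
  have hc : ∀ c, Fintype.card {a // f a = c} = Fintype.card {b // g b = c} := by
    intro c
    rw [← count_map_univ' f c, ← count_map_univ' g c, h]
  let ε : ∀ c, {a // f a = c} ≃ {b // g b = c} := fun c => Fintype.equivOfCardEq (hc c)
  refine ⟨(Equiv.sigmaFiberEquiv f).symm.trans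
    ((Equiv.sigmaCongrRight ε).trans (Equiv.sigmaFiberEquiv g)), ?_⟩
  intro a
  exact (ε (f a) ⟨a, rfl⟩).2

/-- dropping trivial factors of a product -/
noncomputable def dropEquiv {R : Type*} [Semiring R] {ι : Type*} (N : ι → Type*)
    [∀ i, AddCommMonoid (N i)] [∀ i, Module R (N i)] (P : ι → Prop) [DecidablePred P]
    (h : ∀ i, ¬ P i → Subsingleton (N i)) :
    (∀ i, N i) ≃ₗ[R] (∀ i : {i // P i}, N i.1) where
  toFun f := fun i => f i.1
  invFun g := fun i => if hi : P i then g ⟨i, hi⟩ else 0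
  map_add' := fun _ _ => rfl
  map_smul' := fun _ _ => rfl
  left_inv := by
    intro f
    funext i
    by_cases hi : P i
    · simp only [dif_pos hi]
    · have := h i hi
      exact Subsingleton.elim _ _
  right_inv := by
    intro g
    funext i
    simp only [dif_pos i.2]

/-- `φ` has a primary decomposition with the given multiset of elementary divisors -/
def HasDecomp {V : Type u} [AddCommGroup V] [Module F V] (φ : Module.End F V)
    (D : Multiset (F[X] × ℕ)) : Prop :=
  ∃ (ι : Type u) (_ : Fintype ι) (p : ι → F[X]) (e : ι → ℕ), (∀ i, Irreducible (p i)) ∧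
    (∀ i, (p i).Monic) ∧ (∀ i, 0 < e i) ∧
    Nonempty (Module.AEval' φ ≃ₗ[F[X]] (∀ i, F[X] ⧸ Submodule.span F[X] {p i ^ e i})) ∧
    D = Finset.univ.val.map (fun i => (p i, e i))

theorem exists_hasDecomp {V : Type u} [AddCommGroup V] [Module F V] [FiniteDimensional F V]
    (φ : Module.End F V) : ∃ D, HasDecomp φ D := by
  classical
  obtain ⟨ι, _, p, hp, e, ⟨Φ⟩⟩ :=
    Module.equiv_directSum_of_isTorsion (Module.AEval.isTorsion_of_finiteDimensional F V φ)
  have hsub : ∀ i, ¬ (e i ≠ 0) → Subsingleton (F[X] ⧸ Submodule.span F[X] {p i ^ e i}) := by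
    intro i hi
    have hi' : e i = 0 := not_not.mp hi
    rw [hi', pow_zero]
    have : Submodule.span F[X] {(1 : F[X])} = ⊤ := Ideal.span_singleton_one
    rw [this]
    exact Submodule.Quotient.subsingleton_iff.mpr rfl
  have hp0 : ∀ i, p i ≠ 0 := fun i => (hp i).ne_zero
  let Φ1 := Φ.trans (DirectSum.linearEquivFunOnFintype F[X] ι _)
  let Φ2 := Φ1.trans (dropEquiv (R := F[X]) (fun i => F[X] ⧸ Submodule.span F[X] {p i ^ e i})
    (fun i => e i ≠ 0) hsub)
  have hspan : ∀ i : {i // e i ≠ 0}, Submodule.span F[X] {p i.1 ^ e i.1} =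
      Submodule.span F[X] {normalize (p i.1) ^ e i.1} := by
    intro i
    exact Ideal.span_singleton_eq_span_singleton.mpr ((associated_normalize (p i.1)).pow_pow)
  let Φ3 := Φ2.trans (LinearEquiv.piCongrRight (fun i : {i // e i ≠ 0} =>
    Submodule.quotEquivOfEq _ _ (hspan i)))
  refine ⟨_, {i // e i ≠ 0}, inferInstance, fun i => normalize (p i.1), fun i => e i.1,
    fun i => (associated_normalize (p i.1)).irreducible (hp i.1),
    fun i => Polynomial.monic_normalize (hp0 i.1), fun i => Nat.pos_of_ne_zero i.2, ⟨Φ3⟩, rfl⟩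

theorem iso_of_hasDecomp {V V' : Type u} [AddCommGroup V] [Module F V] [AddCommGroup V']
    [Module F V'] (φ : Module.End F V) (φ' : Module.End F V') (D : Multiset (F[X] × ℕ))
    (h : HasDecomp φ D) (h' : HasDecomp φ' D) :
    Nonempty (Module.AEval' φ ≃ₗ[F[X]] Module.AEval' φ') := by
  classical
  obtain ⟨ι, _, p, e, -, -, -, ⟨Φ⟩, hD⟩ := h
  obtain ⟨ι', _, p', e', -, -, -, ⟨Φ'⟩, hD'⟩ := h'
  obtain ⟨σ, hσ⟩ := exists_equiv_of_map_eq' (fun i => (p i, e i)) (fun i => (p' i, e' i))
    (by rw [← hD, ← hD'])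
  have hspan : ∀ i, Submodule.span F[X] {p i ^ e i} =
      Submodule.span F[X] {p' (σ i) ^ e' (σ i)} := by
    intro i
    have := hσ i
    simp only [Prod.mk.injEq] at this
    rw [this.1, this.2]
  let Ψ1 : (∀ i, F[X] ⧸ Submodule.span F[X] {p i ^ e i}) ≃ₗ[F[X]]
      (∀ i, F[X] ⧸ Submodule.span F[X] {p' (σ i) ^ e' (σ i)}) :=
    LinearEquiv.piCongrRight (fun i => Submodule.quotEquivOfEq _ _ (hspan i))
  let Ψ2 := LinearEquiv.piCongrLeft F[X] (fun j => F[X] ⧸ Submodule.span F[X] {p' j ^ e' j}) σ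
  exact ⟨Φ.trans (Ψ1.trans (Ψ2.trans Φ'.symm))⟩

theorem conj_of_iso {V V' : Type u} [AddCommGroup V] [Module F V] [AddCommGroup V']
    [Module F V'] (φ : Module.End F V) (φ' : Module.End F V')
    (Φ : Module.AEval' φ ≃ₗ[F[X]] Module.AEval' φ') :
    ∃ T : V ≃ₗ[F] V', ∀ v, T (φ v) = φ' (T v) := by
  refine ⟨(Module.AEval'.of φ).trans ((Φ.restrictScalars F).trans (Module.AEval'.of φ').symm), ?_⟩
  intro v
  show (Module.AEval'.of φ').symm (Φ (Module.AEval'.of φ (φ v))) =
    φ' ((Module.AEval'.of φ').symm (Φ (Module.AEval'.of φ v)))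
  rw [← Module.AEval'.X_smul_of, map_smul, Module.AEval'.of_symm_X_smul]

theorem hasDecomp_props {V : Type u} [AddCommGroup V] [Module F V] (φ : Module.End F V)
    (D : Multiset (F[X] × ℕ)) (h : HasDecomp φ D) :
    ∀ x ∈ D, Irreducible x.1 ∧ x.1.Monic ∧ 0 < x.2 := by
  obtain ⟨ι, _, p, e, hirr, hmon, hpos, -, rfl⟩ := h
  intro x hx
  obtain ⟨i, -, rfl⟩ := Multiset.mem_map.mp hx
  exact ⟨hirr i, hmon i, hpos i⟩

theorem hasDecomp_sum {V : Type u} [AddCommGroup V] [Module F V] [FiniteDimensional F V]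
    (φ : Module.End F V) (D : Multiset (F[X] × ℕ)) (h : HasDecomp φ D) :
    (D.map (fun x => x.2 * x.1.natDegree)).sum = finrank F V := by
  obtain ⟨ι, _, p, e, hirr, hmon, hpos, ⟨Φ⟩, rfl⟩ := h
  let T : V ≃ₗ[F] (∀ i, F[X] ⧸ Submodule.span F[X] {p i ^ e i}) :=
    (Module.AEval'.of φ).trans (Φ.restrictScalars F)
  have : Module.Finite F (∀ i, F[X] ⧸ Submodule.span F[X] {p i ^ e i}) := Module.Finite.equiv T
  have : ∀ i, Module.Finite F (F[X] ⧸ Submodule.span F[X] {p i ^ e i}) := fun i =>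
    Module.Finite.of_surjective
      (LinearMap.proj i : (∀ i, F[X] ⧸ Submodule.span F[X] {p i ^ e i}) →ₗ[F] _)
      (LinearMap.proj_surjective i)
  rw [T.finrank_eq, Module.finrank_pi_fintype, Multiset.map_map]
  show ∑ i, (e i * (p i).natDegree) = _
  apply Finset.sum_congr rfl
  intro i _
  rw [← natDegree_pow]
  exact finrank_quotient_span_eq_natDegree.symm

theorem hasDecomp_coeff_zero {V : Type u} [AddCommGroup V] [Module F V]
    (φ : Module.End F V) (hφ : Function.Injective φ) (D : Multiset (F[X] × ℕ))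
    (h : HasDecomp φ D) : ∀ x ∈ D, x.1.coeff 0 ≠ 0 := by
  classical
  obtain ⟨ι, _, p, e, hirr, hmon, hpos, ⟨Φ⟩, rfl⟩ := h
  intro x hx
  obtain ⟨i, -, rfl⟩ := Multiset.mem_map.mp hx
  intro h0
  have hX : (X : F[X]) ∣ p i := Polynomial.X_dvd_iff.mpr h0
  have hpX : p i = X :=
    (Polynomial.eq_of_monic_of_associated Polynomial.monic_X (hmon i)
      (Polynomial.irreducible_X.associated_of_dvd (hirr i) hX)).symm
  set m0 : F[X] ⧸ Submodule.span F[X] {p i ^ e i} :=
    Submodule.Quotient.mk ((X : F[X]) ^ (e i - 1)) with hm0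
  have hm0ne : m0 ≠ 0 := by
    rw [hm0, Ne, Submodule.Quotient.mk_eq_zero, Submodule.mem_span_singleton]
    rintro ⟨a, ha⟩
    rw [hpX, smul_eq_mul] at ha
    replace ha := ha.symm
    have h1 := congrArg Polynomial.natDegree ha
    have ha0 : a ≠ 0 := by
      rintro rfl
      rw [zero_mul] at ha
      exact pow_ne_zero _ Polynomial.X_ne_zero ha
    rw [Polynomial.natDegree_mul ha0 (pow_ne_zero _ Polynomial.X_ne_zero),
      Polynomial.natDegree_X_pow, Polynomial.natDegree_X_pow] at h1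
    have := hpos i
    omega
  have hXm0 : (X : F[X]) • m0 = 0 := by
    rw [hm0, ← Submodule.Quotient.mk_smul, Submodule.Quotient.mk_eq_zero,
      Submodule.mem_span_singleton]
    refine ⟨1, ?_⟩
    rw [hpX, one_smul, smul_eq_mul, ← pow_succ']
    congr 1
    have := hpos i
    omega
  set m : ∀ j, F[X] ⧸ Submodule.span F[X] {p j ^ e j} := Pi.single i m0 with hm
  have hmne : m ≠ 0 := by
    intro hh
    apply hm0ne
    have := congrFun hh i
    rw [hm, Pi.single_eq_same] at this
    exact this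
  have hXm : (X : F[X]) • m = 0 := by
    rw [hm, ← Pi.single_smul, hXm0, Pi.single_zero]
  set v : V := (Module.AEval'.of φ).symm (Φ.symm m) with hv
  have hvne : v ≠ 0 := by
    intro hh
    apply hmne
    have h1 : Φ.symm m = 0 := by
      have := congrArg (Module.AEval'.of φ) hh
      rw [hv, LinearEquiv.apply_symm_apply, map_zero] at this
      exact this
    have h2 := congrArg Φ h1
    rw [LinearEquiv.apply_symm_apply, map_zero] at h2
    exact h2
  have hφv : φ v = 0 := by
    rw [hv, ← Module.AEval'.of_symm_X_smul, ← map_smul, hXm, map_zero, map_zero]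
  exact hvne (hφ (by rw [hφv, map_zero]))

theorem toLin'_injective_of_unit {n : ℕ} (g : Matrix.GeneralLinearGroup (Fin n) F) :
    Function.Injective (Matrix.toLin' g.1) := by
  intro v w h
  have h1 := congrArg (Matrix.toLin' (g⁻¹).1) h
  rw [← Matrix.toLin'_mul_apply, ← Matrix.toLin'_mul_apply] at h1
  have h2 : (g⁻¹).1 * g.1 = 1 := Units.inv_mul g
  rw [h2, Matrix.toLin'_one] at h1
  exact h1

theorem isConj_of_hasDecomp {n : ℕ} (g g' : Matrix.GeneralLinearGroup (Fin n) F)
    (D : Multiset (F[X] × ℕ))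
    (h : HasDecomp (Matrix.toLin' g.1) D) (h' : HasDecomp (Matrix.toLin' g'.1) D) :
    IsConj g g' := by
  obtain ⟨Φ⟩ := iso_of_hasDecomp _ _ D h h'
  obtain ⟨T, hT⟩ := conj_of_iso _ _ Φ
  let P : Matrix (Fin n) (Fin n) F := LinearMap.toMatrix' T.toLinearMap
  let Q : Matrix (Fin n) (Fin n) F := LinearMap.toMatrix' T.symm.toLinearMap
  have hPQ : P * Q = 1 := by
    show LinearMap.toMatrix' T.toLinearMap * LinearMap.toMatrix' T.symm.toLinearMap = 1
    rw [← LinearMap.toMatrix'_comp, ← LinearMap.toMatrix'_id]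
    congr 1
    exact LinearMap.ext (fun v => T.apply_symm_apply v)
  have hQP : Q * P = 1 := by
    show LinearMap.toMatrix' T.symm.toLinearMap * LinearMap.toMatrix' T.toLinearMap = 1
    rw [← LinearMap.toMatrix'_comp, ← LinearMap.toMatrix'_id]
    congr 1
    exact LinearMap.ext (fun v => T.symm_apply_apply v)
  let c : Matrix.GeneralLinearGroup (Fin n) F := ⟨P, Q, hPQ, hQP⟩
  have hc : P * g.1 = g'.1 * P := by
    have h1 : T.toLinearMap ∘ₗ Matrix.toLin' g.1 = Matrix.toLin' g'.1 ∘ₗ T.toLinearMap :=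
      LinearMap.ext hT
    have h2 := congrArg LinearMap.toMatrix' h1
    rw [LinearMap.toMatrix'_comp, LinearMap.toMatrix'_comp, LinearMap.toMatrix'_toLin',
      LinearMap.toMatrix'_toLin'] at h2
    exact h2
  rw [isConj_iff]
  refine ⟨c, ?_⟩
  rw [mul_inv_eq_iff_eq_mul]
  exact Units.ext hc

end Cfsg.Agent.Lib.Helper95.KGLA
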