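import Mathlib

set_option autoImplicit false

namespace Cfsg.Agent.Lib.Helper95.KGLB

open Polynomial

universe u

section Lists

variable {F : Type u} [Zero F]

/-- validity of a list of blocks -/
def valid : ℕ → List (ℕ × F) → Prop
  | _, [] => True
  | μ, x :: r => 1 ≤ x.1 ∧ x.1 ≤ μ ∧ (x.1 < μ → x.2 ≠ 0) ∧ valid x.1 r

/-- the encoding of a list of blocks -/
def enc (L : List (ℕ × F)) : List F :=
  L.flatMap (fun x => List.replicate (x.1 - 1) 0 ++ [x.2])

theorem enc_cons (x : ℕ × F) (r : List (ℕ × F)) :
    enc (x :: r) = List.replicate (x.1 - 1) 0 ++ (x.2 :: enc r) := by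
  unfold enc
  rw [List.flatMap_cons, List.append_assoc, List.singleton_append]

theorem enc_cons_ne_nil (x : ℕ × F) (r : List (ℕ × F)) : enc (x :: r) ≠ [] := by
  rw [enc_cons]
  exact List.append_ne_nil_of_right_ne_nil _ (List.cons_ne_nil _ _)

theorem enc_head_zero (x y : ℕ × F) (r r' : List (ℕ × F)) (hlt : x.1 < y.1) (hx : 1 ≤ x.1)
    (h : enc (x :: r) = enc (y :: r')) : x.2 = 0 := by
  rw [enc_cons, enc_cons] at h
  have h1 := congrArg (fun l => l[x.1 - 1]?) h
  rw [List.getElem?_append_right (by rw [List.length_replicate]), List.length_replicate,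
    Nat.sub_self, List.getElem?_cons_zero,
    List.getElem?_append_left (by rw [List.length_replicate]; omega), List.getElem?_replicate,
    if_pos (by omega)] at h1
  exact Option.some.inj h1

theorem enc_injective : ∀ (L L' : List (ℕ × F)) (μ : ℕ), valid μ L → valid μ L' →
    enc L = enc L' → L = L'
  | [], [], _, _, _, _ => rfl
  | [], y :: r', _, _, _, h => absurd h.symm (enc_cons_ne_nil y r')
  | x :: r, [], _, _, _, h => absurd h (enc_cons_ne_nil x r)
  | x :: r, y :: r', μ, hL, hL', h => by
    obtain ⟨hx1, hxμ, hxc, hr⟩ := hL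
    obtain ⟨hy1, hyμ, hyc, hr'⟩ := hL'
    have key : x.1 = y.1 := by
      by_contra hne
      rcases Nat.lt_or_gt_of_ne hne with hlt | hlt
      · exact hxc (by omega) (enc_head_zero x y r r' hlt hx1 h)
      · exact hyc (by omega) (enc_head_zero y x r' r hlt hy1 h.symm)
    rw [enc_cons, enc_cons, key] at h
    have h2 := List.append_cancel_left h
    have h3 := List.cons.inj h2
    rw [← key] at hr'
    have h4 := enc_injective r r' x.1 hr hr' h3.2
    rw [h4]
    congr 1
    exact Prod.ext key h3.1

theorem enc_length : ∀ (L : List (ℕ × F)) (μ : ℕ), valid μ L →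
    (enc L).length = (L.map Prod.fst).sum
  | [], _, _ => rfl
  | x :: r, μ, hL => by
    obtain ⟨hx1, hxμ, hxc, hr⟩ := hL
    rw [enc_cons, List.length_append, List.length_replicate, List.length_cons,
      enc_length r x.1 hr, List.map_cons, List.sum_cons]
    omega

/-- the list of blocks built from coefficient lists -/
def LL (cs : ℕ → List F) : ℕ → List (ℕ × F)
  | 0 => []
  | m + 1 => (cs (m + 1)).map (Prod.mk (m + 1)) ++ LL cs m

theorem valid_block_same (i : ℕ) (hi : 1 ≤ i) (r : List (ℕ × F)) (hr : valid i r) :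
    ∀ l : List F, valid i (l.map (Prod.mk i) ++ r)
  | [] => hr
  | _ :: l => ⟨hi, le_refl i, fun h => absurd h (lt_irrefl i), valid_block_same i hi r hr l⟩

theorem valid_block (i μ : ℕ) (hi : 1 ≤ i) (hiμ : i ≤ μ) (r : List (ℕ × F)) (hr : valid i r)
    (hr' : valid μ r) :
    ∀ l : List F, (∀ c ∈ l.head?, c ≠ 0) → valid μ (l.map (Prod.mk i) ++ r)
  | [], _ => hr'
  | c :: l, h => ⟨hi, hiμ, fun _ => h c rfl, valid_block_same i hi r hr l⟩

theorem valid_LL (cs : ℕ → List F) (hcs : ∀ i, ∀ c ∈ (cs i).head?, c ≠ 0) :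
    ∀ m μ : ℕ, m < μ → valid μ (LL cs m)
  | 0, _, _ => trivial
  | m + 1, μ, h =>
    valid_block (m + 1) μ (Nat.succ_le_succ (Nat.zero_le m)) (le_of_lt h) (LL cs m)
      (valid_LL cs hcs m (m + 1) (Nat.lt_succ_self m)) (valid_LL cs hcs m μ (by omega))
      (cs (m + 1)) (hcs (m + 1))

theorem LL_filter (cs : ℕ → List F) : ∀ (m i : ℕ),
    ((LL cs m).filter (fun x => decide (x.1 = i))).map Prod.snd =
      if 1 ≤ i ∧ i ≤ m then cs i else []
  | 0, i => by
    rw [if_neg (by omega)]
    rfl
  | m + 1, i => by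
    show (((cs (m + 1)).map (Prod.mk (m + 1)) ++ LL cs m).filter
      (fun x => decide (x.1 = i))).map Prod.snd = _
    rw [List.filter_append, List.map_append, LL_filter cs m i, List.filter_map]
    by_cases hi : m + 1 = i
    · subst hi
      rw [if_neg (by omega), if_pos (by omega), List.append_nil, List.filter_eq_self.mpr,
        List.map_map]
      · exact List.map_id _
      · intro a _
        simp
    · rw [List.filter_eq_nil_iff.mpr, List.map_nil, List.map_nil, List.nil_append]
      · by_cases h2 : 1 ≤ i ∧ i ≤ m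
        · rw [if_pos h2, if_pos (by omega)]
        · rw [if_neg h2, if_neg (by omega)]
      · intro a _
        simp [hi]

theorem LL_injective (cs cs' : ℕ → List F) (n : ℕ)
    (h0 : ∀ i, (i = 0 ∨ n < i) → cs i = [] ∧ cs' i = [])
    (h : LL cs n = LL cs' n) : cs = cs' := by
  funext i
  by_cases hi : 1 ≤ i ∧ i ≤ n
  · have h1 := LL_filter cs n i
    have h2 := LL_filter cs' n i
    rw [if_pos hi] at h1 h2
    rw [← h1, ← h2, h]
  · have := h0 i (by omega)
    rw [this.1, this.2]

omit [Zero F] in
theorem LL_sum (cs : ℕ → List F) : ∀ m : ℕ,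
    ((LL cs m).map Prod.fst).sum = ∑ i ∈ Finset.range (m + 1), i * (cs i).length
  | 0 => by simp [LL]
  | m + 1 => by
    rw [Finset.sum_range_succ, ← LL_sum cs m]
    show (((cs (m + 1)).map (Prod.mk (m + 1)) ++ LL cs m).map Prod.fst).sum = _
    rw [List.map_append, List.sum_append, List.map_map, add_comm]
    congr 1
    have : (Prod.fst ∘ Prod.mk (m + 1) : F → ℕ) = fun _ => m + 1 := rfl
    rw [this, List.map_const', List.sum_replicate, smul_eq_mul, mul_comm]

end Lists

section Poly

variable {F : Type u} [Field F]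

/-- the list of lower coefficients -/
noncomputable def cl (g : F[X]) : List F := (List.range g.natDegree).map g.coeff

theorem cl_length (g : F[X]) : (cl g).length = g.natDegree := by
  unfold cl
  rw [List.length_map, List.length_range]

theorem cl_head (g : F[X]) (h0 : g.coeff 0 ≠ 0) : ∀ c ∈ (cl g).head?, c ≠ 0 := by
  intro c hc
  unfold cl at hc
  rw [List.head?_map, List.head?_range] at hc
  by_cases hd : g.natDegree = 0
  · rw [if_pos hd] at hc
    simp at hc
  · rw [if_neg hd] at hc
    simp at hc
    rw [← hc]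
    exact h0

theorem cl_injective (g g' : F[X]) (hg : g.Monic) (hg' : g'.Monic) (h : cl g = cl g') :
    g = g' := by
  have hd : g.natDegree = g'.natDegree := by
    rw [← cl_length g, ← cl_length g', h]
  ext j
  rcases Nat.lt_trichotomy j g.natDegree with hj | hj | hj
  · have h1 := congrArg (fun l => l[j]?) h
    unfold cl at h1
    rw [List.getElem?_map, List.getElem?_map, List.getElem?_range hj,
      List.getElem?_range (by omega)] at h1
    exact Option.some.inj h1
  · rw [hj]
    conv_rhs => rw [hd]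
    rw [Polynomial.coeff_natDegree, Polynomial.coeff_natDegree, hg.leadingCoeff, hg'.leadingCoeff]
  · rw [Polynomial.coeff_eq_zero_of_natDegree_lt hj,
      Polynomial.coeff_eq_zero_of_natDegree_lt (by omega)]

end Poly

section MS

variable {F : Type u} [Field F]

/-- the multiset of irreducibles with exponent `i` -/
def SS (D : Multiset (F[X] × ℕ)) (i : ℕ) : Multiset F[X] :=
  (D.filter (fun x => x.2 = i)).map Prod.fst

/-- goodness of an elementary divisor multiset -/
def Good (D : Multiset (F[X] × ℕ)) (n : ℕ) : Prop :=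
  (∀ x ∈ D, Irreducible x.1 ∧ x.1.Monic ∧ 0 < x.2 ∧ x.1.coeff 0 ≠ 0) ∧
  (D.map (fun x => x.2 * x.1.natDegree)).sum = n

theorem SS_mem (D : Multiset (F[X] × ℕ)) (i : ℕ) (p : F[X]) (hp : p ∈ SS D i) : (p, i) ∈ D := by
  obtain ⟨x, hx, rfl⟩ := Multiset.mem_map.mp hp
  obtain ⟨hxD, hxi⟩ := Multiset.mem_filter.mp hx
  rw [← hxi]
  exact hxD

theorem SS_eq_zero (D : Multiset (F[X] × ℕ)) (n : ℕ) (hD : Good D n) (i : ℕ)
    (hi : i = 0 ∨ n < i) : SS D i = 0 := by
  rw [Multiset.eq_zero_iff_forall_notMem]
  intro p hp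
  have hmem := SS_mem D i p hp
  obtain ⟨hirr, hmon, hpos, h0⟩ := hD.1 _ hmem
  have hle : i * p.natDegree ≤ n := by
    rw [← hD.2]
    exact Multiset.le_sum_of_mem
      (Multiset.mem_map_of_mem (fun x : F[X] × ℕ => x.2 * x.1.natDegree) hmem)
  have hdeg : 0 < p.natDegree := hirr.natDegree_pos
  rcases hi with rfl | hi
  · exact lt_irrefl _ hpos
  · nlinarith

theorem count_SS [DecidableEq F[X]] (D : Multiset (F[X] × ℕ)) (p : F[X]) (i : ℕ) :
    Multiset.count p (SS D i) = Multiset.count (p, i) D := by
  induction D using Multiset.induction with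
  | empty => simp [SS]
  | cons a D ih =>
    unfold SS at ih ⊢
    rw [Multiset.filter_cons, Multiset.count_cons]
    by_cases ha : a.2 = i
    · rw [if_pos ha, Multiset.singleton_add, Multiset.map_cons, Multiset.count_cons, ih]
      congr 1
      by_cases hp : p = a.1
      · rw [if_pos hp, if_pos (Prod.ext hp ha.symm)]
      · rw [if_neg hp, if_neg (fun h => hp (congrArg Prod.fst h))]
    · rw [if_neg ha, zero_add, ih, if_neg, add_zero]
      intro h
      exact ha (congrArg Prod.snd h).symm

theorem SS_injective (D D' : Multiset (F[X] × ℕ)) (h : ∀ i, SS D i = SS D' i) : D = D' := by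
  classical
  ext ⟨p, i⟩
  rw [← count_SS, ← count_SS, h]

/-- the product of irreducibles with exponent `i` -/
noncomputable def gg (D : Multiset (F[X] × ℕ)) (i : ℕ) : F[X] := (SS D i).prod

theorem gg_monic (D : Multiset (F[X] × ℕ)) (n : ℕ) (hD : Good D n) (i : ℕ) :
    (gg D i).Monic := by
  have := Polynomial.monic_multiset_prod_of_monic (SS D i) id
    (fun p hp => (hD.1 _ (SS_mem D i p hp)).2.1)
  rw [Multiset.map_id] at this
  exact this

theorem gg_coeff_zero (D : Multiset (F[X] × ℕ)) (n : ℕ) (hD : Good D n) (i : ℕ) :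
    (gg D i).coeff 0 ≠ 0 := by
  unfold gg
  rw [Polynomial.coeff_zero_multiset_prod]
  apply Multiset.prod_ne_zero
  intro h0
  obtain ⟨p, hp, hp0⟩ := Multiset.mem_map.mp h0
  exact (hD.1 _ (SS_mem D i p hp)).2.2.2 hp0

theorem gg_natDegree (D : Multiset (F[X] × ℕ)) (n : ℕ) (hD : Good D n) (i : ℕ) :
    (gg D i).natDegree = ((SS D i).map Polynomial.natDegree).sum :=
  Polynomial.natDegree_multiset_prod_of_monic _ (fun p hp => (hD.1 _ (SS_mem D i p hp)).2.1)

theorem SS_eq_factors [DecidableEq F] (D : Multiset (F[X] × ℕ)) (n : ℕ) (hD : Good D n) (i : ℕ) :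
    SS D i = UniqueFactorizationMonoid.normalizedFactors (gg D i) := by
  unfold gg
  rw [UniqueFactorizationMonoid.normalizedFactors_prod_eq _
    (fun p hp => (hD.1 _ (SS_mem D i p hp)).1)]
  conv_lhs => rw [← Multiset.map_id (SS D i)]
  apply Multiset.map_congr rfl
  intro p hp
  exact ((hD.1 _ (SS_mem D i p hp)).2.1.normalize_eq_self).symm

theorem sum_filter_general {α : Type*} (k : α → ℕ) (f : α → ℕ) (N : ℕ) (D : Multiset α) :
    (∀ x ∈ D, k x < N) →
    ∑ i ∈ Finset.range N, ((D.filter (fun x => k x = i)).map f).sum = (D.map f).sum := by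
  induction D using Multiset.induction with
  | empty =>
    intro _
    simp
  | cons a D ih =>
    intro h
    have h1 : ∀ i, (((a ::ₘ D).filter (fun x => k x = i)).map f).sum =
        (if k a = i then f a else 0) + ((D.filter (fun x => k x = i)).map f).sum := by
      intro i
      rw [Multiset.filter_cons, Multiset.map_add, Multiset.sum_add]
      congr 1
      by_cases hi : k a = i
      · rw [if_pos hi, if_pos hi, Multiset.map_singleton, Multiset.sum_singleton]
      · rw [if_neg hi, if_neg hi, Multiset.map_zero, Multiset.sum_zero]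
    rw [Finset.sum_congr rfl (fun i _ => h1 i), Finset.sum_add_distrib,
      ih (fun x hx => h x (Multiset.mem_cons_of_mem hx)), Finset.sum_ite_eq,
      if_pos (Finset.mem_range.mpr (h a (Multiset.mem_cons_self a D))), Multiset.map_cons,
      Multiset.sum_cons]

theorem gg_sum (D : Multiset (F[X] × ℕ)) (n : ℕ) (hD : Good D n) :
    ∑ i ∈ Finset.range (n + 1), i * (gg D i).natDegree = n := by
  have h1 : ∀ i, i * (gg D i).natDegree =
      ((D.filter (fun x => x.2 = i)).map (fun x => x.2 * x.1.natDegree)).sum := by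
    intro i
    rw [gg_natDegree D n hD i, ← Multiset.sum_map_mul_left]
    unfold SS
    rw [Multiset.map_map]
    congr 1
    apply Multiset.map_congr rfl
    intro x hx
    rw [(Multiset.mem_filter.mp hx).2]
    rfl
  rw [Finset.sum_congr rfl (fun i _ => h1 i),
    sum_filter_general (fun x : F[X] × ℕ => x.2) (fun x => x.2 * x.1.natDegree) (n + 1) D]
  · exact hD.2
  · intro x hx
    obtain ⟨hirr, hmon, hpos, h0⟩ := hD.1 _ hx
    have hle : x.2 * x.1.natDegree ≤ n := by
      rw [← hD.2]
      exact Multiset.le_sum_of_mem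
        (Multiset.mem_map_of_mem (fun x : F[X] × ℕ => x.2 * x.1.natDegree) hx)
    have hdeg : 0 < x.1.natDegree := hirr.natDegree_pos
    show x.2 < n + 1
    nlinarith

/-- the code of an elementary divisor multiset -/
noncomputable def code (D : Multiset (F[X] × ℕ)) (n : ℕ) : List F :=
  enc (LL (fun i => cl (gg D i)) n)

theorem code_valid (D : Multiset (F[X] × ℕ)) (n : ℕ) (hD : Good D n) :
    valid (n + 1) (LL (fun i => cl (gg D i)) n) :=
  valid_LL _ (fun i => cl_head _ (gg_coeff_zero D n hD i)) n (n + 1) (Nat.lt_succ_self n)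

theorem code_length (D : Multiset (F[X] × ℕ)) (n : ℕ) (hD : Good D n) :
    (code D n).length = n := by
  unfold code
  rw [enc_length _ _ (code_valid D n hD), LL_sum]
  have h := gg_sum D n hD
  calc ∑ i ∈ Finset.range (n + 1), i * (cl (gg D i)).length
      = ∑ i ∈ Finset.range (n + 1), i * (gg D i).natDegree :=
        Finset.sum_congr rfl (fun i _ => by rw [cl_length])
    _ = n := h

theorem code_injective (D D' : Multiset (F[X] × ℕ)) (n : ℕ) (hD : Good D n) (hD' : Good D' n)
    (h : code D n = code D' n) : D = D' := by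
  classical
  have h1 := enc_injective _ _ (n + 1) (code_valid D n hD) (code_valid D' n hD') h
  have h2 := LL_injective _ _ n (by
    intro i hi
    have e1 : gg D i = 1 := by
      unfold gg
      rw [SS_eq_zero D n hD i hi, Multiset.prod_zero]
    have e2 : gg D' i = 1 := by
      unfold gg
      rw [SS_eq_zero D' n hD' i hi, Multiset.prod_zero]
    simp only [e1, e2]
    have : cl (1 : F[X]) = [] := by
      unfold cl
      rw [Polynomial.natDegree_one]
      rfl
    exact ⟨this, this⟩) h1
  apply SS_injective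
  intro i
  rw [SS_eq_factors D n hD i, SS_eq_factors D' n hD' i]
  congr 1
  exact cl_injective _ _ (gg_monic D n hD i) (gg_monic D' n hD' i) (congrFun h2 i)

end MS

end Cfsg.Agent.Lib.Helper95.KGLB
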