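import Mathlib

set_option autoImplicit false

namespace Cfsg.Agent.Lib.Helper95.KGLC

open Polynomial Module

universe u

variable {F : Type u} [Field F]

/-- monic polynomial with prescribed lower coefficients -/
noncomputable def mkPoly (n : ℕ) (a : Fin n → F) : F[X] :=
  X ^ n + ∑ i : Fin n, C (a i) * X ^ (i : ℕ)

theorem mkPoly_monic (n : ℕ) (a : Fin n → F) : (mkPoly n a).Monic :=
  Polynomial.monic_X_pow_add (Polynomial.degree_sum_fin_lt a)

theorem mkPoly_natDegree (n : ℕ) (a : Fin n → F) : (mkPoly n a).natDegree = n := by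
  unfold mkPoly
  rw [Polynomial.natDegree_add_eq_left_of_degree_lt, Polynomial.natDegree_X_pow]
  rw [Polynomial.degree_X_pow]
  exact Polynomial.degree_sum_fin_lt a

theorem mkPoly_coeff (n : ℕ) (a : Fin n → F) (j : Fin n) : (mkPoly n a).coeff j = a j := by
  classical
  unfold mkPoly
  rw [Polynomial.coeff_add, Polynomial.coeff_X_pow, if_neg (by have := j.2; omega), zero_add,
    Polynomial.finsetSum_coeff]
  rw [Finset.sum_eq_single j]
  · rw [Polynomial.coeff_C_mul_X_pow, if_pos rfl]
  · intro b _ hb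
    rw [Polynomial.coeff_C_mul_X_pow, if_neg]
    intro h
    exact hb (Fin.ext h.symm)
  · intro h
    exact absurd (Finset.mem_univ j) h

theorem mkPoly_injective (n : ℕ) : Function.Injective (mkPoly (F := F) n) := by
  intro a b h
  funext j
  rw [← mkPoly_coeff n a j, ← mkPoly_coeff n b j, h]

/-- a matrix with given monic characteristic polynomial -/
noncomputable def compMat (n : ℕ) (f : F[X]) (hd : f.natDegree = n) (hf : f ≠ 0) :
    Matrix (Fin n) (Fin n) F :=
  Matrix.reindex (finCongr (show (AdjoinRoot.powerBasis hf).dim = n from hd))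
    (finCongr (show (AdjoinRoot.powerBasis hf).dim = n from hd))
    (Algebra.leftMulMatrix (AdjoinRoot.powerBasis hf).basis (AdjoinRoot.powerBasis hf).gen)

theorem compMat_charpoly (n : ℕ) (f : F[X]) (hd : f.natDegree = n) (hm : f.Monic) :
    (compMat n f hd hm.ne_zero).charpoly = f := by
  unfold compMat
  rw [Matrix.charpoly_reindex, charpoly_leftMulMatrix,
    AdjoinRoot.minpoly_powerBasis_gen_of_monic hm]

theorem compMat_det_ne_zero (n : ℕ) (f : F[X]) (hd : f.natDegree = n) (hm : f.Monic)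
    (h0 : f.coeff 0 ≠ 0) : (compMat n f hd hm.ne_zero).det ≠ 0 := by
  rw [Matrix.det_eq_sign_charpoly_coeff, compMat_charpoly n f hd hm]
  exact mul_ne_zero (pow_ne_zero _ (by norm_num)) h0

theorem charpoly_eq_of_isConj {n : ℕ} (g g' : Matrix.GeneralLinearGroup (Fin n) F)
    (h : IsConj g g') : g.1.charpoly = g'.1.charpoly := by
  obtain ⟨c, hc⟩ := isConj_iff.mp h
  rw [← hc]
  have : (c * g * c⁻¹ : Matrix.GeneralLinearGroup (Fin n) F).1 = c.1 * g.1 * (c⁻¹).1 := rfl
  rw [this, Matrix.coe_units_inv, Matrix.charpoly_units_conj]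

theorem lower_bound [Fintype F] (m : ℕ) :
    Fintype.card F ^ (m + 1) - Fintype.card F ^ m ≤
      Nat.card (ConjClasses (Matrix.GeneralLinearGroup (Fin (m + 1)) F)) := by
  classical
  have hcard : Fintype.card F ^ (m + 1) - Fintype.card F ^ m =
      Nat.card (Fˣ × (Fin m → F)) := by
    rw [Nat.card_eq_fintype_card, Fintype.card_prod, Fintype.card_units, Fintype.card_fun,
      Fintype.card_fin, Nat.sub_mul, one_mul, pow_succ']
  rw [hcard]
  have hf0 : ∀ x : Fˣ × (Fin m → F),
      (mkPoly (m + 1) (Fin.cons (x.1 : F) x.2 : Fin (m + 1) → F)).coeff 0 ≠ 0 := by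
    intro x
    have := mkPoly_coeff (m + 1) (Fin.cons (x.1 : F) x.2 : Fin (m + 1) → F) 0
    rw [Fin.val_zero, Fin.cons_zero] at this
    rw [this]
    exact x.1.ne_zero
  let ψ : Fˣ × (Fin m → F) → ConjClasses (Matrix.GeneralLinearGroup (Fin (m + 1)) F) :=
    fun x => ConjClasses.mk (Matrix.GeneralLinearGroup.mkOfDetNeZero _
      (compMat_det_ne_zero (m + 1) (mkPoly (m + 1) (Fin.cons (x.1 : F) x.2))
        (mkPoly_natDegree _ _) (mkPoly_monic _ _) (hf0 x)))
  apply Nat.card_le_card_of_injective ψ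
  intro x y hxy
  have h1 := charpoly_eq_of_isConj _ _ (ConjClasses.mk_eq_mk_iff_isConj.mp hxy)
  have h2 : ∀ (A : Matrix (Fin (m+1)) (Fin (m+1)) F) (hA : A.det ≠ 0),
      (Matrix.GeneralLinearGroup.mkOfDetNeZero A hA).1 = A := fun _ _ => rfl
  rw [h2, h2, compMat_charpoly _ _ _ (mkPoly_monic _ _),
    compMat_charpoly _ _ _ (mkPoly_monic _ _)] at h1
  have h3 := mkPoly_injective _ h1
  have h4 := Fin.cons_injective2 h3
  exact Prod.ext (Units.ext h4.1) h4.2

end Cfsg.Agent.Lib.Helper95.KGLC
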