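import Mathlib
import Cfsg.Agent.Lib.Helper44.PGStmt

set_option autoImplicit false

/-!
helper95: piece GNEC1 of S2474 (interface `Cfsg.Agent.Lib.Helper44.PGStmt.GNecI`): necessity of
`CritI` at the level of Gram matrices, from the toolkit pieces.
-/

namespace Cfsg.Agent.Lib.Helper95.PGGNEC1

open Matrix Polynomial
open Cfsg.Agent.Lib.Helper44.PGStmt
open Cfsg.Agent.Lib.Helper44

universe u

section Aux

variable {F : Type u} [Field F] {κ : Type} [Fintype κ] [DecidableEq κ]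

theorem iso_mul (G A B : Matrix κ κ F) (hA : Aᵀ * G * A = G) (hB : Bᵀ * G * B = G) :
    (A * B)ᵀ * G * (A * B) = G := by
  rw [Matrix.transpose_mul]
  calc Bᵀ * Aᵀ * G * (A * B) = Bᵀ * (Aᵀ * G * A) * B := by simp only [Matrix.mul_assoc]
    _ = G := by rw [hA, hB]

theorem iso_pow (G A : Matrix κ κ F) (hA : Aᵀ * G * A = G) (n : ℕ) :
    (A ^ n)ᵀ * G * (A ^ n) = G := by
  induction n with
  | zero => simp
  | succ n ih => rw [pow_succ]; exact iso_mul G _ _ ih hA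

theorem pow_fix (A : Matrix κ κ F) (v : κ → F) (hv : A *ᵥ v = v) (i : ℕ) :
    (A ^ i) *ᵥ v = v := by
  induction i with
  | zero => simp
  | succ i ih => rw [pow_succ, ← Matrix.mulVec_mulVec, hv, ih]

theorem fix_of_pow_fix (A : Matrix κ κ F) (n m : ℕ) (hn : 1 < n) (hA : A ^ n = 1)
    (hcop : Nat.Coprime m n) (v : κ → F) (hv : (A ^ m) *ᵥ v = v) : A *ᵥ v = v := by
  obtain ⟨a, -, ha⟩ := Nat.exists_mul_mod_eq_one_of_coprime hcop hn
  have h1 : A ^ (m * a) = A := by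
    conv_lhs => rw [← Nat.div_add_mod (m * a) n, ha]
    rw [pow_add, pow_mul, hA, one_pow, one_mul, pow_one]
  have h2 := pow_fix (A ^ m) v hv a
  rw [← pow_mul, h1] at h2
  exact h2

theorem eq_one_of_mulVec (A : Matrix κ κ F) (h : ∀ v, A *ᵥ v = v) : A = 1 := by
  apply Matrix.toLin'.injective
  apply LinearMap.ext
  intro v
  rw [Matrix.toLin'_apply, Matrix.toLin'_one, LinearMap.id_apply]
  exact h v

end Aux

theorem k2_pos {F : Type u} [Field F] {ι : Type} [Fintype ι] [DecidableEq ι] (k₁ k₂ : ℕ)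
    (J : (Fin k₁ ⊕ Fin k₂ → F) ≃ₗ[F] (ι → F)) (T : Matrix ι ι F)
    (T₂ : Matrix (Fin k₂) (Fin k₂) F)
    (hblk : ∀ u : Fin k₁ ⊕ Fin k₂ → F,
      T *ᵥ (J u) = J (Sum.elim (u ∘ Sum.inl) (T₂ *ᵥ (u ∘ Sum.inr))))
    (hT : T ≠ 1) : 0 < k₂ := by
  by_contra hk
  apply hT
  apply eq_one_of_mulVec
  intro v
  have hv : v = J (J.symm v) := (J.apply_symm_apply v).symm
  rw [hv, hblk]
  congr 1
  funext i
  cases i with
  | inl i => rfl
  | inr i => exact absurd i.isLt (by omega)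

theorem dim_eq {F : Type u} [Field F] {ι : Type} [Fintype ι] [DecidableEq ι] (k₁ k₂ : ℕ)
    (J : (Fin k₁ ⊕ Fin k₂ → F) ≃ₗ[F] (ι → F)) : k₁ + k₂ = Fintype.card ι := by
  have h := J.finrank_eq
  rw [Module.finrank_fintype_fun_eq_card, Module.finrank_fintype_fun_eq_card, Fintype.card_sum,
    Fintype.card_fin, Fintype.card_fin] at h
  exact h

theorem main (hGD : GDecomp.{u}) (hBD : BCStmt.BlockDiag.{u}) (hBF : BCStmt.BlockFacts.{u})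
    (hGBF : GBlockFacts.{u}) (hPT : PrimeTor.{u}) (hTB : GTorBound.{u}) : GNecI.{u} := by
  intro F _ _ p _ _ ι _ _ G x r s _ hG hx hr hs hrs hr2 hs2 hrp hsp hord
  have hr3 : 2 < r := by have := hr.two_le; omega
  have hs3 : 2 < s := by have := hs.two_le; omega
  have hrF : (r : F) ≠ 0 := by
    intro h
    rw [CharP.cast_eq_zero_iff F p] at h
    exact hrp ((Nat.prime_dvd_prime_iff_eq Fact.out hr).mp h).symm
  have hsF : (s : F) ≠ 0 := by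
    intro h
    rw [CharP.cast_eq_zero_iff F p] at h
    exact hsp ((Nat.prime_dvd_prime_iff_eq Fact.out hs).mp h).symm
  have hcop : Nat.Coprime r s := (Nat.coprime_primes hr hs).mpr hrs
  -- the two powers
  obtain ⟨T, hTdef⟩ : ∃ T : Matrix ι ι F, T = x ^ s := ⟨_, rfl⟩
  obtain ⟨Y, hYdef⟩ : ∃ Y : Matrix ι ι F, Y = x ^ r := ⟨_, rfl⟩
  have hTiso : Tᵀ * G * T = G := by rw [hTdef]; exact iso_pow G x hx s
  have hYiso : Yᵀ * G * Y = G := by rw [hYdef]; exact iso_pow G x hx r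
  have hTpow : ∀ j : ℕ, T ^ j = 1 ↔ r ∣ j := by
    intro j
    rw [hTdef, ← pow_mul, hord]
    constructor
    · intro h
      have h1 : s * r ∣ s * j := by rwa [mul_comm s r]
      exact (Nat.mul_dvd_mul_iff_left hs.pos).mp h1
    · intro h
      rw [mul_comm r s]
      exact Nat.mul_dvd_mul_left s h
  have hYpow : ∀ j : ℕ, Y ^ j = 1 ↔ s ∣ j := by
    intro j
    rw [hYdef, ← pow_mul, hord]
    exact Nat.mul_dvd_mul_iff_left hr.pos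
  have hYT : Y * T = T * Y := by
    rw [hTdef, hYdef]
    exact ((Commute.refl x).pow_pow r s).eq
  have hT1 : T ≠ 1 := by
    intro h
    have h1 := (hTpow 1).mp (by rw [pow_one]; exact h)
    exact hr.one_lt.ne' (Nat.dvd_one.mp h1)
  have hY1 : Y ≠ 1 := by
    intro h
    have h1 := (hYpow 1).mp (by rw [pow_one]; exact h)
    exact hs.one_lt.ne' (Nat.dvd_one.mp h1)
  have hTr : T ^ r = 1 := (hTpow r).mpr dvd_rfl
  have hYs : Y ^ s = 1 := (hYpow s).mpr dvd_rfl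
  -- first decomposition: along T
  obtain ⟨k₁, k₂, G₁, G₂, T₂, J, hG₁, hG₂, hT₂iso, hT₂r, hT₂fix, hGram, hTblk, -, -⟩ :=
    hGD F ι G T r hG hTiso hr.pos hrF hTr
  obtain ⟨Y₁, Y₂, hYblk, hY₂T₂⟩ := hBD F ι T Y k₁ k₂ T₂ J hT₂fix hTblk hYT
  obtain ⟨hY₁iso, hY₂iso⟩ := hGBF F ι k₁ k₂ J G Y G₁ Y₁ G₂ Y₂ hGram hYblk hYiso
  obtain ⟨hYpowblk, -, -⟩ := hBF F ι k₁ k₂ J Y Y₁ Y₂ hYblk
  have hdim : k₁ + k₂ = Fintype.card ι := dim_eq k₁ k₂ J
  have hk₂ : 0 < k₂ := k2_pos k₁ k₂ J T T₂ hTblk hT1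
  have hY₁s : Y₁ ^ s = 1 := ((hYpowblk s).mp hYs).1
  have hY₂s : Y₂ ^ s = 1 := ((hYpowblk s).mp hYs).2
  -- second decomposition: along Y
  obtain ⟨k₁', k₂', G₁', G₂', Y₂', J', hG₁', hG₂', hY₂'iso, hY₂'s, hY₂'fix, hGram', hYblk', -, -⟩ :=
    hGD F ι G Y s hG hYiso hs.pos hsF hYs
  obtain ⟨T₁', T₂', hTblk', -⟩ := hBD F ι Y T k₁' k₂' Y₂' J' hY₂'fix hYblk' hYT.symm
  obtain ⟨hT₁'iso, -⟩ := hGBF F ι k₁' k₂' J' G T G₁' T₁' G₂' T₂' hGram' hTblk' hTiso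
  obtain ⟨hTpowblk', -, -⟩ := hBF F ι k₁' k₂' J' T T₁' T₂' hTblk'
  have hdim' : k₁' + k₂' = Fintype.card ι := dim_eq k₁' k₂' J'
  have hk₂' : 0 < k₂' := k2_pos k₁' k₂' J' Y Y₂' hYblk' hY1
  have hT₁'r : T₁' ^ r = 1 := ((hTpowblk' r).mp hTr).1
  -- fixed-vector conditions for prime order
  have fixT : ∀ ℓ : ℕ, ℓ.Prime → ℓ ∣ r → ∀ v : Fin k₂ → F, (T₂ ^ (r / ℓ)) *ᵥ v = v → v = 0 := by
    intro ℓ hℓ hℓr v hv
    have h1 : ℓ = r := (Nat.prime_dvd_prime_iff_eq hℓ hr).mp hℓr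
    rw [h1, Nat.div_self hr.pos, pow_one] at hv
    exact hT₂fix v hv
  have fixY : ∀ ℓ : ℕ, ℓ.Prime → ℓ ∣ s → ∀ v : Fin k₂' → F, (Y₂' ^ (s / ℓ)) *ᵥ v = v → v = 0 := by
    intro ℓ hℓ hℓs v hv
    have h1 : ℓ = s := (Nat.prime_dvd_prime_iff_eq hℓ hs).mp hℓs
    rw [h1, Nat.div_self hs.pos, pow_one] at hv
    exact hY₂'fix v hv
  by_cases hY₁ : Y₁ = 1
  swap
  · -- Y₁ ≠ 1
    obtain ⟨ka, hka1, hka2, hkaT⟩ := hPT F p (Fin k₁) G₁ Y₁ s hG₁ hY₁iso hs hs2 hsp hY₁s hY₁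
    obtain ⟨kb, hkb1, hkb2, hkbT⟩ := hTB F (Fin k₂) G₂ T₂ r (by rw [Fintype.card_fin]; exact hk₂)
      hG₂ hT₂iso hr3 hT₂r fixT
    rw [Fintype.card_fin] at hka2 hkb2
    left
    exact ⟨kb, ka, hkb1, hka1, by omega, hkbT, hkaT⟩
  by_cases hT₁' : T₁' = 1
  swap
  · -- T₁' ≠ 1
    obtain ⟨ka, hka1, hka2, hkaT⟩ := hPT F p (Fin k₁') G₁' T₁' r hG₁' hT₁'iso hr hr2 hrp hT₁'r hT₁'
    obtain ⟨kb, hkb1, hkb2, hkbT⟩ := hTB F (Fin k₂') G₂' Y₂' s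
      (by rw [Fintype.card_fin]; exact hk₂') hG₂' hY₂'iso hs3 hY₂'s fixY
    rw [Fintype.card_fin] at hka2 hkb2
    left
    exact ⟨ka, kb, hka1, hkb1, by omega, hkaT, hkbT⟩
  -- the remaining case: one torus for r * s
  have hY₂fix : ∀ w : Fin k₂ → F, Y₂ *ᵥ w = w → w = 0 := by
    intro w hw
    have hYv : Y *ᵥ (J (Sum.elim 0 w)) = J (Sum.elim 0 w) := by
      rw [hYblk, Sum.elim_comp_inl, Sum.elim_comp_inr, Matrix.mulVec_zero, hw]
    have hv' : J (Sum.elim 0 w) = J' (J'.symm (J (Sum.elim 0 w))) :=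
      (J'.apply_symm_apply _).symm
    obtain ⟨u', hu'⟩ : ∃ u' : Fin k₁' ⊕ Fin k₂' → F, u' = J'.symm (J (Sum.elim 0 w)) := ⟨_, rfl⟩
    rw [← hu'] at hv'
    have h1 : Y *ᵥ (J' u') = J' u' := by rw [← hv']; exact hYv
    rw [hYblk'] at h1
    have h2 := J'.injective h1
    have h3 : Y₂' *ᵥ (u' ∘ Sum.inr) = u' ∘ Sum.inr := by
      have h := congrArg (fun f => f ∘ Sum.inr) h2
      simpa using h
    have h4 : u' ∘ Sum.inr = 0 := hY₂'fix _ h3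
    have hTv : T *ᵥ (J' u') = J' u' := by
      rw [hTblk', hT₁', Matrix.one_mulVec, h4, Matrix.mulVec_zero]
      congr 1
      funext i
      cases i with
      | inl i => rfl
      | inr i => exact (congrFun h4 i).symm
    rw [← hv', hTblk, Sum.elim_comp_inl, Sum.elim_comp_inr] at hTv
    have h5 := J.injective hTv
    have h6 : T₂ *ᵥ w = w := by
      have h := congrArg (fun f => f ∘ Sum.inr) h5
      simpa using h
    exact hT₂fix w h6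
  have hcomm : Commute T₂ Y₂ := hY₂T₂.symm
  have hZiso : (T₂ * Y₂)ᵀ * G₂ * (T₂ * Y₂) = G₂ := iso_mul G₂ T₂ Y₂ hT₂iso hY₂iso
  have hZpow : (T₂ * Y₂) ^ (r * s) = 1 := by
    rw [hcomm.mul_pow, pow_mul, hT₂r, one_pow, one_mul, mul_comm r s, pow_mul, hY₂s, one_pow]
  have fixZ : ∀ ℓ : ℕ, ℓ.Prime → ℓ ∣ r * s → ∀ v : Fin k₂ → F,
      ((T₂ * Y₂) ^ (r * s / ℓ)) *ᵥ v = v → v = 0 := by
    intro ℓ hℓ hℓrs v hv
    rcases (Nat.Prime.dvd_mul hℓ).mp hℓrs with h | h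
    · have h1 : ℓ = r := (Nat.prime_dvd_prime_iff_eq hℓ hr).mp h
      rw [h1, Nat.mul_div_cancel_left s hr.pos, hcomm.mul_pow, hY₂s, Matrix.mul_one] at hv
      exact hT₂fix v (fix_of_pow_fix T₂ r s hr.one_lt hT₂r hcop.symm v hv)
    · have h1 : ℓ = s := (Nat.prime_dvd_prime_iff_eq hℓ hs).mp h
      rw [h1, Nat.mul_div_cancel r hs.pos, hcomm.mul_pow, hT₂r, Matrix.one_mul] at hv
      exact hY₂fix v (fix_of_pow_fix Y₂ s r hs.one_lt hY₂s hcop v hv)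
  have hrs2 : 2 < r * s := lt_of_lt_of_le hr3 (Nat.le_mul_of_pos_right r hs.pos)
  obtain ⟨k, hk1, hk2, hkT⟩ := hTB F (Fin k₂) G₂ (T₂ * Y₂) (r * s)
    (by rw [Fintype.card_fin]; exact hk₂) hG₂ hZiso hrs2 hZpow fixZ
  rw [Fintype.card_fin] at hk2
  right
  exact ⟨k, hk1, by omega, hkT⟩

end Cfsg.Agent.Lib.Helper95.PGGNEC1
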