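import Mathlib
import Cfsg.Agent.Lib.Helper95.HallA

set_option autoImplicit false

namespace Cfsg.Agent.Lib.Helper95.SemiA

open Classical Polynomial
open Cfsg.Agent.Lib.Helper95.HallA

noncomputable section

variable {F V : Type*} [Field F] [AddCommGroup V] [Module F V]

theorem aeval_apply_comm (φ : V →ₗ[F] V) (p : F[X]) (v : V) :
    aeval φ p (φ v) = φ (aeval φ p v) := by
  have h1 : aeval φ (p * X) = aeval φ (X * p) := by rw [mul_comm]
  rw [map_mul, map_mul, aeval_X] at h1
  have h2 := congrArg (fun g : Module.End F V => g v) h1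
  exact h2

theorem aeval_mul_apply (φ : V →ₗ[F] V) (p q : F[X]) (v : V) :
    aeval φ (p * q) v = aeval φ p (aeval φ q v) := by
  rw [map_mul]
  rfl

/-- Invariant subspaces are stable under polynomials in `φ`. -/
theorem inv_aeval (φ : V →ₗ[F] V) {X : Submodule F V} (hX : Inv φ X) (p : F[X]) :
    ∀ v ∈ X, aeval φ p v ∈ X := by
  induction p using Polynomial.induction_on' with
  | add p q hp hq =>
    intro v hv
    rw [map_add]
    exact Submodule.add_mem _ (hp v hv) (hq v hv)
  | monomial n a =>
    intro v hv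
    rw [aeval_monomial]
    have h1 : ∀ k : ℕ, (φ ^ k) v ∈ X := by
      intro k
      induction k with
      | zero => simpa using hv
      | succ k ih =>
        rw [pow_succ']
        exact hX _ ih
    have h2 : ((algebraMap F (Module.End F V)) a * φ ^ n) v = a • (φ ^ n) v := by
      rw [Module.End.mul_apply, Module.algebraMap_end_apply]
    rw [h2]
    exact Submodule.smul_mem _ _ (h1 n)

theorem inv_ker (φ : V →ₗ[F] V) (p : F[X]) : Inv φ (LinearMap.ker (aeval φ p)) := by
  intro v hv
  rw [LinearMap.mem_ker] at hv ⊢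
  rw [aeval_apply_comm, hv, map_zero]

/-- The linear map `p ↦ p(φ) v`. -/
def Lv (φ : V →ₗ[F] V) (v : V) : F[X] →ₗ[F] V :=
  (LinearMap.applyₗ v).comp (aeval φ).toLinearMap

theorem Lv_apply (φ : V →ₗ[F] V) (v : V) (p : F[X]) : Lv φ v p = aeval φ p v := rfl

/-- The cyclic submodule generated by `v`. -/
def cyc (φ : V →ₗ[F] V) (v : V) : Submodule F V := LinearMap.range (Lv φ v)

theorem mem_cyc (φ : V →ₗ[F] V) (v w : V) : w ∈ cyc φ v ↔ ∃ p : F[X], aeval φ p v = w := by
  unfold cyc
  rw [LinearMap.mem_range]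
  rfl

theorem self_mem_cyc (φ : V →ₗ[F] V) (v : V) : v ∈ cyc φ v := by
  rw [mem_cyc]
  exact ⟨1, by simp⟩

theorem inv_cyc (φ : V →ₗ[F] V) (v : V) : Inv φ (cyc φ v) := by
  intro w hw
  rw [mem_cyc] at hw ⊢
  obtain ⟨p, rfl⟩ := hw
  refine ⟨X * p, ?_⟩
  rw [aeval_mul_apply, aeval_X]

theorem cyc_le (φ : V →ₗ[F] V) (v : V) {W : Submodule F V} (hW : Inv φ W) (hv : v ∈ W) :
    cyc φ v ≤ W := by
  intro w hw
  rw [mem_cyc] at hw
  obtain ⟨p, rfl⟩ := hw
  exact inv_aeval φ hW p v hv

theorem finrank_cyc (φ : V →ₗ[F] V) (v : V) (f : F[X]) (hf : Irreducible f)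
    (hfv : aeval φ f v = 0) (hv : v ≠ 0) : Module.finrank F (cyc φ v) = f.natDegree := by
  -- the annihilator ideal
  let I : Ideal F[X] :=
    { carrier := {p | aeval φ p v = 0}
      add_mem' := by
        intro a b ha hb
        change aeval φ (a + b) v = 0
        rw [map_add, LinearMap.add_apply, ha, hb, add_zero]
      zero_mem' := by
        change aeval φ 0 v = 0
        simp
      smul_mem' := by
        intro c p hp
        change aeval φ (c • p) v = 0
        rw [smul_eq_mul, aeval_mul_apply, hp, map_zero] }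
  have hI : I = Ideal.span {f} := by
    symm
    apply Ideal.IsMaximal.eq_of_le (PrincipalIdealRing.isMaximal_of_irreducible hf)
    · intro htop
      have h1 : (1 : F[X]) ∈ I := by rw [htop]; exact Submodule.mem_top
      have h2 : aeval φ (1 : F[X]) v = 0 := h1
      rw [map_one] at h2
      exact hv h2
    · rw [Ideal.span_le, Set.singleton_subset_iff]
      exact hfv
  have hker : LinearMap.ker (Lv φ v) = (Ideal.span {f}).restrictScalars F := by
    rw [← hI]
    ext p
    rfl
  have e1 := LinearMap.quotKerEquivRange (Lv φ v)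
  rw [hker] at e1
  have e2 := Submodule.Quotient.restrictScalarsEquiv F (Ideal.span {f} : Ideal F[X])
  have h3 : Module.finrank F (F[X] ⧸ Ideal.span {f}) = f.natDegree := by
    have h := (AdjoinRoot.powerBasis hf.ne_zero).finrank
    rw [AdjoinRoot.powerBasis_dim] at h
    exact h
  rw [← h3, ← e2.finrank_eq]
  exact e1.finrank_eq.symm

end

end Cfsg.Agent.Lib.Helper95.SemiA
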