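import Mathlib
import Cfsg.Agent.Lib.Helper95.SemiA

set_option autoImplicit false

namespace Cfsg.Agent.Lib.Helper95.SemiB

open Classical Polynomial
open Cfsg.Agent.Lib.Helper95.HallA Cfsg.Agent.Lib.Helper95.SemiA

noncomputable section

variable {F V : Type*} [Field F] [AddCommGroup V] [Module F V] [Finite V]

theorem aeval_eq_zero_of_mem_cyc (φ : V →ₗ[F] V) (f : F[X]) (v w : V) (hfv : aeval φ f v = 0)
    (hw : w ∈ cyc φ v) : aeval φ f w = 0 := by
  rw [mem_cyc] at hw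
  obtain ⟨p, rfl⟩ := hw
  rw [← aeval_mul_apply, mul_comm, aeval_mul_apply, hfv, map_zero]

theorem inf_cyc_eq_bot (φ : V →ₗ[F] V) (f : F[X]) (hf : Irreducible f) (Z : Submodule F V)
    (hZ : Inv φ Z) (v : V) (hfv : aeval φ f v = 0) (hv : v ∉ Z) : Z ⊓ cyc φ v = ⊥ := by
  by_contra hne
  obtain ⟨w, hw, hw0⟩ := Submodule.exists_mem_ne_zero_of_ne_bot hne
  have hv0 : v ≠ 0 := by rintro rfl; exact hv (Submodule.zero_mem _)
  have h1 : cyc φ w ≤ cyc φ v := cyc_le φ w (inv_cyc φ v) hw.2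
  have h2 : Module.finrank F (cyc φ w) = Module.finrank F (cyc φ v) := by
    rw [finrank_cyc φ w f hf (aeval_eq_zero_of_mem_cyc φ f v w hfv hw.2) hw0,
      finrank_cyc φ v f hf hfv hv0]
  have h3 := Submodule.eq_of_le_of_finrank_eq h1 h2
  have h4 : cyc φ w ≤ Z := cyc_le φ w hZ hw.1
  apply hv
  apply h4
  rw [h3]
  exact self_mem_cyc φ v

theorem exists_max (φ : V →ₗ[F] V) (Y : Submodule F V) (hne : Y ≠ ⊥) :
    ∃ H : Submodule F V, Inv φ H ∧ H < Y ∧
      ∀ H' : Submodule F V, Inv φ H' → H ≤ H' → H' < Y → H' = H := by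
  have hne' : (fs (fun H : Submodule F V => Inv φ H ∧ H < Y)).Nonempty :=
    ⟨⊥, by rw [mem_fs]; exact ⟨inv_bot φ, bot_lt_iff_ne_bot.mpr hne⟩⟩
  obtain ⟨H, hH⟩ := Finset.exists_maximal hne'
  have hH1 := hH.prop
  rw [mem_fs] at hH1
  refine ⟨H, hH1.1, hH1.2, fun H' hH' hle hlt => ?_⟩
  have : H' ∈ fs (fun H : Submodule F V => Inv φ H ∧ H < Y) := by rw [mem_fs]; exact ⟨hH', hlt⟩
  exact le_antisymm (hH.le_of_ge this hle) hle

/-- The hypotheses on a maximal invariant subspace `H` of a `f`-isotypic invariant `Y`. -/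
structure MaxIn (φ : V →ₗ[F] V) (f : F[X]) (Y H : Submodule F V) : Prop where
  irr : Irreducible f
  invY : Inv φ Y
  ann : ∀ v ∈ Y, aeval φ f v = 0
  invH : Inv φ H
  lt : H < Y
  max : ∀ H' : Submodule F V, Inv φ H' → H ≤ H' → H' < Y → H' = H

theorem max_struct {φ : V →ₗ[F] V} {f : F[X]} {Y H : Submodule F V} (hm : MaxIn φ f Y H)
    (v : V) (hvY : v ∈ Y) (hvH : v ∉ H) : H ⊔ cyc φ v = Y ∧ H ⊓ cyc φ v = ⊥ := by
  refine ⟨?_, inf_cyc_eq_bot φ f hm.irr H hm.invH v (hm.ann v hvY) hvH⟩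
  by_contra hne
  have hle : H ⊔ cyc φ v ≤ Y := sup_le hm.lt.le (cyc_le φ v hm.invY hvY)
  have h1 := hm.max (H ⊔ cyc φ v) (inv_sup φ hm.invH (inv_cyc φ v)) le_sup_left
    (lt_of_le_of_ne hle hne)
  apply hvH
  rw [← h1]
  exact Submodule.mem_sup_right (self_mem_cyc φ v)

theorem sub_struct {φ : V →ₗ[F] V} {f : F[X]} {Y H : Submodule F V} (hm : MaxIn φ f Y H)
    (Y' : Submodule F V) (hY' : Inv φ Y') (hle : Y' ≤ Y) (v : V) (hv : v ∈ Y') (hvH : v ∉ H) :
    (Y' ⊓ H) ⊔ cyc φ v = Y' ∧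
      Module.finrank F Y' = Module.finrank F (Y' ⊓ H : Submodule F V) + f.natDegree := by
  obtain ⟨h1, h2⟩ := max_struct hm v (hle hv) hvH
  have hc : cyc φ v ≤ Y' := cyc_le φ v hY' hv
  have h3 : (Y' ⊓ H) ⊔ cyc φ v = Y' := by
    rw [inf_sup_assoc_of_le H hc, h1]
    exact inf_eq_left.mpr hle
  refine ⟨h3, ?_⟩
  have h4 := Submodule.finrank_sup_add_finrank_inf_eq (Y' ⊓ H) (cyc φ v)
  have h5 : (Y' ⊓ H) ⊓ cyc φ v = ⊥ := by
    rw [eq_bot_iff, ← h2]
    exact inf_le_inf_right _ inf_le_right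
  rw [h3, h5, finrank_bot, add_zero, finrank_cyc φ v f hm.irr (hm.ann v (hle hv))
    (by rintro rfl; exact hvH (Submodule.zero_mem _))] at h4
  exact h4

theorem dvd_finrank (φ : V →ₗ[F] V) (f : F[X]) (hf : Irreducible f) :
    ∀ Y : Submodule F V, Inv φ Y → (∀ v ∈ Y, aeval φ f v = 0) →
      f.natDegree ∣ Module.finrank F Y := by
  intro Y
  induction Y using (Finite.to_wellFoundedLT (α := Submodule F V)).induction with
  | _ Y ih =>
    intro hY hfY
    by_cases hne : Y = ⊥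
    · rw [hne, finrank_bot]; exact dvd_zero _
    · obtain ⟨H, hH, hlt, hmax⟩ := exists_max φ Y hne
      obtain ⟨v, hvY, hvH⟩ := SetLike.exists_of_lt hlt
      have hm : MaxIn φ f Y H := ⟨hf, hY, hfY, hH, hlt, hmax⟩
      have h1 := (sub_struct hm Y hY le_rfl v hvY hvH).2
      have h2 : Y ⊓ H = H := inf_eq_right.mpr hlt.le
      rw [h2] at h1
      rw [h1]
      exact Dvd.dvd.add (ih H hlt hH (fun v hv => hfY v (hlt.le hv))) (dvd_refl _)

variable [Finite F]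

theorem card_fs_mem (W : Submodule F V) :
    ((fs (fun v : V => v ∈ W)).card : ℤ) = (Nat.card F : ℤ) ^ Module.finrank F W := by
  have h1 : (fs (fun v : V => v ∈ W)).card = Nat.card W := by
    unfold fs
    rw [← Set.ncard_eq_toFinset_card, ← Nat.card_coe_set_eq]
    rfl
  rw [h1, Module.natCard_eq_pow_finrank (K := F) (V := W)]
  push_cast
  rfl

theorem card_diff (W W' : Submodule F V) (h : W' ≤ W) :
    ((fs (fun v : V => v ∈ W ∧ v ∉ W')).card : ℤ) =
      (Nat.card F : ℤ) ^ Module.finrank F W - (Nat.card F : ℤ) ^ Module.finrank F W' := by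
  have h1 : fs (fun v : V => v ∈ W ∧ v ∉ W') = fs (fun v : V => v ∈ W) \ fs (fun v : V => v ∈ W') := by
    ext v
    rw [Finset.mem_sdiff, mem_fs, mem_fs, mem_fs]
  have h2 : fs (fun v : V => v ∈ W') ⊆ fs (fun v : V => v ∈ W) := by
    intro v hv
    rw [mem_fs] at hv ⊢
    exact h hv
  rw [h1, Finset.card_sdiff_of_subset h2, Nat.cast_sub (Finset.card_le_card h2), card_fs_mem,
    card_fs_mem]

theorem card_fiber {φ : V →ₗ[F] V} {f : F[X]} {Y H : Submodule F V} (hm : MaxIn φ f Y H)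
    (Z : Submodule F V) (hZ : Inv φ Z) (hZH : Z ≤ H) :
    ((fs (fun Y' : Submodule F V => Inv φ Y' ∧ Y' ≤ Y ∧ ¬ Y' ≤ H ∧ Y' ⊓ H = Z)).card : ℤ) *
      (Nat.card F : ℤ) ^ Module.finrank F Z = (Nat.card F : ℤ) ^ Module.finrank F H := by
  set S := fs (fun Y' : Submodule F V => Inv φ Y' ∧ Y' ≤ Y ∧ ¬ Y' ≤ H ∧ Y' ⊓ H = Z) with hS
  set T := fs (fun v : V => v ∈ Y ∧ v ∉ H) with hT
  have hmaps : Set.MapsTo (fun v : V => Z ⊔ cyc φ v) (T : Set V) (S : Set (Submodule F V)) := by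
    intro v hv
    rw [Finset.mem_coe, hT, mem_fs] at hv
    rw [Finset.mem_coe, hS, mem_fs]
    obtain ⟨h1, h2⟩ := max_struct hm v hv.1 hv.2
    refine ⟨inv_sup φ hZ (inv_cyc φ v), sup_le (hZH.trans hm.lt.le) (cyc_le φ v hm.invY hv.1),
      fun hle => hv.2 (hle (Submodule.mem_sup_right (self_mem_cyc φ v))), ?_⟩
    change (Z ⊔ cyc φ v) ⊓ H = Z
    rw [sup_inf_assoc_of_le (cyc φ v) hZH, inf_comm, h2, sup_bot_eq]
  have h1 := Finset.card_eq_sum_card_fiberwise hmaps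
  have hd : 0 < f.natDegree := hm.irr.natDegree_pos
  have h2 : ∀ Y' ∈ S, (((T.filter (fun v : V => Z ⊔ cyc φ v = Y')).card : ℕ) : ℤ) =
      (Nat.card F : ℤ) ^ (Module.finrank F Z + f.natDegree) -
        (Nat.card F : ℤ) ^ Module.finrank F Z := by
    intro Y' hY'
    rw [hS, mem_fs] at hY'
    obtain ⟨hi, hle, hnle, hinf⟩ := hY'
    have hZY' : Z ≤ Y' := by rw [← hinf]; exact inf_le_left
    have h3 : T.filter (fun v : V => Z ⊔ cyc φ v = Y') = fs (fun v : V => v ∈ Y' ∧ v ∉ Z) := by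
      ext v
      rw [Finset.mem_filter, hT, mem_fs, mem_fs]
      constructor
      · rintro ⟨⟨hv1, hv2⟩, hv3⟩
        refine ⟨?_, fun hvZ => hv2 (hZH hvZ)⟩
        rw [← hv3]
        exact Submodule.mem_sup_right (self_mem_cyc φ v)
      · rintro ⟨hv1, hv2⟩
        have hvH : v ∉ H := by
          intro hvH
          apply hv2
          rw [← hinf]
          exact ⟨hv1, hvH⟩
        refine ⟨⟨hle hv1, hvH⟩, ?_⟩
        have := (sub_struct hm Y' hi hle v hv1 hvH).1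
        rw [hinf] at this
        exact this
    obtain ⟨v, hv1, hv2⟩ := SetLike.not_le_iff_exists.mp hnle
    have h4 := (sub_struct hm Y' hi hle v hv1 hv2).2
    rw [hinf] at h4
    rw [h3, card_diff Y' Z hZY', h4]
  have h3 : (T.card : ℤ) = (Nat.card F : ℤ) ^ (Module.finrank F H + f.natDegree) -
      (Nat.card F : ℤ) ^ Module.finrank F H := by
    obtain ⟨v, hvY, hvH⟩ := SetLike.exists_of_lt hm.lt
    have h4 := (sub_struct hm Y hm.invY le_rfl v hvY hvH).2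
    have h5 : Y ⊓ H = H := inf_eq_right.mpr hm.lt.le
    rw [h5] at h4
    rw [hT, card_diff Y H hm.lt.le, h4]
  have h4 : (T.card : ℤ) = (S.card : ℤ) * ((Nat.card F : ℤ) ^ (Module.finrank F Z + f.natDegree) -
        (Nat.card F : ℤ) ^ Module.finrank F Z) := by
    rw [h1]
    push_cast
    rw [Finset.sum_congr rfl h2, Finset.sum_const, nsmul_eq_mul]
  rw [h3] at h4
  have hq : (1 : ℤ) < (Nat.card F : ℤ) := by
    exact_mod_cast Finite.one_lt_card (α := F)
  have hq1 : (1 : ℤ) < (Nat.card F : ℤ) ^ f.natDegree := one_lt_pow₀ hq hd.ne'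
  have h5 : ((S.card : ℤ) * (Nat.card F : ℤ) ^ Module.finrank F Z -
      (Nat.card F : ℤ) ^ Module.finrank F H) * ((Nat.card F : ℤ) ^ f.natDegree - 1) = 0 := by
    rw [pow_add, pow_add] at h4
    linear_combination -h4
  rcases mul_eq_zero.mp h5 with h6 | h6
  · linarith
  · linarith

/-- The Möbius value on an `f`-isotypic invariant subspace of dimension `k`. -/
def B (q d k : ℕ) : ℤ := (-1) ^ (k / d) * ((q : ℤ) ^ d) ^ ((k / d).choose 2)

theorem B_zero (q d : ℕ) : B q d 0 = 1 := by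
  unfold B
  simp

theorem B_add (q d k : ℕ) (hd : 0 < d) (hk : d ∣ k) :
    B q d (k + d) = - ((q : ℤ) ^ k * B q d k) := by
  obtain ⟨m, rfl⟩ := hk
  unfold B
  rw [Nat.add_div_right _ hd, Nat.mul_div_cancel_left m hd]
  have h1 : (m + 1).choose 2 = m + m.choose 2 := by
    rw [Nat.choose_succ_succ' m 1, Nat.choose_one_right]
  rw [h1, pow_add, pow_succ, ← pow_mul]
  ring

theorem iso_sum (φ : V →ₗ[F] V) (f : F[X]) (hf : Irreducible f) :
    ∀ Y : Submodule F V, Inv φ Y → (∀ v ∈ Y, aeval φ f v = 0) →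
      ∑ Y' ∈ fs (fun Y' : Submodule F V => Inv φ Y' ∧ Y' ≤ Y),
        B (Nat.card F) f.natDegree (Module.finrank F Y') = if Y = ⊥ then 1 else 0 := by
  intro Y
  induction Y using (Finite.to_wellFoundedLT (α := Submodule F V)).induction with
  | _ Y ih =>
    intro hY hfY
    by_cases hne : Y = ⊥
    · rw [if_pos hne]
      subst hne
      have : fs (fun Y' : Submodule F V => Inv φ Y' ∧ Y' ≤ ⊥) = {⊥} := by
        ext Z
        rw [mem_fs, Finset.mem_singleton, le_bot_iff]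
        constructor
        · exact fun h => h.2
        · rintro rfl
          exact ⟨inv_bot φ, rfl⟩
      rw [this, Finset.sum_singleton, finrank_bot, B_zero]
    · rw [if_neg hne]
      obtain ⟨H, hH, hlt, hmax⟩ := exists_max φ Y hne
      have hm : MaxIn φ f Y H := ⟨hf, hY, hfY, hH, hlt, hmax⟩
      have hd : 0 < f.natDegree := hf.natDegree_pos
      have hihH := ih H hlt hH (fun v hv => hfY v (hlt.le hv))
      rw [← Finset.sum_filter_add_sum_filter_not _ (fun Y' : Submodule F V => Y' ≤ H)]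
      have e1 : (fs (fun Y' : Submodule F V => Inv φ Y' ∧ Y' ≤ Y)).filter
          (fun Y' : Submodule F V => Y' ≤ H) = fs (fun Y' : Submodule F V => Inv φ Y' ∧ Y' ≤ H) := by
        ext Z
        rw [Finset.mem_filter, mem_fs, mem_fs]
        constructor
        · rintro ⟨⟨h1, -⟩, h2⟩
          exact ⟨h1, h2⟩
        · rintro ⟨h1, h2⟩
          exact ⟨⟨h1, h2.trans hlt.le⟩, h2⟩
      rw [e1, hihH]
      have hmaps : ∀ Y' ∈ (fs (fun Y' : Submodule F V => Inv φ Y' ∧ Y' ≤ Y)).filter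
          (fun Y' : Submodule F V => ¬ Y' ≤ H), (fun Y' : Submodule F V => Y' ⊓ H) Y' ∈
            fs (fun Y' : Submodule F V => Inv φ Y' ∧ Y' ≤ H) := by
        intro Y' hY'
        rw [Finset.mem_filter, mem_fs] at hY'
        rw [mem_fs]
        exact ⟨inv_inf φ hY'.1.1 hH, inf_le_right⟩
      rw [← Finset.sum_fiberwise_of_maps_to hmaps]
      have e2 : ∀ Z ∈ fs (fun Y' : Submodule F V => Inv φ Y' ∧ Y' ≤ H),
          ∑ Y' ∈ ((fs (fun Y' : Submodule F V => Inv φ Y' ∧ Y' ≤ Y)).filter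
            (fun Y' : Submodule F V => ¬ Y' ≤ H)).filter (fun Y' : Submodule F V => Y' ⊓ H = Z),
            B (Nat.card F) f.natDegree (Module.finrank F Y') =
          - ((Nat.card F : ℤ) ^ Module.finrank F H *
            B (Nat.card F) f.natDegree (Module.finrank F Z)) := by
        intro Z hZ
        rw [mem_fs] at hZ
        have e3 : ((fs (fun Y' : Submodule F V => Inv φ Y' ∧ Y' ≤ Y)).filter
            (fun Y' : Submodule F V => ¬ Y' ≤ H)).filter (fun Y' : Submodule F V => Y' ⊓ H = Z) =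
            fs (fun Y' : Submodule F V => Inv φ Y' ∧ Y' ≤ Y ∧ ¬ Y' ≤ H ∧ Y' ⊓ H = Z) := by
          ext Y'
          rw [Finset.mem_filter, Finset.mem_filter, mem_fs, mem_fs]
          tauto
        rw [e3]
        have e4 : ∀ Y' ∈ fs (fun Y' : Submodule F V => Inv φ Y' ∧ Y' ≤ Y ∧ ¬ Y' ≤ H ∧ Y' ⊓ H = Z),
            B (Nat.card F) f.natDegree (Module.finrank F Y') =
              B (Nat.card F) f.natDegree (Module.finrank F Z + f.natDegree) := by
          intro Y' hY'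
          rw [mem_fs] at hY'
          obtain ⟨hi, hle, hnle, hinf⟩ := hY'
          obtain ⟨v, hv1, hv2⟩ := SetLike.not_le_iff_exists.mp hnle
          have h4 := (sub_struct hm Y' hi hle v hv1 hv2).2
          rw [hinf] at h4
          rw [h4]
        rw [Finset.sum_congr rfl e4, Finset.sum_const, nsmul_eq_mul,
          B_add _ _ _ hd (dvd_finrank φ f hf Z hZ.1 (fun v hv => hfY v (hlt.le (hZ.2 hv))))]
        have := card_fiber hm Z hZ.1 hZ.2
        linear_combination (- B (Nat.card F) f.natDegree (Module.finrank F Z)) * this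
      rw [Finset.sum_congr rfl e2, Finset.sum_neg_distrib, ← Finset.mul_sum, hihH]
      by_cases hHb : H = ⊥
      · rw [if_pos hHb, hHb, finrank_bot]
        simp
      · rw [if_neg hHb]
        simp

theorem A_iso (φ : V →ₗ[F] V) (f : F[X]) (hf : Irreducible f) (Y : Submodule F V) (hY : Inv φ Y)
    (hfY : ∀ v ∈ Y, aeval φ f v = 0) :
    A φ Y = B (Nat.card F) f.natDegree (Module.finrank F Y) := by
  refine unique_of_sum φ (A φ) (fun Y' => B (Nat.card F) f.natDegree (Module.finrank F Y')) Y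
    (fun Y' hY' _ => A_sum φ Y' hY') (fun Y' hY' hle => ?_) Y hY le_rfl
  exact iso_sum φ f hf Y' hY' (fun v hv => hfY v (hle hv))

omit [Finite V] [Finite F] in
/-- Splitting an invariant subspace along coprime factors. -/
theorem split_sup (φ : V →ₗ[F] V) (p₁ p₂ : F[X]) (hcop : IsCoprime p₁ p₂) (Y : Submodule F V)
    (hY : Inv φ Y) (hann : ∀ v ∈ Y, aeval φ (p₁ * p₂) v = 0) :
    (Y ⊓ LinearMap.ker (aeval φ p₁)) ⊔ (Y ⊓ LinearMap.ker (aeval φ p₂)) = Y := by
  apply le_antisymm (sup_le inf_le_left inf_le_left)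
  intro v hv
  obtain ⟨a, b, hab⟩ := hcop
  have h1 : v = aeval φ (b * p₂) v + aeval φ (a * p₁) v := by
    rw [← LinearMap.add_apply, ← map_add, add_comm, hab, map_one]
    rfl
  rw [h1]
  apply Submodule.add_mem
  · apply Submodule.mem_sup_left
    refine ⟨inv_aeval φ hY _ v hv, ?_⟩
    change aeval φ (b * p₂) v ∈ LinearMap.ker (aeval φ p₁)
    rw [LinearMap.mem_ker, ← aeval_mul_apply]
    have : p₁ * (b * p₂) = b * (p₁ * p₂) := by ring
    rw [this, aeval_mul_apply, hann v hv, map_zero]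
  · apply Submodule.mem_sup_right
    refine ⟨inv_aeval φ hY _ v hv, ?_⟩
    change aeval φ (a * p₁) v ∈ LinearMap.ker (aeval φ p₂)
    rw [LinearMap.mem_ker, ← aeval_mul_apply]
    have : p₂ * (a * p₁) = a * (p₁ * p₂) := by ring
    rw [this, aeval_mul_apply, hann v hv, map_zero]

omit [Finite V] [Finite F] in
theorem sup_inf_ker_left (φ : V →ₗ[F] V) (p₁ p₂ : F[X]) (hcop : IsCoprime p₁ p₂)
    (Z₁ Z₂ : Submodule F V) (h1 : Z₁ ≤ LinearMap.ker (aeval φ p₁))
    (h2 : Z₂ ≤ LinearMap.ker (aeval φ p₂)) :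
    (Z₁ ⊔ Z₂) ⊓ LinearMap.ker (aeval φ p₁) = Z₁ := by
  rw [sup_inf_assoc_of_le Z₂ h1]
  have h3 : Z₂ ⊓ LinearMap.ker (aeval φ p₁) = ⊥ := by
    rw [eq_bot_iff]
    have := (disjoint_ker_aeval_of_isCoprime φ hcop).eq_bot
    rw [← this, inf_comm]
    exact inf_le_inf_left _ h2
  rw [h3, sup_bot_eq]

omit [Finite V] [Finite F] in
theorem sup_inf_ker_right (φ : V →ₗ[F] V) (p₁ p₂ : F[X]) (hcop : IsCoprime p₁ p₂)
    (Z₁ Z₂ : Submodule F V) (h1 : Z₁ ≤ LinearMap.ker (aeval φ p₁))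
    (h2 : Z₂ ≤ LinearMap.ker (aeval φ p₂)) :
    (Z₁ ⊔ Z₂) ⊓ LinearMap.ker (aeval φ p₂) = Z₂ := by
  rw [sup_comm]
  exact sup_inf_ker_left φ p₂ p₁ hcop.symm Z₂ Z₁ h2 h1

omit [Finite F] in
theorem sum_prod (φ : V →ₗ[F] V) (p₁ p₂ : F[X]) (hcop : IsCoprime p₁ p₂) (Y : Submodule F V)
    (_hY : Inv φ Y) (hann : ∀ v ∈ Y, aeval φ (p₁ * p₂) v = 0) (g₁ g₂ : Submodule F V → ℤ) :
    ∑ Y' ∈ fs (fun Y' : Submodule F V => Inv φ Y' ∧ Y' ≤ Y),
      g₁ (Y' ⊓ LinearMap.ker (aeval φ p₁)) * g₂ (Y' ⊓ LinearMap.ker (aeval φ p₂)) =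
    (∑ Z ∈ fs (fun Z : Submodule F V => Inv φ Z ∧ Z ≤ Y ⊓ LinearMap.ker (aeval φ p₁)), g₁ Z) *
      (∑ Z ∈ fs (fun Z : Submodule F V => Inv φ Z ∧ Z ≤ Y ⊓ LinearMap.ker (aeval φ p₂)), g₂ Z) := by
  rw [Finset.sum_mul_sum, ← Finset.sum_product']
  refine Finset.sum_bij' (fun Y' _ => (Y' ⊓ LinearMap.ker (aeval φ p₁),
    Y' ⊓ LinearMap.ker (aeval φ p₂))) (fun P _ => P.1 ⊔ P.2) ?_ ?_ ?_ ?_ ?_
  · intro Y' hY'
    rw [mem_fs] at hY'
    rw [Finset.mem_product, mem_fs, mem_fs]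
    exact ⟨⟨inv_inf φ hY'.1 (inv_ker φ p₁), inf_le_inf_right _ hY'.2⟩,
      ⟨inv_inf φ hY'.1 (inv_ker φ p₂), inf_le_inf_right _ hY'.2⟩⟩
  · intro P hP
    rw [Finset.mem_product, mem_fs, mem_fs] at hP
    rw [mem_fs]
    exact ⟨inv_sup φ hP.1.1 hP.2.1, sup_le (hP.1.2.trans inf_le_left) (hP.2.2.trans inf_le_left)⟩
  · intro Y' hY'
    rw [mem_fs] at hY'
    exact split_sup φ p₁ p₂ hcop Y' hY'.1 (fun v hv => hann v (hY'.2 hv))
  · intro P hP
    rw [Finset.mem_product, mem_fs, mem_fs] at hP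
    apply Prod.ext
    · exact sup_inf_ker_left φ p₁ p₂ hcop P.1 P.2 (hP.1.2.trans inf_le_right)
        (hP.2.2.trans inf_le_right)
    · exact sup_inf_ker_right φ p₁ p₂ hcop P.1 P.2 (hP.1.2.trans inf_le_right)
        (hP.2.2.trans inf_le_right)
  · intro Y' _
    rfl

omit [Finite F] in
/-- Multiplicativity of the Möbius value along coprime factors. -/
theorem A_prod (φ : V →ₗ[F] V) (p₁ p₂ : F[X]) (hcop : IsCoprime p₁ p₂) (Y : Submodule F V)
    (hY : Inv φ Y) (hann : ∀ v ∈ Y, aeval φ (p₁ * p₂) v = 0) :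
    A φ Y = A φ (Y ⊓ LinearMap.ker (aeval φ p₁)) * A φ (Y ⊓ LinearMap.ker (aeval φ p₂)) := by
  refine unique_of_sum φ (A φ) (fun Y' => A φ (Y' ⊓ LinearMap.ker (aeval φ p₁)) *
    A φ (Y' ⊓ LinearMap.ker (aeval φ p₂))) Y (fun Y' hY' _ => A_sum φ Y' hY')
    (fun Y' hY' hle => ?_) Y hY le_rfl
  have hann' : ∀ v ∈ Y', aeval φ (p₁ * p₂) v = 0 := fun v hv => hann v (hle hv)
  rw [sum_prod φ p₁ p₂ hcop Y' hY' hann' (A φ) (A φ),
    A_sum φ _ (inv_inf φ hY' (inv_ker φ p₁)), A_sum φ _ (inv_inf φ hY' (inv_ker φ p₂))]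
  by_cases h : Y' = ⊥
  · subst h
    simp
  · rw [if_neg h]
    by_cases h1 : Y' ⊓ LinearMap.ker (aeval φ p₁) = ⊥
    · by_cases h2 : Y' ⊓ LinearMap.ker (aeval φ p₂) = ⊥
      · exfalso
        apply h
        rw [← split_sup φ p₁ p₂ hcop Y' hY' hann', h1, h2, sup_bot_eq]
      · rw [if_neg h2, mul_zero]
    · rw [if_neg h1, zero_mul]

/-- The Möbius value for a semisimple endomorphism. -/
theorem A_semi (φ : V →ₗ[F] V) (𝔉 : Finset F[X]) :
    (∀ f ∈ 𝔉, Irreducible f) → (∀ f ∈ 𝔉, ∀ g ∈ 𝔉, f ≠ g → IsCoprime f g) →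
    ∀ Y : Submodule F V, Inv φ Y → (∀ v ∈ Y, aeval φ (∏ f ∈ 𝔉, f) v = 0) →
      A φ Y = ∏ f ∈ 𝔉, B (Nat.card F) f.natDegree
        (Module.finrank F (Y ⊓ LinearMap.ker (aeval φ f) : Submodule F V)) := by
  induction 𝔉 using Finset.induction_on with
  | empty =>
    intro _ _ Y _ hann
    have hY : Y = ⊥ := by
      rw [eq_bot_iff]
      intro v hv
      have := hann v hv
      rw [Finset.prod_empty, map_one] at this
      rw [Submodule.mem_bot]
      exact this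
    rw [hY, A_bot, Finset.prod_empty]
  | insert f₀ 𝔊 hf₀ ih =>
    intro hirr hcop Y hY hann
    rw [Finset.prod_insert hf₀] at hann
    have hc : IsCoprime f₀ (∏ f ∈ 𝔊, f) := by
      apply IsCoprime.prod_right
      intro g hg
      exact hcop f₀ (Finset.mem_insert_self _ _) g (Finset.mem_insert_of_mem hg)
        (by rintro rfl; exact hf₀ hg)
    rw [A_prod φ f₀ (∏ f ∈ 𝔊, f) hc Y hY hann, Finset.prod_insert hf₀]
    congr 1
    · exact A_iso φ f₀ (hirr f₀ (Finset.mem_insert_self _ _)) _ (inv_inf φ hY (inv_ker φ f₀))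
        (fun v hv => LinearMap.mem_ker.mp hv.2)
    · rw [ih (fun f hf => hirr f (Finset.mem_insert_of_mem hf))
        (fun f hf g hg => hcop f (Finset.mem_insert_of_mem hf) g (Finset.mem_insert_of_mem hg))
        _ (inv_inf φ hY (inv_ker φ _)) (fun v hv => LinearMap.mem_ker.mp hv.2)]
      refine Finset.prod_congr rfl fun f hf => ?_
      have hle : LinearMap.ker (aeval φ f) ≤ LinearMap.ker (aeval φ (∏ f ∈ 𝔊, f)) := by
        intro v hv
        rw [LinearMap.mem_ker] at hv ⊢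
        rw [← Finset.mul_prod_erase 𝔊 _ hf, mul_comm, aeval_mul_apply, hv, map_zero]
      have : Y ⊓ LinearMap.ker (aeval φ (∏ f ∈ 𝔊, f)) ⊓ LinearMap.ker (aeval φ f) =
          Y ⊓ LinearMap.ker (aeval φ f) := by
        rw [inf_assoc, inf_eq_right.mpr hle]
      rw [this]

end

end Cfsg.Agent.Lib.Helper95.SemiB
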