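import Mathlib
import Cfsg.Agent.Lib.Helper95.SemiB

set_option autoImplicit false

namespace Cfsg.Agent.Lib.Helper95.SemiC

open Polynomial
open Cfsg.Agent.Lib.Helper95.HallA Cfsg.Agent.Lib.Helper95.SemiA Cfsg.Agent.Lib.Helper95.SemiB

noncomputable section

/-- If `p(M) = 0` then the characteristic polynomial of `M` divides a power of `p`. -/
theorem charpoly_dvd_pow {R : Type*} [CommRing R] {n : Type*} [Fintype n] [DecidableEq n]
    (M : Matrix n n R) (p : R[X]) (hp : aeval M p = 0) : M.charpoly ∣ p ^ Fintype.card n := by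
  have key : ∀ p : R[X], ∃ Q : Matrix n n R[X],
      Matrix.scalar n p - (C : R →+* R[X]).mapMatrix (aeval M p) = M.charmatrix * Q := by
    intro p
    induction p using Polynomial.induction_on' with
    | add p q hp hq =>
      obtain ⟨Q₁, h1⟩ := hp
      obtain ⟨Q₂, h2⟩ := hq
      refine ⟨Q₁ + Q₂, ?_⟩
      rw [map_add, map_add, map_add, mul_add, ← h1, ← h2]
      abel
    | monomial k a =>
      have hc : Commute (Matrix.scalar n (X : R[X])) ((C : R →+* R[X]).mapMatrix M) :=
        Matrix.scalar_commute _ (fun r => Commute.all _ _) _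
      refine ⟨Matrix.scalar n (C a) * ∑ i ∈ Finset.range k,
        Matrix.scalar n (X : R[X]) ^ i * ((C : R →+* R[X]).mapMatrix M) ^ (k - 1 - i), ?_⟩
      have h1 : Matrix.scalar n (monomial k a) =
          Matrix.scalar n (C a) * Matrix.scalar n (X : R[X]) ^ k := by
        rw [← C_mul_X_pow_eq_monomial, map_mul, map_pow]
      have h2 : (C : R →+* R[X]).mapMatrix (aeval M (monomial k a)) =
          Matrix.scalar n (C a) * ((C : R →+* R[X]).mapMatrix M) ^ k := by
        rw [aeval_monomial, map_mul, map_pow]
        congr 1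
        ext i j
        rw [Matrix.algebraMap_eq_diagonal, Matrix.scalar_apply, RingHom.mapMatrix_apply,
          Matrix.map_apply, Matrix.diagonal_apply, Matrix.diagonal_apply]
        split_ifs <;> simp
      have hcomm : Commute (Matrix.scalar n (C a)) M.charmatrix :=
        Matrix.scalar_commute _ (fun r => Commute.all _ _) _
      rw [h1, h2, ← mul_sub, ← hc.mul_geom_sum₂ k, ← mul_assoc, ← mul_assoc]
      congr 1
  obtain ⟨Q, hQ⟩ := key p
  rw [hp, map_zero, sub_zero] at hQ
  have h3 := congrArg Matrix.det hQ
  rw [Matrix.det_mul] at h3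
  have h4 : (Matrix.scalar n p).det = p ^ Fintype.card n := by
    rw [Matrix.scalar_apply, Matrix.det_diagonal, Finset.prod_const, Finset.card_univ]
  rw [h4] at h3
  exact ⟨Q.det, h3⟩

theorem lin_charpoly_dvd_pow {F W : Type*} [Field F] [AddCommGroup W] [Module F W]
    [Module.Finite F W] (ψ : W →ₗ[F] W) (p : F[X]) (hp : aeval ψ p = 0) :
    ψ.charpoly ∣ p ^ Module.finrank F W := by
  classical
  let b := Module.finBasis F W
  have h1 := LinearMap.charpoly_toMatrix ψ b
  rw [← h1]
  have h2 : aeval (LinearMap.toMatrix b b ψ) p = 0 := by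
    have := Polynomial.aeval_algHom_apply (LinearMap.toMatrixAlgEquiv b) ψ p
    rw [hp, map_zero] at this
    exact this
  have h3 := charpoly_dvd_pow (LinearMap.toMatrix b b ψ) p h2
  rwa [Fintype.card_fin] at h3

theorem charpoly_compl {F V : Type*} [Field F] [AddCommGroup V] [Module F V] [Module.Finite F V]
    (φ : V →ₗ[F] V) (P Q : Submodule F V) (hPQ : IsCompl P Q) (hP : ∀ x ∈ P, φ x ∈ P)
    (hQ : ∀ x ∈ Q, φ x ∈ Q) :
    φ.charpoly = (φ.restrict hP).charpoly * (φ.restrict hQ).charpoly := by
  have hψ : (Submodule.prodEquivOfIsCompl P Q hPQ).conj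
      ((φ.restrict hP).prodMap (φ.restrict hQ)) = φ := by
    apply LinearMap.ext
    intro v
    obtain ⟨⟨a, b⟩, rfl⟩ := (Submodule.prodEquivOfIsCompl P Q hPQ).surjective v
    rw [LinearEquiv.conj_apply_apply, LinearEquiv.symm_apply_apply]
    rw [Submodule.coe_prodEquivOfIsCompl', Submodule.coe_prodEquivOfIsCompl', LinearMap.prodMap_apply]
    simp only [LinearMap.coe_restrict_apply, map_add]
  have h1 := LinearEquiv.charpoly_conj (Submodule.prodEquivOfIsCompl P Q hPQ)
    ((φ.restrict hP).prodMap (φ.restrict hQ))
  rw [hψ] at h1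
  rw [h1, LinearMap.charpoly_prodMap]

theorem aeval_restrict_apply {F V : Type*} [Field F] [AddCommGroup V] [Module F V]
    (φ : V →ₗ[F] V) (P : Submodule F V) (hP : ∀ x ∈ P, φ x ∈ P) (p : F[X]) (w : P) :
    ((aeval (φ.restrict hP) p) w : V) = aeval φ p (w : V) := by
  induction p using Polynomial.induction_on' with
  | add p q hp hq =>
    rw [map_add, map_add, LinearMap.add_apply, LinearMap.add_apply, Submodule.coe_add, hp, hq]
  | monomial k a =>
    rw [aeval_monomial, aeval_monomial]
    simp only [Module.End.mul_apply, Module.algebraMap_end_apply, Submodule.coe_smul]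
    congr 1
    induction k with
    | zero => simp
    | succ k ih =>
      rw [pow_succ', pow_succ', Module.End.mul_apply, Module.End.mul_apply,
        LinearMap.coe_restrict_apply, ih]

/-- The multiplicity of an irreducible factor of the characteristic polynomial. -/
theorem count_mul_natDegree {F V : Type*} [Field F] [DecidableEq F] [AddCommGroup V] [Module F V]
    [Module.Finite F V] (φ : V →ₗ[F] V) (f g : F[X]) (hf : Irreducible f) (hfm : f.Monic)
    (hcop : IsCoprime f g) (hann : aeval φ (f * g) = 0) :
    (UniqueFactorizationMonoid.normalizedFactors φ.charpoly).count f * f.natDegree =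
      Module.finrank F (LinearMap.ker (aeval φ f)) := by
  set P := LinearMap.ker (aeval φ f) with hPdef
  set Q := LinearMap.ker (aeval φ g) with hQdef
  have hP : ∀ x ∈ P, φ x ∈ P := inv_ker φ f
  have hQ : ∀ x ∈ Q, φ x ∈ Q := inv_ker φ g
  have hPQ : IsCompl P Q := by
    refine ⟨disjoint_ker_aeval_of_isCoprime φ hcop, ?_⟩
    rw [codisjoint_iff, hPdef, hQdef, sup_ker_aeval_eq_ker_aeval_mul_of_coprime φ hcop, hann,
      LinearMap.ker_zero]
  have hχ := charpoly_compl φ P Q hPQ hP hQ
  have h1 : aeval (φ.restrict hP) f = 0 := by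
    apply LinearMap.ext
    intro w
    apply Subtype.ext
    rw [aeval_restrict_apply]
    exact LinearMap.mem_ker.mp w.2
  have h2 : aeval (φ.restrict hQ) g = 0 := by
    apply LinearMap.ext
    intro w
    apply Subtype.ext
    rw [aeval_restrict_apply]
    exact LinearMap.mem_ker.mp w.2
  have d1 := lin_charpoly_dvd_pow (φ.restrict hP) f h1
  have d2 := lin_charpoly_dvd_pow (φ.restrict hQ) g h2
  obtain ⟨k, -, hk⟩ := (dvd_prime_pow hf.prime _).mp d1
  have hk' : (φ.restrict hP).charpoly = f ^ k :=
    eq_of_monic_of_associated (LinearMap.charpoly_monic _) (hfm.pow k) hk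
  have hdeg : k * f.natDegree = Module.finrank F P := by
    rw [← LinearMap.charpoly_natDegree (φ.restrict hP), hk', natDegree_pow]
  rw [← hdeg]
  congr 1
  rw [hχ, UniqueFactorizationMonoid.normalizedFactors_mul (LinearMap.charpoly_monic _).ne_zero
    (LinearMap.charpoly_monic _).ne_zero, Multiset.count_add, hk',
    UniqueFactorizationMonoid.normalizedFactors_pow,
    UniqueFactorizationMonoid.normalizedFactors_irreducible hf, hfm.normalize_eq_self,
    Multiset.count_nsmul, Multiset.count_singleton_self, mul_one]
  have h3 : Multiset.count f (UniqueFactorizationMonoid.normalizedFactors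
      (φ.restrict hQ).charpoly) = 0 := by
    rw [Multiset.count_eq_zero]
    intro hmem
    have h4 := UniqueFactorizationMonoid.dvd_of_mem_normalizedFactors hmem
    have h5 : f ∣ g := hf.prime.dvd_of_dvd_pow (h4.trans d2)
    exact hf.not_isUnit (hcop.isUnit_of_dvd' (dvd_refl f) h5)
  rw [h3, add_zero]

/-- An endomorphism of order prime to the characteristic is killed by the radical of its
characteristic polynomial. -/
theorem ann_radical {F V : Type*} [Field F] [DecidableEq F] [AddCommGroup V] [Module F V]
    [Module.Finite F V] (φ : V →ₗ[F] V) (k : ℕ) (hk : (k : F) ≠ 0) (hφ : φ ^ k = 1) :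
    aeval φ (∏ f ∈ (UniqueFactorizationMonoid.normalizedFactors φ.charpoly).toFinset, f) = 0 := by
  have h1 : minpoly F φ ∣ X ^ k - C (1 : F) := by
    apply minpoly.dvd
    rw [map_sub, map_pow, aeval_X, aeval_C, hφ, map_one, sub_self]
  have hsq : Squarefree (minpoly F φ) :=
    (separable_X_pow_sub_C (1 : F) hk one_ne_zero).squarefree.squarefree_of_dvd h1
  have hm0 : minpoly F φ ≠ 0 := minpoly.ne_zero_of_finite F φ
  have hχ0 : φ.charpoly ≠ 0 := (LinearMap.charpoly_monic φ).ne_zero
  have h2 := (UniqueFactorizationMonoid.dvd_iff_normalizedFactors_le_normalizedFactors hm0 hχ0).mp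
    (LinearMap.minpoly_dvd_charpoly φ)
  have h3 := (UniqueFactorizationMonoid.squarefree_iff_nodup_normalizedFactors hm0).mp hsq
  have h4 := Multiset.prod_dvd_prod_of_le (Multiset.le_dedup.mpr ⟨h2, h3⟩)
  have h5 : minpoly F φ ∣
      ∏ f ∈ (UniqueFactorizationMonoid.normalizedFactors φ.charpoly).toFinset, f := by
    rw [Finset.prod_eq_multiset_prod, Multiset.toFinset_val, Multiset.map_id']
    exact (UniqueFactorizationMonoid.prod_normalizedFactors hm0).symm.dvd.trans h4
  obtain ⟨c, hc⟩ := h5
  rw [hc, map_mul, minpoly.aeval, zero_mul]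

theorem factors_irreducible {F : Type*} [Field F] [DecidableEq F] (χ : F[X]) :
    ∀ f ∈ (UniqueFactorizationMonoid.normalizedFactors χ).toFinset, Irreducible f := by
  intro f hf
  rw [Multiset.mem_toFinset] at hf
  exact UniqueFactorizationMonoid.irreducible_of_normalized_factor f hf

theorem factors_monic {F : Type*} [Field F] [DecidableEq F] (χ : F[X]) :
    ∀ f ∈ (UniqueFactorizationMonoid.normalizedFactors χ).toFinset, f.Monic := by
  intro f hf
  rw [Multiset.mem_toFinset] at hf
  have h1 := UniqueFactorizationMonoid.normalize_normalized_factor f hf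
  rw [← h1]
  exact monic_normalize (UniqueFactorizationMonoid.irreducible_of_normalized_factor f hf).ne_zero

theorem factors_coprime {F : Type*} [Field F] [DecidableEq F] (χ : F[X]) :
    ∀ f ∈ (UniqueFactorizationMonoid.normalizedFactors χ).toFinset,
      ∀ g ∈ (UniqueFactorizationMonoid.normalizedFactors χ).toFinset, f ≠ g → IsCoprime f g := by
  intro f hf g hg hne
  rw [(factors_irreducible χ f hf).coprime_iff_not_dvd]
  intro hdvd
  exact hne (eq_of_monic_of_associated (factors_monic χ f hf) (factors_monic χ g hg)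
    ((factors_irreducible χ f hf).associated_of_dvd (factors_irreducible χ g hg) hdvd))

/-- The Möbius value at the top for an endomorphism of order prime to the characteristic. -/
theorem A_top {F V : Type*} [Field F] [DecidableEq F] [AddCommGroup V] [Module F V] [Finite F]
    [Finite V] (φ : V →ₗ[F] V) (k : ℕ) (hk : (k : F) ≠ 0) (hφ : φ ^ k = 1) :
    A φ (⊤ : Submodule F V) =
      ∏ f ∈ (UniqueFactorizationMonoid.normalizedFactors φ.charpoly).toFinset,
        (-1 : ℤ) ^ (UniqueFactorizationMonoid.normalizedFactors φ.charpoly).count f *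
          ((Nat.card F : ℤ) ^ f.natDegree) ^
            ((UniqueFactorizationMonoid.normalizedFactors φ.charpoly).count f).choose 2 := by
  have hann := ann_radical φ k hk hφ
  rw [A_semi φ _ (factors_irreducible _) (factors_coprime _) ⊤ (fun v _ => Submodule.mem_top)
    (fun v _ => by rw [hann]; rfl)]
  refine Finset.prod_congr rfl fun f hf => ?_
  have hirr := factors_irreducible _ f hf
  have hcop : IsCoprime f (∏ g ∈ ((UniqueFactorizationMonoid.normalizedFactors
      φ.charpoly).toFinset).erase f, g) := by
    apply IsCoprime.prod_right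
    intro g hg
    exact factors_coprime _ f hf g (Finset.mem_of_mem_erase hg) (Finset.ne_of_mem_erase hg).symm
  have hann' : aeval φ (f * ∏ g ∈ ((UniqueFactorizationMonoid.normalizedFactors
      φ.charpoly).toFinset).erase f, g) = 0 := by
    have h1 := Finset.mul_prod_erase _ (fun g : F[X] => g) hf
    rw [h1]
    exact hann
  have hcount := count_mul_natDegree φ f _ hirr (factors_monic _ f hf) hcop hann'
  rw [top_inf_eq, ← hcount]
  unfold B
  rw [Nat.mul_div_cancel _ hirr.natDegree_pos]

end

end Cfsg.Agent.Lib.Helper95.SemiC
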