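import Mathlib
import Cfsg.Agent.Lib.Helper39.TLStmt
import Cfsg.Agent.Lib.Helper91.Hall

/-!
helper95: S4404 piece HALL: a `{3, p}`-subgroup containing a given 3-subgroup and a conjugate of
a given `p`-subgroup of a finite solvable group (Hall's theorems, `Cfsg.Agent.Lib.Helper91.Hall`).
-/

set_option autoImplicit false

namespace Cfsg.Agent.Lib.Helper95.TLHALL

open Cfsg Cfsg.Agent.Lib.Helper39.TLStmt

open scoped Pointwise

universe u

theorem main : Hall.{u} := by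
  intro S _ _ _ p hp Q E hQ hE
  have : Fact p.Prime := ⟨hp⟩
  have : Fact (Nat.Prime 3) := ⟨Nat.prime_three⟩
  have hN : Nat.card S ≠ 0 := Nat.card_pos.ne'
  obtain ⟨a, ha⟩ : ∃ a, a = (Nat.card S).factorization 3 := ⟨_, rfl⟩
  obtain ⟨N₁, hN₁⟩ : ∃ N₁, N₁ = Nat.card S / 3 ^ (Nat.card S).factorization 3 := ⟨_, rfl⟩
  have h1 : 3 ^ a * N₁ = Nat.card S := by
    rw [ha, hN₁]
    exact Nat.ordProj_mul_ordCompl_eq_self (Nat.card S) 3
  have c1 : Nat.Coprime 3 N₁ := by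
    rw [hN₁]
    exact Nat.coprime_ordCompl Nat.prime_three hN
  have hN₁0 : N₁ ≠ 0 := by
    intro h
    rw [h, mul_zero] at h1
    exact hN h1.symm
  obtain ⟨b, hb⟩ : ∃ b, b = N₁.factorization p := ⟨_, rfl⟩
  obtain ⟨n, hn⟩ : ∃ n, n = N₁ / p ^ N₁.factorization p := ⟨_, rfl⟩
  have h2 : p ^ b * n = N₁ := by
    rw [hb, hn]
    exact Nat.ordProj_mul_ordCompl_eq_self N₁ p
  have c2 : Nat.Coprime p n := by
    rw [hn]
    exact Nat.coprime_ordCompl hp hN₁0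
  have c3 : Nat.Coprime 3 n :=
    Nat.Coprime.coprime_dvd_right (Dvd.intro_left _ h2) c1
  have hG : Nat.card S = (3 ^ a * p ^ b) * n := by
    rw [← h1, ← h2, mul_assoc]
  have hmn : (3 ^ a * p ^ b).Coprime n :=
    Nat.Coprime.mul_left (Nat.Coprime.pow_left a c3) (Nat.Coprime.pow_left b c2)
  obtain ⟨k, hk⟩ := hQ.exists_card_eq
  obtain ⟨j, hj⟩ := hE.exists_card_eq
  obtain ⟨T, hT, hQT⟩ := Cfsg.Agent.Lib.Helper91.Hall.hall_contain (3 ^ a * p ^ b) n hG hmn Q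
    (by rw [hk]; exact Nat.Coprime.pow_left k c3)
  obtain ⟨T', hT', hET'⟩ := Cfsg.Agent.Lib.Helper91.Hall.hall_contain (3 ^ a * p ^ b) n hG hmn E
    (by rw [hj]; exact Nat.Coprime.pow_left j c2)
  obtain ⟨g, hg⟩ := Cfsg.Agent.Lib.Helper91.Hall.hall_conj (3 ^ a * p ^ b) n hG hmn T' T hT' hT
  refine ⟨T, ?_, hQT, g, ?_⟩
  · intro q hq hqd
    rw [hT] at hqd
    rcases (Nat.Prime.dvd_mul hq).mp hqd with h | h
    · left
      exact (Nat.prime_dvd_prime_iff_eq hq Nat.prime_three).mp (hq.dvd_of_dvd_pow h)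
    · right
      exact (Nat.prime_dvd_prime_iff_eq hq hp).mp (hq.dvd_of_dvd_pow h)
  · intro x hx
    obtain ⟨e, he, rfl⟩ := Subgroup.mem_map.mp hx
    rw [← hg, Cfsg.Agent.Lib.Helper91.Hall.mem_conj_smul]
    have e1 : g⁻¹ * ((MulAut.conj g).toMonoidHom e) * g = e := by
      simp only [MulEquiv.toMonoidHom_eq_coe, MonoidHom.coe_coe, MulAut.conj_apply]
      group
    rw [e1]
    exact hET' he

end Cfsg.Agent.Lib.Helper95.TLHALL
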