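import Mathlib
import Cfsg.Agent.Lib.Helper39.TLStmt
import Cfsg.Agent.Lib.Helper91.Hall
import Cfsg.Agent.S0100

/-!
helper95: S4404 piece RANK: if a Sylow 3-subgroup has no normal elementary abelian subgroup of
order 27, then the elementary abelian 3-subgroups of the group have order at most 9
(`Cfsg.Agent.S0100.result` in the Sylow subgroup, and Sylow's theorems).
-/

set_option autoImplicit false

namespace Cfsg.Agent.Lib.Helper95.TLRANK

open Cfsg Cfsg.Agent.Lib.Helper39.TLStmt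

open scoped Pointwise

universe u

theorem main : Rank.{u} := by
  intro S _ _ T hT B hB
  have : Fact (Nat.Prime 3) := ⟨Nat.prime_three⟩
  obtain ⟨hBc, hBe⟩ := hB
  have hBcomm : ∀ a ∈ B, ∀ b ∈ B, a * b = b * a := fun a ha b hb =>
    congrArg Subtype.val (isMulCommutative_iff.mp hBc ⟨a, ha⟩ ⟨b, hb⟩)
  have hBp : IsPGroup 3 ↥B := by
    intro g
    refine ⟨1, ?_⟩
    rw [pow_one]
    apply Subtype.ext
    rw [Subgroup.coe_pow]
    exact hBe g g.2
  obtain ⟨Q, hQ⟩ := hBp.exists_le_sylow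
  obtain ⟨g, hg⟩ := MulAction.exists_smul_eq S Q T
  have hmemT : ∀ b ∈ B, g * b * g⁻¹ ∈ (T : Subgroup S) := by
    intro b hb
    rw [← hg, Sylow.coe_subgroup_smul, Cfsg.Agent.Lib.Helper91.Hall.mem_conj_smul]
    have e : g⁻¹ * (g * b * g⁻¹) * g = b := by group
    rw [e]
    exact hQ hb
  -- the embedding `t ↦ g⁻¹ t g` of `T` into `S`
  obtain ⟨ψ, hψ⟩ : ∃ ψ : ↥(T : Subgroup S) →* S, ∀ t : ↥(T : Subgroup S), ψ t = g⁻¹ * (t : S) * g :=
    ⟨(MulAut.conj g⁻¹).toMonoidHom.comp (T : Subgroup S).subtype, fun t => by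
      simp⟩
  have hψinj : Function.Injective ψ := by
    intro t₁ t₂ h
    rw [hψ, hψ] at h
    apply Subtype.ext
    have e1 : (t₁ : S) = g * (g⁻¹ * (t₁ : S) * g) * g⁻¹ := by group
    rw [e1, h]
    group
  have hcard : Nat.card ↥(B.comap ψ) = Nat.card ↥B := by
    let f : ↥(B.comap ψ) → ↥B := fun t => ⟨ψ t.1, t.2⟩
    apply Nat.card_eq_of_bijective f
    constructor
    · intro t₁ t₂ h
      have h1 : ψ t₁.1 = ψ t₂.1 := congrArg Subtype.val h
      exact Subtype.ext (hψinj h1)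
    · rintro ⟨b, hb⟩
      have hb' : ψ ⟨g * b * g⁻¹, hmemT b hb⟩ = b := by
        rw [hψ]
        group
      exact ⟨⟨⟨g * b * g⁻¹, hmemT b hb⟩, by rw [Subgroup.mem_comap, hb']; exact hb⟩,
        Subtype.ext hb'⟩
  have hEc : IsMulCommutative ↥(B.comap ψ) := by
    rw [isMulCommutative_iff]
    intro t₁ t₂
    apply Subtype.ext
    apply hψinj
    show ψ (t₁.1 * t₂.1) = ψ (t₂.1 * t₁.1)
    rw [map_mul, map_mul]
    exact hBcomm _ t₁.2 _ t₂.2
  have hEe : ∀ t ∈ B.comap ψ, t ^ 3 = 1 := by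
    intro t ht
    apply hψinj
    rw [map_pow, map_one]
    exact hBe _ ht
  have hmain := Cfsg.Agent.S0100.result (P := ↥(T : Subgroup S)) (p := 3) (by norm_num)
    T.isPGroup' (by
      intro A hAn hAc hAe hcardA
      have hAcomm : ∀ a b : ↥A, a * b = b * a := isMulCommutative_iff.mp hAc
      apply hT (A.map (T : Subgroup S).subtype)
      · rintro x ⟨a, -, rfl⟩
        exact a.2
      · rintro t ht x ⟨a, ha, rfl⟩
        exact ⟨⟨t, ht⟩ * a * ⟨t, ht⟩⁻¹, hAn.conj_mem a ha ⟨t, ht⟩, rfl⟩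
      · constructor
        · rw [isMulCommutative_iff]
          rintro ⟨x, a, ha, rfl⟩ ⟨y, b, hb, rfl⟩
          apply Subtype.ext
          have h1 : a * b = b * a := congrArg Subtype.val (hAcomm ⟨a, ha⟩ ⟨b, hb⟩)
          have h2 : (a : S) * (b : S) = (b : S) * (a : S) := by
            rw [← Subgroup.coe_mul, h1, Subgroup.coe_mul]
          exact h2
        · rintro x ⟨a, ha, rfl⟩
          have h1 := hAe a ha
          have h2 := congrArg Subtype.val h1
          rw [Subgroup.coe_pow] at h2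
          exact h2
      · rw [Subgroup.card_subtype, hcardA]
        norm_num) (B.comap ψ) hEc hEe
  rw [hcard] at hmain
  exact hmain

end Cfsg.Agent.Lib.Helper95.TLRANK
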